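import Mathlib
import Cfsg.Prelude.Def_Local
import Cfsg.Agent.H9.PConstr3

/-!
# Subgroups of characteristic `p` (helper library of helper9)
-/

set_option autoImplicit false
set_option linter.style.haveILetI false
set_option linter.unusedSectionVars false

open scoped commutatorElement

namespace Cfsg.H9

universe u

section
variable {G : Type u} [Group G] [Finite G] {p : ℕ} [Fact p.Prime]

theorem isPGroup_genFitting_iff :
    IsPGroup p ↥(generalizedFittingSubgroup G) ↔ pLayer p G = ⊥ ∧ pPrimeCore p G = ⊥ := by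
  constructor
  · intro h
    have h1 : generalizedFittingSubgroup G = pCore p G :=
      le_antisymm (le_pCore p inferInstance h)
        ((pCore_le_fitting p).trans fitting_le_genFitting)
    obtain ⟨h2, h3⟩ := genFitting_eq_pCore_iff.mp h1
    exact ⟨(pLayer_eq_layer_iff_of_pPrimeCore_eq_bot h3).mpr h2, h3⟩
  · rintro ⟨h2, h3⟩
    have h1 : generalizedFittingSubgroup G = pCore p G :=
      genFitting_eq_pCore_iff.mpr ⟨(pLayer_eq_layer_iff_of_pPrimeCore_eq_bot h3).mp h2, h3⟩
    rw [h1]
    exact pCore_isPGroup p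

/-- `H` has characteristic `p` -/
def CharP (p : ℕ) (H : Subgroup G) : Prop := pLayer p ↥H = ⊥ ∧ coreOf p H = ⊥

theorem charP_iff (H : Subgroup G) :
    CharP p H ↔ IsPGroup p ↥(generalizedFittingSubgroup ↥H) := by
  rw [isPGroup_genFitting_iff]
  unfold CharP coreOf
  rw [Subgroup.map_eq_bot_iff_of_injective _ (Subgroup.subtype_injective _)]

theorem pLayer_inf_centralizer_eq_bot {H P : Subgroup G} (hL : pLayer p ↥H = ⊥) (hPH : P ≤ H)
    (hP : IsPGroup p ↥P) : pLayer p ↥(H ⊓ Subgroup.centralizer (P : Set G)) = ⊥ := by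
  have h1 := (isPConstrained_normalizer_centralizer (isPConstrained_iff.mpr hL) (P.subgroupOf H)
    (hP.comap_of_injective H.subtype (Subgroup.subtype_injective _))).2
  rw [isPConstrained_iff, centralizer_subgroupOf hPH, ← Subgroup.inf_subgroupOf_left] at h1
  exact pLayer_eq_bot_of_mulEquiv (Subgroup.subgroupOfEquivOfLe inf_le_left) h1

theorem charP_inf_centralizer {H P : Subgroup G} (h : CharP p H) (hPH : P ≤ H)
    (hP : IsPGroup p ↥P) : CharP p (H ⊓ Subgroup.centralizer (P : Set G)) :=
  ⟨pLayer_inf_centralizer_eq_bot h.1 hPH hP,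
    le_bot_iff.mp (h.2 ▸ coreOf_centralizer_le h.1 hPH hP)⟩

/-- if `C ⊴ M` has characteristic `p` and contains all `p'`-elements of `M`, then `M` has
characteristic `p` -/
theorem charP_of_normal {C M : Subgroup G} (h : CharP p C) (hCM : C ≤ M)
    (hMN : M ≤ Subgroup.normalizer (C : Set G))
    (hp' : ∀ x : ↥M, (orderOf x).Coprime p → x ∈ C.subgroupOf M) : CharP p M := by
  haveI hCn : (C.subgroupOf M).Normal := (Subgroup.normal_subgroupOf_iff_le_normalizer hCM).mpr hMN
  constructor
  · -- no `p`-components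
    have h1 : pPrimeLayer p ↥M ≤ C.subgroupOf M := by
      apply le_of_perfect_mod p
      · exact (pPrimeLayer_le_commutator_sup p).trans (sup_le_sup_left (by
          intro x hx
          apply hp'
          exact Nat.Coprime.coprime_dvd_left
            ((Subgroup.orderOf_mk x hx ▸ orderOf_dvd_natCard (⟨x, hx⟩ : ↥(pPrimeCore p ↥M))))
            (pPrimeCore_coprime p)) _)
      · intro x _ hx
        exact hp' x hx
    have h2 := pPrimeLayer_le_wOf hCn.isSubnormal h1
    have h3 : pLayer p ↥(C.subgroupOf M) = ⊥ :=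
      pLayer_eq_bot_of_mulEquiv (Subgroup.subgroupOfEquivOfLe hCM).symm h.1
    rw [wOf_eq_coreOf_of_pLayer_eq_bot h3] at h2
    unfold pLayer
    rw [sSup_eq_bot]
    intro J hJ
    exfalso
    have hJ' : IsPComponent p J := hJ
    have h4 : (Nat.card ↥J).Coprime p :=
      Nat.Coprime.coprime_dvd_left (Subgroup.card_dvd_of_le
        (((pcomp_le_pLayer hJ').trans pLayer_le_pPrimeLayer).trans h2)) (coreOf_coprime _)
    exact (Nat.Prime.coprime_iff_not_dvd (Fact.out (p := p.Prime))).mp h4.symm (pcomp_dvd_card hJ')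
  · rw [eq_bot_iff, ← h.2]
    apply le_coreOf
    · rintro _ ⟨x, hx, rfl⟩
      apply hp' x
      exact Nat.Coprime.coprime_dvd_left
        ((Subgroup.orderOf_mk x hx ▸ orderOf_dvd_natCard (⟨x, hx⟩ : ↥(pPrimeCore p ↥M))))
        (pPrimeCore_coprime p)
    · exact hCM.trans (le_normalizer_coreOf Subgroup.le_normalizer)
    · exact coreOf_coprime _

/-- an extension of a group of characteristic `p` by a `p`-group has characteristic `p` -/
theorem charP_sup {C U : Subgroup G} (h : CharP p C) (hU : IsPGroup p ↥U)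
    (hUC : U ≤ Subgroup.normalizer (C : Set G)) : CharP p (C ⊔ U) := by
  set M := C ⊔ U with hM
  have hCM : C ≤ M := le_sup_left
  have hMN : M ≤ Subgroup.normalizer (C : Set G) := sup_le Subgroup.le_normalizer hUC
  haveI hCn : (C.subgroupOf M).Normal := (Subgroup.normal_subgroupOf_iff_le_normalizer hCM).mpr hMN
  apply charP_of_normal h hCM hMN
  intro x hx
  obtain ⟨c, hc, u, hu, hcu⟩ := (mem_sup_of_le_normalizer hUC).mp x.2
  obtain ⟨k, hk⟩ := hU ⟨u, hu⟩
  have hk' : u ^ p ^ k = 1 := by simpa using congrArg Subtype.val hk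
  have h1 : (QuotientGroup.mk' (C.subgroupOf M) x) ^ p ^ k = 1 := by
    have hcM : c ∈ M := hCM hc
    have huM : u ∈ M := (le_sup_right : U ≤ M) hu
    have hx' : x = (⟨c, hcM⟩ : ↥M) * ⟨u, huM⟩ := Subtype.ext hcu.symm
    have h2 : QuotientGroup.mk' (C.subgroupOf M) (⟨c, hcM⟩ : ↥M) = 1 :=
      (QuotientGroup.eq_one_iff _).mpr hc
    rw [hx', map_mul, h2, one_mul, ← map_pow]
    have : (⟨u, huM⟩ : ↥M) ^ p ^ k = 1 := Subtype.ext (by simpa using hk')
    rw [this, map_one]
  have h3 : (QuotientGroup.mk' (C.subgroupOf M) x) ^ orderOf x = 1 := by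
    rw [← map_pow, pow_orderOf_eq_one, map_one]
  have h4 : QuotientGroup.mk' (C.subgroupOf M) x = 1 := by
    have hc : Nat.Coprime (p ^ k) (orderOf x) := (Nat.Coprime.pow_right k hx).symm
    have := pow_gcd_eq_one.mpr ⟨h1, h3⟩
    rwa [hc, pow_one] at this
  exact (QuotientGroup.eq_one_iff _).mp h4

theorem charP_top_iff : CharP p (⊤ : Subgroup G) ↔ pLayer p G = ⊥ ∧ pPrimeCore p G = ⊥ := by
  unfold CharP
  rw [coreOf_top]
  constructor
  · rintro ⟨h1, h2⟩
    exact ⟨pLayer_eq_bot_of_mulEquiv Subgroup.topEquiv h1, h2⟩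
  · rintro ⟨h1, h2⟩
    exact ⟨pLayer_eq_bot_of_mulEquiv Subgroup.topEquiv.symm h1, h2⟩

theorem centralizer_pCore_le_iff :
    Subgroup.centralizer (pCore p G : Set G) ≤ pCore p G ↔ pLayer p G = ⊥ ∧ pPrimeCore p G = ⊥ := by
  constructor
  · intro h
    have h1 : pPrimeCore p G = ⊥ := by
      rw [eq_bot_iff, ← pGroup_inf_coprime_eq_bot (pCore_isPGroup p (G := G))
        (pPrimeCore_coprime p (G := G))]
      refine le_inf (le_trans ?_ h) le_rfl
      exact Subgroup.commutator_eq_bot_iff_le_centralizer.mp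
        (pPrimeCore_comm_normal_pGroup inferInstance (pCore_isPGroup p))
    refine ⟨?_, h1⟩
    rw [pLayer_eq_layer_iff_of_pPrimeCore_eq_bot h1]
    apply perfect_pGroup_eq_bot (p := p) layer_perfect
    refine (pCore_isPGroup p (G := G)).to_le (le_trans ?_ h)
    exact Subgroup.commutator_eq_bot_iff_le_centralizer.mp
      (layer_comm_normal_pGroup inferInstance (pCore_isPGroup p))
  · rintro ⟨h1, h2⟩
    have h3 : generalizedFittingSubgroup G = pCore p G :=
      genFitting_eq_pCore_iff.mpr ⟨(pLayer_eq_layer_iff_of_pPrimeCore_eq_bot h2).mp h1, h2⟩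
    rw [← h3]
    exact centralizer_genFitting_le

theorem charP_iff_centralizer (H : Subgroup G) :
    CharP p H ↔ Subgroup.centralizer (pCore p ↥H : Set ↥H) ≤ pCore p ↥H := by
  rw [centralizer_pCore_le_iff]
  unfold CharP coreOf
  rw [Subgroup.map_eq_bot_iff_of_injective _ (Subgroup.subtype_injective _)]

theorem charP_of_subnormal (h : pLayer p G = ⊥ ∧ pPrimeCore p G = ⊥) {H : Subgroup G}
    (hH : H.IsSubnormal) : CharP p H := by
  refine ⟨pLayer_eq_bot_of_subnormal hH h.1, ?_⟩
  unfold coreOf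
  rw [map_pPrimeCore_subnormal p hH, h.2, bot_inf_eq]

theorem charP_centralizer_of_normal {U V : Subgroup G} (hVU : V ≤ U)
    (hn : U ≤ Subgroup.normalizer (V : Set G)) (hU : IsPGroup p ↥U)
    (h : CharP p (Subgroup.centralizer (V : Set G))) :
    CharP p (Subgroup.centralizer (U : Set G)) := by
  have hCN : Subgroup.centralizer (V : Set G) ≤ Subgroup.normalizer (V : Set G) :=
    Subgroup.centralizer_le_normalizer _
  have h1 : U ≤ Subgroup.normalizer ((Subgroup.centralizer (V : Set G) : Subgroup G) : Set G) :=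
    hn.trans ((Subgroup.normal_subgroupOf_iff_le_normalizer hCN).mp inferInstance)
  have h2 := charP_inf_centralizer (charP_sup h hU h1) le_sup_right hU
  have h3 : (Subgroup.centralizer (V : Set G) ⊔ U) ⊓ Subgroup.centralizer (U : Set G) =
      Subgroup.centralizer (U : Set G) :=
    inf_eq_right.mpr ((Subgroup.centralizer_le (SetLike.coe_subset_coe.mpr hVU)).trans le_sup_left)
  rwa [h3] at h2

theorem charP_centralizer_mono {U : Subgroup G} (hU : IsPGroup p ↥U) (V : Subgroup G) :
    V ≤ U → CharP p (Subgroup.centralizer (V : Set G)) →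
      CharP p (Subgroup.centralizer (U : Set G)) := by
  induction V using WellFoundedGT.induction with
  | ind V ih =>
    intro hVU h
    rcases eq_or_lt_of_le hVU with rfl | hlt
    · exact h
    · obtain ⟨x, hxU, hxN, hxV⟩ := Cfsg.Agent.H20.exists_mem_normalizer_not_mem hU hlt
      have hle : V ≤ U ⊓ Subgroup.normalizer (V : Set G) := le_inf hVU Subgroup.le_normalizer
      have hVV₁ : V < U ⊓ Subgroup.normalizer (V : Set G) :=
        lt_of_le_of_ne hle (fun he => hxV (he ▸ Subgroup.mem_inf.mpr ⟨hxU, hxN⟩))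
      exact ih _ hVV₁ inf_le_left
        (charP_centralizer_of_normal hle inf_le_right (hU.to_le inf_le_left) h)

end

end Cfsg.H9
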