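import Mathlib
set_option autoImplicit false

namespace Cfsg.H9

open scoped IsMulCommutative in
theorem inner_of_cocycle {G : Type*} [Group G] [Finite G] (Z T : Subgroup G) [Z.Normal]
    [IsMulCommutative Z]
    (hcop : (Nat.card Z).Coprime T.index) (α : MulAut G) (hd : ∀ g, α g * g⁻¹ ∈ Z)
    (hT : ∀ t ∈ T, α t = t) :
    ∃ z : G, ∀ x, α x = z * x * z⁻¹ := by
  classical
  haveI : Fintype (G ⧸ T) := Fintype.ofFinite _
  let d : G → Z := fun g => ⟨α g * g⁻¹, hd g⟩
  have hd1 : ∀ g h, d (g * h) = d g * MulAut.conjNormal g (d h) := by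
    intro g h
    apply Subtype.ext
    simp only [d, map_mul, Subgroup.coe_mul, MulAut.conjNormal_apply]
    group
  have hd2 : ∀ g, ∀ t ∈ T, d (g * t) = d g := by
    intro g t ht
    apply Subtype.ext
    simp only [d, map_mul, hT t ht]
    group
  let w : Z := ∏ q : G ⧸ T, d q.out
  have key : ∀ h, w = d h ^ T.index * MulAut.conjNormal h w := by
    intro h
    have e1 : ∏ q : G ⧸ T, d (h * q.out) = w := by
      change _ = ∏ q : G ⧸ T, d q.out
      rw [← Equiv.prod_comp (MulAction.toPerm h) (fun q : G ⧸ T => d q.out)]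
      apply Finset.prod_congr rfl
      intro q _
      have h1 : ((h • q).out : G ⧸ T) = ((h * q.out : G) : G ⧸ T) := by
        rw [QuotientGroup.out_eq']
        conv_lhs => rw [← QuotientGroup.out_eq' q]
        rfl
      have h2 := QuotientGroup.eq.mp h1.symm
      have h3 := hd2 (h * q.out) _ h2
      rw [← h3]
      congr 1
      simp only [MulAction.toPerm_apply]
      group
    have e2 : ∏ q : G ⧸ T, d (h * q.out) = d h ^ T.index * MulAut.conjNormal h w := by
      simp only [hd1 h]
      rw [Finset.prod_mul_distrib, Finset.prod_const, map_prod]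
      congr 2
      rw [Finset.card_univ, Subgroup.index, Nat.card_eq_fintype_card]
    rw [← e2, e1]
  obtain ⟨m, hm⟩ : ∃ m : ℤ, ∀ y : Z, (y ^ T.index) ^ m = y := by
    refine ⟨Nat.gcdB (Nat.card Z) T.index, fun y => ?_⟩
    have h1 := Nat.gcd_eq_gcd_ab (Nat.card Z) T.index
    rw [hcop] at h1
    have h2 : y ^ ((1 : ℕ) : ℤ) = y := by simp
    rw [h1, zpow_add, zpow_mul, zpow_natCast, pow_card_eq_one', one_zpow, one_mul, zpow_mul,
      zpow_natCast] at h2
    exact h2
  refine ⟨((w ^ m : Z) : G), fun x => ?_⟩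
  have h1 := key x
  have h2 : d x = w ^ m * (MulAut.conjNormal x (w ^ m))⁻¹ := by
    have h3 : d x ^ T.index = w * (MulAut.conjNormal x w)⁻¹ := by
      rw [eq_mul_inv_iff_mul_eq]; exact h1.symm
    rw [← hm (d x), h3, mul_zpow, map_zpow, inv_zpow]
  have h4 := congrArg (fun y : Z => (y : G)) h2
  simp only [d, Subgroup.coe_mul, Subgroup.coe_inv, MulAut.conjNormal_apply] at h4
  rw [mul_inv_eq_iff_eq_mul] at h4
  rw [h4]
  group

end Cfsg.H9
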