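import Mathlib
import Cfsg.Prelude.Def_Local
import Cfsg.Prelude.Def_Balance
import Cfsg.Agent.H9.LBal6

/-!
# The diagonal argument for components moved by an element of order `p` (helper9)
-/

set_option autoImplicit false
set_option linter.style.haveILetI false
set_option linter.unusedSectionVars false

open scoped commutatorElement

namespace Cfsg.H9

universe u

section
variable {G : Type u} [Group G]

/-- `l · l^x ⋯ l^{x^{k-1}}` -/
def dprod (x l : G) : ℕ → G
  | 0 => 1
  | k + 1 => dprod x l k * (x ^ k * l * (x ^ k)⁻¹)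

theorem dprod_conj {x d : G} (h : d * x = x * d) (l : G) (k : ℕ) :
    d * dprod x l k * d⁻¹ = dprod x (d * l * d⁻¹) k := by
  induction k with
  | zero => simp [dprod]
  | succ k ih =>
    have hk : d * x ^ k = x ^ k * d := (Commute.pow_right (show Commute d x from h) k)
    have hk' : (x ^ k)⁻¹ * d⁻¹ = d⁻¹ * (x ^ k)⁻¹ := by
      rw [← mul_inv_rev, ← mul_inv_rev, hk]
    simp only [dprod]
    rw [← ih]
    calc d * (dprod x l k * (x ^ k * l * (x ^ k)⁻¹)) * d⁻¹
        = d * dprod x l k * (d⁻¹ * (d * x ^ k)) * l * ((x ^ k)⁻¹ * d⁻¹) := by group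
      _ = d * dprod x l k * (d⁻¹ * (x ^ k * d)) * l * (d⁻¹ * (x ^ k)⁻¹) := by rw [hk, hk']
      _ = d * dprod x l k * d⁻¹ * (x ^ k * (d * l * d⁻¹) * (x ^ k)⁻¹) := by group

theorem dprod_succ' (x l : G) (k : ℕ) :
    dprod x l (k + 1) = l * (x * dprod x l k * x⁻¹) := by
  induction k with
  | zero => simp [dprod]
  | succ k ih =>
    calc dprod x l (k + 1 + 1)
        = dprod x l (k + 1) * (x ^ (k + 1) * l * (x ^ (k + 1))⁻¹) := rfl
      _ = l * (x * dprod x l k * x⁻¹) * (x ^ (k + 1) * l * (x ^ (k + 1))⁻¹) := by rw [ih]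
      _ = l * (x * (dprod x l k * (x ^ k * l * (x ^ k)⁻¹)) * x⁻¹) := by rw [pow_succ']; group
      _ = l * (x * dprod x l (k + 1) * x⁻¹) := rfl

end

section
variable {G : Type u} [Group G] [Finite G] {p : ℕ} [Fact p.Prime]

theorem pow_conj_mem_centralizer {x : G} (hx : orderOf x = p) {L : Subgroup G}
    (hL : IsComponent L) (hxL : x ∉ Subgroup.normalizer (L : Set G)) {i : ℕ} (hi0 : 0 < i)
    (hip : i < p) {l : G} (hl : l ∈ L) :
    x ^ i * l * (x ^ i)⁻¹ ∈ Subgroup.centralizer (L : Set G) := by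
  have hp : p.Prime := Fact.out
  have h1 : x ^ i ∉ Subgroup.normalizer (L : Set G) := by
    intro h
    have hcop : Nat.Coprime i p := (Nat.coprime_of_lt_prime hi0.ne' hip hp).symm
    obtain ⟨m, -, hm⟩ := Nat.exists_mul_mod_eq_one_of_coprime hcop hp.one_lt
    apply hxL
    have : x = (x ^ i) ^ m := by
      rw [← pow_mul, ← pow_mod_orderOf, hx, hm, pow_one]
    rw [this]
    exact pow_mem h m
  have h2 : IsComponent (L.map (MulAut.conj (x ^ i)).toMonoidHom) :=
    isComponent_map_equiv (MulAut.conj (x ^ i)) hL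
  rcases component_eq_or_comm h2 hL with h | h
  · exact absurd (mem_normalizer_of_map_conj_eq h) h1
  · exact Subgroup.commutator_eq_bot_iff_le_centralizer.mp h ⟨l, hl, rfl⟩

theorem dprod_spec {x : G} (hx : orderOf x = p) {L : Subgroup G}
    (hL : IsComponent L) (hxL : x ∉ Subgroup.normalizer (L : Set G)) {l : G} (hl : l ∈ L) :
    x * dprod x l p = dprod x l p * x ∧ l⁻¹ * dprod x l p ∈ Subgroup.centralizer (L : Set G) := by
  have hm : ∀ k, k + 1 ≤ p → x * dprod x l k * x⁻¹ ∈ Subgroup.centralizer (L : Set G) := by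
    intro k
    induction k with
    | zero => intro _; simp [dprod]
    | succ k ih =>
      intro hk
      have e : x * dprod x l (k + 1) * x⁻¹ =
          (x * dprod x l k * x⁻¹) * (x ^ (k + 1) * l * (x ^ (k + 1))⁻¹) := by
        have e2 : dprod x l (k + 1) = dprod x l k * (x ^ k * l * (x ^ k)⁻¹) := rfl
        rw [e2, pow_succ']; group
      rw [e]
      exact mul_mem (ih (by omega))
        (pow_conj_mem_centralizer hx hL hxL (Nat.succ_pos k) (by omega) hl)
  obtain ⟨q, hq⟩ : ∃ q, p = q + 1 := ⟨p - 1, by have := (Fact.out (p := p.Prime)).pos; omega⟩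
  set c := dprod x l p with hc
  have hcl : c = l * (x * dprod x l q * x⁻¹) := by
    rw [hc, hq]; exact dprod_succ' x l q
  have hmC : x * dprod x l q * x⁻¹ ∈ Subgroup.centralizer (L : Set G) := hm q (by omega)
  have h2 : l⁻¹ * c ∈ Subgroup.centralizer (L : Set G) := by
    rw [hcl]; simpa using hmC
  refine ⟨?_, h2⟩
  have e1 : dprod x l (p + 1) = c * l := by
    have : dprod x l (p + 1) = dprod x l p * (x ^ p * l * (x ^ p)⁻¹) := rfl
    rw [this, ← hx, pow_orderOf_eq_one]; simp [hc, hx]
  have e2 : dprod x l (p + 1) = l * (x * c * x⁻¹) := dprod_succ' x l p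
  have e3 : l * (l⁻¹ * c) = (l⁻¹ * c) * l := Subgroup.mem_centralizer_iff.mp h2 l hl
  have e4 : x * c * x⁻¹ = c := by
    have : l * (x * c * x⁻¹) = l * c := by
      rw [← e2, e1]
      calc c * l = l * ((l⁻¹ * c) * l) := by group
        _ = l * (l * (l⁻¹ * c)) := by rw [e3]
        _ = l * c := by group
    exact mul_left_cancel this
  calc x * c = (x * c * x⁻¹) * x := by group
    _ = c * x := by rw [e4]

/-- a subgroup `D` normalizing the component `L`, of order prime to `p`, with
`[D, L] ≤ D C(L)` centralizes `L` (when `O_{p'}(G) = 1`). -/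
theorem component_comm_of_commutator_le (hO : pPrimeCore p G = ⊥) {L D : Subgroup G}
    (hL : IsComponent L) (hDL : D ≤ Subgroup.normalizer (L : Set G))
    (hD : (Nat.card ↥D).Coprime p) (h : ⁅D, L⁆ ≤ D ⊔ Subgroup.centralizer (L : Set G)) :
    ⁅L, D⁆ = ⊥ := by
  have hperf := comp_perfect hL
  have hTL : ⁅D, L⁆ ≤ L := by
    rw [Subgroup.commutator_le]
    intro d hd l hl
    rw [commutatorElement_def]
    exact mul_mem ((Subgroup.mem_normalizer_iff.mp (hDL hd) l).mp hl) (inv_mem hl)
  have hTn : L ≤ Subgroup.normalizer ((⁅D, L⁆ : Subgroup G) : Set G) := by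
    rw [Subgroup.commutator_comm]
    exact le_normalizer_commutator_left L D
  have hTs : (⁅D, L⁆ : Subgroup G).IsSubnormal := subnormal_step hTL hTn hL.1
  rcases component_sub hL hTs hTL with h1 | h1
  · exfalso
    rw [h1] at h
    set NL := Subgroup.normalizer (L : Set G) with hNL
    set C := Subgroup.centralizer (L : Set G) with hC
    have hCN : C ≤ NL := Subgroup.centralizer_le_normalizer _
    have hLN : L ≤ NL := Subgroup.le_normalizer
    haveI : (C.subgroupOf NL).Normal := inferInstance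
    have h2 : L.subgroupOf NL ≤ D.subgroupOf NL ⊔ C.subgroupOf NL := by
      rw [← Subgroup.subgroupOf_sup hDL hCN]
      exact Subgroup.comap_mono h
    have h3 := Cfsg.Agent.Lib.Helper23.relIndex_dvd_relIndex_of_normal (C.subgroupOf NL) h2
    rw [Subgroup.relIndex_sup_right, Subgroup.relIndex_subgroupOf hLN,
      Subgroup.relIndex_subgroupOf hDL] at h3
    have h4 : (C.relIndex L).Coprime p :=
      Nat.Coprime.coprime_dvd_left (h3.trans (Subgroup.relIndex_dvd_card _ _)) hD
    have hZs : (C ⊓ L).IsSubnormal := by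
      refine subnormal_step inf_le_right ?_ hL.1
      refine le_trans ?_ Subgroup.inf_normalizer_le_normalizer_inf
      refine le_inf ?_ Subgroup.le_normalizer
      intro l hl
      have := (Subgroup.normal_subgroupOf_iff_le_normalizer hCN).mp inferInstance
      exact this (hLN hl)
    have h5 := component_eq_of_coprime_relIndex hO hL hZs inf_le_right
      (by rw [Subgroup.inf_relIndex_right]; exact h4)
    apply not_comm_self_of_component hL
    intro t ht q hq
    have : t ∈ C := (Subgroup.mem_inf.mp (h5.ge ht)).1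
    exact (Subgroup.mem_centralizer_iff.mp this q hq).symm
  · apply perfect_comm_of_comm_comm hperf
    exact comm_iff.mpr h1

theorem coreOf_centralizer_le_compKer (hO : pPrimeCore p G = ⊥) {x : G} (hx : orderOf x = p) :
    coreOf p (Subgroup.centralizer ({x} : Set G)) ≤ compKer G := by
  have hP : IsPGroup p ↥(Subgroup.zpowers x) := by
    apply IsPGroup.of_card (n := 1)
    rw [Nat.card_zpowers, pow_one, hx]
  refine le_trans ?_ ((coreOf_le_wOf _).trans (wOf_normalizer_le_compKer hO (Subgroup.zpowers x) hP))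
  rw [← centralizer_zpowers_eq]
  have hCN : Subgroup.centralizer ((Subgroup.zpowers x : Subgroup G) : Set G) ≤
      Subgroup.normalizer ((Subgroup.zpowers x : Subgroup G) : Set G) :=
    Subgroup.centralizer_le_normalizer _
  exact coreOf_normal_le hCN ((Subgroup.normal_subgroupOf_iff_le_normalizer hCN).mp inferInstance)

theorem component_not_coprime (hO : pPrimeCore p G = ⊥) {L : Subgroup G} (hL : IsComponent L) :
    ¬ (Nat.card ↥L).Coprime p := by
  intro h
  have := subnormal_le_pPrimeCore p hL.1 h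
  rw [hO, le_bot_iff] at this
  exact comp_ne_bot hL this

/-- S1270 -/
theorem component_comm_coreOf_centralizer (hO : pPrimeCore p G = ⊥) {x : G} (hx : orderOf x = p)
    {L : Subgroup G} (hL : IsComponent L) (hne : ⁅L, Subgroup.zpowers x⁆ ≠ L) :
    ⁅L, coreOf p (Subgroup.centralizer ({x} : Set G))⁆ = ⊥ := by
  set C := Subgroup.centralizer ({x} : Set G) with hC
  set D := coreOf p C with hD
  have hDL : D ≤ Subgroup.normalizer (L : Set G) :=
    (coreOf_centralizer_le_compKer hO hx).trans (compKer_le_normalizer hL)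
  have hperf := comp_perfect hL
  by_cases hxL : x ∈ Subgroup.normalizer (L : Set G)
  · -- `x` centralizes `L`
    have hTL : ⁅Subgroup.zpowers x, L⁆ ≤ L := by
      rw [Subgroup.commutator_le]
      intro d hd l hl
      rw [commutatorElement_def]
      have hd' : d ∈ Subgroup.normalizer (L : Set G) := (Subgroup.zpowers_le.mpr hxL) hd
      exact mul_mem ((Subgroup.mem_normalizer_iff.mp hd' l).mp hl) (inv_mem hl)
    have hTn : L ≤ Subgroup.normalizer ((⁅Subgroup.zpowers x, L⁆ : Subgroup G) : Set G) := by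
      rw [Subgroup.commutator_comm]
      exact le_normalizer_commutator_left L _
    have hTs : (⁅Subgroup.zpowers x, L⁆ : Subgroup G).IsSubnormal := subnormal_step hTL hTn hL.1
    rcases component_sub hL hTs hTL with h1 | h1
    · exact absurd (by rw [Subgroup.commutator_comm]; exact h1) hne
    · have h2 : ⁅L, Subgroup.zpowers x⁆ = ⊥ :=
        perfect_comm_of_comm_comm hperf (comm_iff.mpr h1)
      have hLC : L ≤ C := by
        rw [hC, ← centralizer_zpowers_eq]
        exact Subgroup.commutator_eq_bot_iff_le_centralizer.mp h2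
      have hL' : IsComponent (L.subgroupOf C) := isComponent_subgroupOf hL hLC
      rcases component_le_or_comm hL'
        (inferInstance : (pPrimeCore p ↥C).Normal).isSubnormal with h3 | h3
      · exfalso
        have h4 : L ≤ D := by
          have := Subgroup.map_mono (f := C.subtype) h3
          rwa [Subgroup.map_subgroupOf_eq_of_le hLC] at this
        exact component_not_coprime hO hL
          (Nat.Coprime.coprime_dvd_left (Subgroup.card_dvd_of_le h4) (coreOf_coprime _))
      · have := congrArg (Subgroup.map C.subtype) h3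
        rwa [Subgroup.map_commutator, Subgroup.map_subgroupOf_eq_of_le hLC, Subgroup.map_bot] at this
  · apply component_comm_of_commutator_le hO hL hDL (coreOf_coprime _)
    rw [Subgroup.commutator_le]
    intro d hd l hl
    have hdC : d ∈ C := coreOf_le _ hd
    have hdx : d * x = x * d := (Subgroup.mem_centralizer_singleton_iff.mp hdC)
    have hl' : d * l * d⁻¹ ∈ L := (Subgroup.mem_normalizer_iff.mp (hDL hd) l).mp hl
    obtain ⟨hc1, hc2⟩ := dprod_spec hx hL hxL hl
    obtain ⟨-, hc2'⟩ := dprod_spec hx hL hxL hl'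
    rw [← dprod_conj hdx] at hc2'
    set c := dprod x l p with hc
    have hcC : c ∈ C := Subgroup.mem_centralizer_singleton_iff.mpr hc1.symm
    have hDn : C ≤ Subgroup.normalizer (D : Set G) := le_normalizer_coreOf Subgroup.le_normalizer
    have h1 : d * c * d⁻¹ * c⁻¹ ∈ D := by
      have : d * c * d⁻¹ * c⁻¹ = d * (c * d⁻¹ * c⁻¹) := by group
      rw [this]
      exact mul_mem hd ((Subgroup.mem_normalizer_iff.mp (hDn hcC) _).mp (inv_mem hd))
    have h2 : (d * l * d⁻¹)⁻¹ * (d * c * d⁻¹) * (l⁻¹ * c)⁻¹ ∈ Subgroup.centralizer (L : Set G) :=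
      mul_mem hc2' (inv_mem hc2)
    have h3 := Subgroup.mem_centralizer_iff.mp h2 l hl
    rw [commutatorElement_def]
    have e : d * l * d⁻¹ * l⁻¹ = (d * c * d⁻¹ * c⁻¹) *
        ((d * l * d⁻¹)⁻¹ * (d * c * d⁻¹) * (l⁻¹ * c)⁻¹)⁻¹ := by
      have e1 : d * c * d⁻¹ * c⁻¹ = (d * l * d⁻¹) *
          (((d * l * d⁻¹)⁻¹ * (d * c * d⁻¹) * (l⁻¹ * c)⁻¹) * l⁻¹) := by group
      have e2 : ((d * l * d⁻¹)⁻¹ * (d * c * d⁻¹) * (l⁻¹ * c)⁻¹) * l⁻¹ =
          l⁻¹ * ((d * l * d⁻¹)⁻¹ * (d * c * d⁻¹) * (l⁻¹ * c)⁻¹) := by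
        calc ((d * l * d⁻¹)⁻¹ * (d * c * d⁻¹) * (l⁻¹ * c)⁻¹) * l⁻¹
            = l⁻¹ * (l * ((d * l * d⁻¹)⁻¹ * (d * c * d⁻¹) * (l⁻¹ * c)⁻¹)) * l⁻¹ := by group
          _ = l⁻¹ * (((d * l * d⁻¹)⁻¹ * (d * c * d⁻¹) * (l⁻¹ * c)⁻¹) * l) * l⁻¹ := by rw [h3]
          _ = l⁻¹ * ((d * l * d⁻¹)⁻¹ * (d * c * d⁻¹) * (l⁻¹ * c)⁻¹) := by group
      rw [e1, e2]; group
    rw [e]
    exact Subgroup.mul_mem_sup h1 (inv_mem h2)

end

end Cfsg.H9
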