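import Mathlib
import Cfsg.Prelude.Def_Local
import Cfsg.Prelude.Def_Balance
import Cfsg.Agent.H9.Diag
import Cfsg.Agent.H9.PConstr3

/-!
# Unbalanced components (helper9)
-/

set_option autoImplicit false
set_option linter.style.haveILetI false
set_option linter.unusedSectionVars false

open scoped commutatorElement

namespace Cfsg.H9

universe u

section
variable {M : Type u} [Group M] [Finite M] {p : ℕ} [Fact p.Prime]

theorem coreOf_centralizer_le_wOf {x : M} :
    coreOf p (Subgroup.centralizer ({x} : Set M)) ≤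
      wOf p (Subgroup.normalizer ((Subgroup.zpowers x : Subgroup M) : Set M)) := by
  refine le_trans ?_ (coreOf_le_wOf _)
  rw [← centralizer_zpowers_eq]
  have hCN : Subgroup.centralizer ((Subgroup.zpowers x : Subgroup M) : Set M) ≤
      Subgroup.normalizer ((Subgroup.zpowers x : Subgroup M) : Set M) :=
    Subgroup.centralizer_le_normalizer _
  exact coreOf_normal_le hCN ((Subgroup.normal_subgroupOf_iff_le_normalizer hCN).mp inferInstance)

theorem coreOf_centralizer_le_centralizer_pCore {x : M} (hx : orderOf x = p) :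
    coreOf p (Subgroup.centralizer ({x} : Set M)) ≤ Subgroup.centralizer (pCore p M : Set M) := by
  have hP : IsPGroup p ↥(Subgroup.zpowers x) := by
    apply IsPGroup.of_card (n := 1)
    rw [Nat.card_zpowers, pow_one, hx]
  intro y hy
  obtain ⟨z, hz, rfl⟩ := coreOf_centralizer_le_wOf hy
  exact pPrimeLayer_normalizer_le hP hz

/-- a `p'`-subgroup centralizing `O_p` and all components is trivial, if `O_{p'} = 1` -/
theorem eq_bot_of_centralizes_genFitting (hO : pPrimeCore p M = ⊥) {Y : Subgroup M}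
    (hY : (Nat.card ↥Y).Coprime p) (h1 : Y ≤ Subgroup.centralizer (pCore p M : Set M))
    (h2 : ∀ L : Subgroup M, IsComponent L → Y ≤ Subgroup.centralizer (L : Set M)) : Y = ⊥ := by
  have h3 : Y ≤ Subgroup.centralizer (generalizedFittingSubgroup M : Set M) := by
    rw [Subgroup.le_centralizer_iff]
    refine sup_le (sSup_le ?_) ?_
    · intro L hL
      rw [← Subgroup.le_centralizer_iff]
      exact h2 L hL
    · rw [← Subgroup.le_centralizer_iff, fitting_eq_pCore_of_pPrimeCore_eq_bot hO]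
      exact h1
  set Z := Subgroup.centralizer (generalizedFittingSubgroup M : Set M) with hZ
  have hZn : Z.Normal := inferInstance
  have hZF : Z ≤ generalizedFittingSubgroup M := centralizer_genFitting_le
  have hZc : ∀ a b : ↥Z, a * b = b * a := by
    intro a b
    apply Subtype.ext
    exact (Subgroup.mem_centralizer_iff.mp a.2 b (hZF b.2)).symm
  have hZle : Z ≤ pCore p M := by
    rw [← fitting_eq_pCore_of_pPrimeCore_eq_bot hO]
    exact le_fitting hZn (isNilpotent_of_comm hZc)
  rw [eq_bot_iff, ← pGroup_inf_coprime_eq_bot (pCore_isPGroup p (G := M)) hY]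
  exact le_inf (h3.trans hZle) le_rfl

theorem mem_of_pow_mem_of_coprime {H : Subgroup M} {x : M} (h : x ^ p ∈ H)
    (hx : (orderOf x).Coprime p) : x ∈ H := by
  have hx1 : x ∈ Subgroup.zpowers (x ^ p) := by
    by_cases h1 : orderOf x = 1
    · rw [orderOf_eq_one_iff.mp h1]; exact one_mem _
    · have hlt : 1 < orderOf x := by
        have := orderOf_pos x
        omega
      obtain ⟨m, -, hm⟩ := Nat.exists_mul_mod_eq_one_of_coprime hx.symm hlt
      refine ⟨m, ?_⟩
      show (x ^ p) ^ (m : ℤ) = x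
      rw [zpow_natCast, ← pow_mul, ← pow_mod_orderOf, hm, pow_one]
  exact (Subgroup.zpowers_le.mpr h) hx1

/-- abstract form of S1328 -/
theorem exists_unbalanced_component (H : Subgroup M) [hHn : H.Normal] (hpow : ∀ x : M, x ^ p ∈ H)
    (hO : coreOf p H = ⊥) {t : M} (ht : orderOf t = p) {Y : Subgroup M} (hY1 : Y ≠ ⊥)
    (hY : Y ≤ coreOf p (H ⊓ Subgroup.centralizer ({t} : Set M))) :
    ∃ L : Subgroup M, IsComponent L ∧ L ≤ H ∧ t ∈ Subgroup.normalizer (L : Set M) ∧
      Y ≤ Subgroup.normalizer (L : Set M) ∧ t ∉ Subgroup.centralizer (L : Set M) ∧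
      ¬ Y ≤ Subgroup.centralizer (L : Set M) := by
  have hOM : pPrimeCore p M = ⊥ := by
    rw [eq_bot_iff]
    intro o ho
    have h1 : pPrimeCore p M ⊓ H ≤ coreOf p H := by
      apply le_coreOf inf_le_right
      · exact (Subgroup.normalizer_eq_top_iff.mpr
          (inferInstance : (pPrimeCore p M ⊓ H).Normal)).ge.trans' le_top
      · exact Nat.Coprime.coprime_dvd_left (Subgroup.card_dvd_of_le inf_le_left)
          (pPrimeCore_coprime p)
    have h2 : (orderOf o).Coprime p :=
      Nat.Coprime.coprime_dvd_left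
        ((Subgroup.orderOf_mk o ho ▸ orderOf_dvd_natCard (⟨o, ho⟩ : ↥(pPrimeCore p M))))
        (pPrimeCore_coprime p)
    have h3 : o ∈ H := mem_of_pow_mem_of_coprime (hpow o) h2
    have := h1 (Subgroup.mem_inf.mpr ⟨ho, h3⟩)
    rwa [hO] at this
  set C := Subgroup.centralizer ({t} : Set M) with hC
  set D := coreOf p C with hD
  have hYD : Y ≤ D := by
    refine hY.trans (coreOf_normal_le inf_le_right ?_)
    refine le_trans ?_ Subgroup.inf_normalizer_le_normalizer_inf
    exact le_inf ((Subgroup.normalizer_eq_top_iff.mpr hHn).ge.trans' le_top) Subgroup.le_normalizer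
  have hYcop : (Nat.card ↥Y).Coprime p :=
    Nat.Coprime.coprime_dvd_left (Subgroup.card_dvd_of_le hYD) (coreOf_coprime _)
  have hex : ∃ L : Subgroup M, IsComponent L ∧ ¬ Y ≤ Subgroup.centralizer (L : Set M) := by
    by_contra hcon
    push Not at hcon
    exact hY1 (eq_bot_of_centralizes_genFitting hOM hYcop
      (hYD.trans (coreOf_centralizer_le_centralizer_pCore ht)) hcon)
  obtain ⟨L, hL, hYL⟩ := hex
  have hLt : ⁅L, Subgroup.zpowers t⁆ = L := by
    by_contra hne
    have := component_comm_coreOf_centralizer hOM ht hL hne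
    rw [Subgroup.commutator_comm] at this
    exact hYL (hYD.trans (Subgroup.commutator_eq_bot_iff_le_centralizer.mp this))
  refine ⟨L, hL, ?_, ?_, ?_, ?_, hYL⟩
  · apply le_of_perfect_mod p L H
    · rw [comp_perfect hL]; exact le_sup_left
    · intro x _ hx
      exact mem_of_pow_mem_of_coprime (hpow x) hx
  · have h1 : Subgroup.zpowers t ≤
        Subgroup.normalizer ((⁅Subgroup.zpowers t, L⁆ : Subgroup M) : Set M) :=
      le_normalizer_commutator_left _ _
    rw [Subgroup.commutator_comm, hLt] at h1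
    exact h1 (Subgroup.mem_zpowers t)
  · exact hYD.trans ((coreOf_centralizer_le_compKer hOM ht).trans (compKer_le_normalizer hL))
  · intro htc
    have h1 : ⁅L, Subgroup.zpowers t⁆ = ⊥ := by
      rw [Subgroup.commutator_comm, Subgroup.commutator_eq_bot_iff_le_centralizer,
        Subgroup.zpowers_le]
      exact htc
    rw [hLt] at h1
    exact comp_ne_bot hL h1

end

section
variable {G : Type u} [Group G] [Finite G]

theorem isComponent_subgroupOf_of_le {K A B : Subgroup G} (hKA : K ≤ A) (hAB : A ≤ B)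
    (h : IsComponent (K.subgroupOf B)) : IsComponent (K.subgroupOf A) :=
  ⟨subnormal_subgroupOf_of_le hAB h.1,
    isQuasisimple_of_mulEquiv ((Subgroup.subgroupOfEquivOfLe (hKA.trans hAB)).trans
      (Subgroup.subgroupOfEquivOfLe hKA).symm) h.2⟩

/-- S1328 -/
theorem exists_unbalanced_component_of_involution (H : Subgroup G) (hO : pPrimeCore 2 ↥H = ⊥)
    (t : G) (ht : orderOf t = 2) (htH : t ∈ Subgroup.normalizer (H : Set G)) (Y : Subgroup G)
    (hY1 : Y ≠ ⊥) (hY : Y ≤ coreOf 2 (H ⊓ Subgroup.centralizer ({t} : Set G))) :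
    ∃ E : Subgroup ↥H, IsComponent E ∧
      (E.map H.subtype).map (MulAut.conj t).toMonoidHom = E.map H.subtype ∧
      Y ≤ Subgroup.normalizer ((E.map H.subtype : Subgroup G) : Set G) ∧
      ¬ (t ∈ Subgroup.centralizer ((E.map H.subtype : Subgroup G) : Set G)) ∧
      ¬ (Y ≤ Subgroup.centralizer ((E.map H.subtype : Subgroup G) : Set G)) := by
  haveI : Fact (Nat.Prime 2) := ⟨Nat.prime_two⟩
  set M := H ⊔ Subgroup.zpowers t with hM
  have hHM : H ≤ M := le_sup_left
  have htM : t ∈ M := (le_sup_right : Subgroup.zpowers t ≤ M) (Subgroup.mem_zpowers t)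
  have hzN : Subgroup.zpowers t ≤ Subgroup.normalizer (H : Set G) := Subgroup.zpowers_le.mpr htH
  have hMN : M ≤ Subgroup.normalizer (H : Set G) := sup_le Subgroup.le_normalizer hzN
  haveI hHn : (H.subgroupOf M).Normal := (Subgroup.normal_subgroupOf_iff_le_normalizer hHM).mpr hMN
  have ht2 : t ^ 2 = 1 := ht ▸ pow_orderOf_eq_one t
  have hpow : ∀ x : ↥M, x ^ 2 ∈ H.subgroupOf M := by
    intro x
    obtain ⟨h, hh, z, hz, hx⟩ := (mem_sup_of_le_normalizer hzN).mp x.2
    obtain ⟨k, rfl⟩ := hz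
    show ((x ^ 2 : ↥M) : G) ∈ H
    have hz2 : (t ^ k) * (t ^ k) = 1 := by
      rw [← zpow_add, ← two_mul, zpow_mul, zpow_ofNat, ht2, one_zpow]
    have e : ((x ^ 2 : ↥M) : G) = h * ((t ^ k) * h * (t ^ k)⁻¹) := by
      rw [Subgroup.coe_pow, ← hx, pow_two]
      calc h * t ^ k * (h * t ^ k) = h * (t ^ k * h * (t ^ k)⁻¹) * (t ^ k * t ^ k) := by group
        _ = h * (t ^ k * h * (t ^ k)⁻¹) := by rw [hz2, mul_one]
    rw [e]
    exact mul_mem hh ((Subgroup.mem_normalizer_iff.mp (hzN ⟨k, rfl⟩) h).mp hh)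
  have hO' : coreOf 2 (H.subgroupOf M) = ⊥ := by
    have h1 := coreOf_subgroupOf (p := 2) hHM
    have h2 : coreOf 2 H = ⊥ := by unfold coreOf; rw [hO, Subgroup.map_bot]
    rw [h2] at h1
    exact (Subgroup.map_eq_bot_iff_of_injective _ (Subgroup.subtype_injective _)).mp h1
  have ht' : orderOf (⟨t, htM⟩ : ↥M) = 2 := by rw [Subgroup.orderOf_mk, ht]
  have hYH : Y ≤ H := hY.trans ((coreOf_le _).trans inf_le_left)
  have hYM : Y ≤ M := hYH.trans hHM
  have hY1' : Y.subgroupOf M ≠ ⊥ := by
    intro h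
    apply hY1
    rw [← Subgroup.map_subgroupOf_eq_of_le hYM, h, Subgroup.map_bot]
  have hinf : H.subgroupOf M ⊓ Subgroup.centralizer ({(⟨t, htM⟩ : ↥M)} : Set ↥M) =
      (H ⊓ Subgroup.centralizer ({t} : Set G)).subgroupOf M := by
    ext x
    simp only [Subgroup.mem_inf, Subgroup.mem_subgroupOf, Subgroup.mem_centralizer_singleton_iff,
      Subtype.ext_iff, Subgroup.coe_mul]
  have hY' : Y.subgroupOf M ≤
      coreOf 2 (H.subgroupOf M ⊓ Subgroup.centralizer ({(⟨t, htM⟩ : ↥M)} : Set ↥M)) := by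
    rw [hinf]
    intro y hy
    have h1 : (y : G) ∈ coreOf 2 (H ⊓ Subgroup.centralizer ({t} : Set G)) := hY hy
    rw [← coreOf_subgroupOf (inf_le_left.trans hHM)] at h1
    obtain ⟨z, hz, hzy⟩ := h1
    have : z = y := Subtype.ext hzy
    rwa [← this]
  obtain ⟨L, hL, hLH, htL, hYL, htc, hYc⟩ :=
    exists_unbalanced_component (H.subgroupOf M) hpow hO' ht' hY1' hY'
  set LG := L.map M.subtype with hLG
  have hLGH : LG ≤ H := by
    rintro _ ⟨l, hl, rfl⟩
    exact hLH hl
  have hLeq : LG.subgroupOf M = L :=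
    Subgroup.comap_map_eq_self_of_injective (Subgroup.subtype_injective _) _
  refine ⟨LG.subgroupOf H, isComponent_subgroupOf_of_le hLGH hHM (hLeq.symm ▸ hL), ?_⟩
  rw [Subgroup.map_subgroupOf_eq_of_le hLGH]
  have hnorm : (Subgroup.normalizer (L : Set ↥M)).map M.subtype ≤
      Subgroup.normalizer (LG : Set G) := Subgroup.le_normalizer_map _
  refine ⟨?_, ?_, ?_, ?_⟩
  · exact Subgroup.mem_normalizer_iff_map_conj_eq.mp (hnorm ⟨_, htL, rfl⟩)
  · intro y hy
    exact hnorm ⟨⟨y, hYM hy⟩, hYL hy, rfl⟩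
  · intro h
    apply htc
    rw [Subgroup.mem_centralizer_iff]
    intro l hl
    exact Subtype.ext (Subgroup.mem_centralizer_iff.mp h l ⟨l, hl, rfl⟩)
  · intro h
    apply hYc
    intro y hy
    rw [Subgroup.mem_centralizer_iff]
    intro l hl
    exact Subtype.ext (Subgroup.mem_centralizer_iff.mp (h hy) l ⟨l, hl, rfl⟩)

end

end Cfsg.H9
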