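import Mathlib
import Cfsg.Prelude.Def_Balance
import Cfsg.Agent.H9.Sig2
import Cfsg.Agent.H9.FStar
import Cfsg.Agent.S0023
import Cfsg.Agent.S0024
import Cfsg.Agent.S0025

/-!
# Signalizer functors: the transitivity theorem (helper library of helper9)
-/

set_option autoImplicit false
set_option linter.style.haveILetI false
set_option linter.unusedSectionVars false

open scoped commutatorElement Pointwise

namespace Cfsg.H9

universe u

section
variable {G : Type u} [Group G] [Finite G] {p : ℕ} [Fact p.Prime]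

theorem sylow_smul_map_subtype {q : ℕ} {M : Subgroup G} (T : Sylow q ↥M) (m : ↥M) :
    ((MulAut.conj m • T : Sylow q ↥M) : Subgroup ↥M).map M.subtype =
      ((T : Subgroup ↥M).map M.subtype).map (MulAut.conj (m : G)).toMonoidHom := by
  rw [Sylow.pointwise_smul_def]
  ext x
  constructor
  · rintro ⟨y, hy, rfl⟩
    obtain ⟨z, hz, rfl⟩ := hy
    exact ⟨z, ⟨z, hz, rfl⟩, rfl⟩
  · rintro ⟨_, ⟨z, hz, rfl⟩, rfl⟩
    exact ⟨MulAut.conj m z, ⟨z, hz, rfl⟩, rfl⟩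

variable {A : Subgroup G} {θ : G → Subgroup G}

theorem family_of_le {X Y : Subgroup G} (hX : X ∈ signalizerFamily p A θ) (hYX : Y ≤ X)
    (hYA : ∀ b ∈ A, ∀ u ∈ Y, b * u * b⁻¹ ∈ Y) : Y ∈ signalizerFamily p A θ :=
  ⟨isSolvable_of_le hYX hX.1, fun h => hX.2.1 (h.trans (Subgroup.card_dvd_of_le hYX)), hYA,
    fun a ha ha1 => (inf_le_inf_right _ hYX).trans (hX.2.2.2 a ha ha1)⟩

theorem theta_mem_family (hθ : IsSolvableSignalizerFunctor p A θ) {a : G} (ha : a ∈ A)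
    (ha1 : a ≠ 1) : θ a ∈ signalizerFamily p A θ :=
  ⟨hθ.2 a ha ha1, hθ.1.2.1 a ha ha1, hθ.1.2.2.1 a ha ha1, hθ.1.2.2.2 a ha ha1⟩

theorem family_normalizes {X : Subgroup G} (hX : X ∈ signalizerFamily p A θ) :
    A ≤ Subgroup.normalizer (X : Set G) := le_normalizer_of_conj_mem hX.2.2.1

theorem conj_mem_of_le_normalizer {X : Subgroup G} (h : A ≤ Subgroup.normalizer (X : Set G)) :
    ∀ b ∈ A, ∀ u ∈ X, b * u * b⁻¹ ∈ X := Subgroup.le_normalizer_iff.mp h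

theorem signalizerInf_mem (hθ : IsSolvableSignalizerFunctor p A θ) {c : G}
    (hc : c ∈ signalizerInf A θ) {a : G} (ha : a ∈ A) (ha1 : a ≠ 1) : c ∈ θ a := by
  have := (Subgroup.mem_iInf.mp hc) ⟨a, ha, ha1⟩
  exact this

theorem signalizerInf_comm (hθ : IsSolvableSignalizerFunctor p A θ) {c : G}
    (hc : c ∈ signalizerInf A θ) {a : G} (ha : a ∈ A) : c * a = a * c := by
  by_cases ha1 : a = 1
  · simp [ha1]
  · have := hθ.1.1 a ha ha1 (signalizerInf_mem hθ hc ha ha1)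
    rw [Subgroup.mem_centralizer_singleton_iff] at this
    exact this

theorem family_conj (hθ : IsSolvableSignalizerFunctor p A θ) {c : G}
    (hc : c ∈ signalizerInf A θ) {X : Subgroup G} (hX : X ∈ signalizerFamily p A θ) :
    X.map (MulAut.conj c).toMonoidHom ∈ signalizerFamily p A θ := by
  refine ⟨?_, ?_, ?_, ?_⟩
  · haveI := hX.1
    exact Group.isSolvable_of_surjective
      (f := ((MulAut.conj c).subgroupMap X).toMonoidHom) ((MulAut.conj c).subgroupMap X).surjective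
  · rw [Subgroup.card_map_of_injective (MulAut.conj c).injective]
    exact hX.2.1
  · rintro b hb _ ⟨u, hu, rfl⟩
    refine ⟨b * u * b⁻¹, hX.2.2.1 b hb u hu, ?_⟩
    show c * (b * u * b⁻¹) * c⁻¹ = b * (c * u * c⁻¹) * b⁻¹
    have h1 := signalizerInf_comm hθ hc hb
    calc c * (b * u * b⁻¹) * c⁻¹ = (c * b) * u * (c * b)⁻¹ := by group
      _ = (b * c) * u * (b * c)⁻¹ := by rw [h1]
      _ = b * (c * u * c⁻¹) * b⁻¹ := by group
  · intro a ha ha1 x hx
    obtain ⟨⟨u, hu, rfl⟩, hxc⟩ := Subgroup.mem_inf.mp hx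
    rw [Subgroup.mem_centralizer_singleton_iff] at hxc
    have hca := signalizerInf_comm hθ hc ha
    have hcθ := signalizerInf_mem hθ hc ha ha1
    have hxc' : c * u * c⁻¹ * a = a * (c * u * c⁻¹) := hxc
    have hu' : u ∈ X ⊓ Subgroup.centralizer {a} := by
      refine Subgroup.mem_inf.mpr ⟨hu, ?_⟩
      rw [Subgroup.mem_centralizer_singleton_iff]
      calc u * a = c⁻¹ * ((c * u * c⁻¹) * a) * c * (c⁻¹ * a⁻¹ * c * a) := by group
        _ = c⁻¹ * (a * (c * u * c⁻¹)) * c * (c⁻¹ * a⁻¹ * (c * a)) := by rw [hxc']; group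
        _ = c⁻¹ * (a * (c * u * c⁻¹)) * c * (c⁻¹ * a⁻¹ * (a * c)) := by rw [hca]
        _ = c⁻¹ * (a * c) * u := by group
        _ = c⁻¹ * (c * a) * u := by rw [hca]
        _ = a * u := by group
    exact mul_mem (mul_mem hcθ (hX.2.2.2 a ha ha1 hu')) (inv_mem hcθ)

/-- maximal `q`-members of the family -/
def IsMaxQ (p : ℕ) (A : Subgroup G) (θ : G → Subgroup G) (q : ℕ) (Q : Subgroup G) : Prop :=
  Q ∈ signalizerFamily p A θ ∧ IsPGroup q ↥Q ∧
    ∀ R ∈ signalizerFamily p A θ, IsPGroup q ↥R → Q ≤ R → R = Q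

/-- conjugacy under `θ(C_G(A))` -/
def Cj (A : Subgroup G) (θ : G → Subgroup G) (Q₁ Q₂ : Subgroup G) : Prop :=
  ∃ c ∈ signalizerInf A θ, Q₁.map (MulAut.conj c).toMonoidHom = Q₂

theorem map_conj_map_conj (X : Subgroup G) (c d : G) :
    (X.map (MulAut.conj c).toMonoidHom).map (MulAut.conj d).toMonoidHom =
      X.map (MulAut.conj (d * c)).toMonoidHom := by
  rw [Subgroup.map_map]
  congr 1
  ext x
  simp [mul_assoc]

theorem map_conj_one (X : Subgroup G) : X.map (MulAut.conj (1 : G)).toMonoidHom = X := by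
  ext x
  constructor
  · rintro ⟨y, hy, rfl⟩; simpa using hy
  · intro hx; exact ⟨x, hx, by simp⟩

theorem Cj.refl (Q : Subgroup G) : Cj A θ Q Q := ⟨1, one_mem _, map_conj_one Q⟩

theorem Cj.symm {Q₁ Q₂ : Subgroup G} (h : Cj A θ Q₁ Q₂) : Cj A θ Q₂ Q₁ := by
  obtain ⟨c, hc, rfl⟩ := h
  exact ⟨c⁻¹, inv_mem hc, by rw [map_conj_map_conj, inv_mul_cancel, map_conj_one]⟩

theorem Cj.trans {Q₁ Q₂ Q₃ : Subgroup G} (h : Cj A θ Q₁ Q₂) (h' : Cj A θ Q₂ Q₃) :
    Cj A θ Q₁ Q₃ := by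
  obtain ⟨c, hc, rfl⟩ := h
  obtain ⟨d, hd, rfl⟩ := h'
  exact ⟨d * c, mul_mem hd hc, by rw [map_conj_map_conj]⟩

theorem IsMaxQ.conj (hθ : IsSolvableSignalizerFunctor p A θ) {q : ℕ} {Q : Subgroup G}
    (hQ : IsMaxQ p A θ q Q) {c : G} (hc : c ∈ signalizerInf A θ) :
    IsMaxQ p A θ q (Q.map (MulAut.conj c).toMonoidHom) := by
  refine ⟨family_conj hθ hc hQ.1, hQ.2.1.map _, ?_⟩
  intro R hR hRq hle
  have h1 : R.map (MulAut.conj c⁻¹).toMonoidHom = Q := by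
    apply hQ.2.2 _ (family_conj hθ (inv_mem hc) hR) (hRq.map _)
    have := Subgroup.map_mono (f := (MulAut.conj c⁻¹).toMonoidHom) hle
    rwa [map_conj_map_conj, inv_mul_cancel, map_conj_one] at this
  rw [← h1, map_conj_map_conj, mul_inv_cancel, map_conj_one]

theorem exists_isMaxQ {q : ℕ} {R : Subgroup G} (hR : R ∈ signalizerFamily p A θ)
    (hRq : IsPGroup q ↥R) : ∃ T, IsMaxQ p A θ q T ∧ R ≤ T := by
  obtain ⟨T, hRT, hT⟩ := Finite.exists_le_maximal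
    (p := fun T : Subgroup G => T ∈ signalizerFamily p A θ ∧ IsPGroup q ↥T) ⟨hR, hRq⟩
  refine ⟨T, ⟨hT.1.1, hT.1.2, ?_⟩, hRT⟩
  intro S hS hSq hTS
  exact le_antisymm (hT.2 ⟨hS, hSq⟩ hTS) hTS

theorem transitivity_aux (hA : IsElementaryAbelian p A) (hA3 : p ^ 3 ≤ Nat.card ↥A)
    (hθ : IsSolvableSignalizerFunctor p A θ) {q : ℕ} [Fact q.Prime] (hqp : q ≠ p) (n : ℕ) :
    ∀ Q₁ Q₂ : Subgroup G, IsMaxQ p A θ q Q₁ → IsMaxQ p A θ q Q₂ →
      Nat.card G - Nat.card ↥(Q₁ ⊓ Q₂) = n → Cj A θ Q₁ Q₂ := by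
  induction n using Nat.strong_induction_on with
  | _ n ih =>
    intro Q₁ Q₂ hQ₁ hQ₂ hn
    set D := Q₁ ⊓ Q₂ with hD
    -- the induction hypothesis in a convenient form
    have IH : ∀ R₁ R₂ : Subgroup G, IsMaxQ p A θ q R₁ → IsMaxQ p A θ q R₂ →
        ∀ E : Subgroup G, D ≤ E → D ≠ E → E ≤ R₁ → E ≤ R₂ → Cj A θ R₁ R₂ := by
      intro R₁ R₂ hR₁ hR₂ E hDE hne hE₁ hE₂
      have h1 : Nat.card ↥D < Nat.card ↥(R₁ ⊓ R₂) :=
        lt_of_lt_of_le (card_lt_of_lt hDE hne) (Subgroup.card_le_of_le (le_inf hE₁ hE₂))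
      have h2 : Nat.card ↥(R₁ ⊓ R₂) ≤ Nat.card G := Subgroup.card_le_card_group _
      exact ih (Nat.card G - Nat.card ↥(R₁ ⊓ R₂)) (by omega) R₁ R₂ hR₁ hR₂ rfl
    by_cases hD₁ : D = Q₁
    · have : Q₂ = Q₁ := hQ₁.2.2 Q₂ hQ₂.1 hQ₂.2.1 (hD₁ ▸ inf_le_right)
      rw [this]; exact Cj.refl _
    by_cases hD₂ : D = Q₂
    · have : Q₁ = Q₂ := hQ₂.2.2 Q₁ hQ₁.1 hQ₁.2.1 (hD₂ ▸ inf_le_left)
      rw [this]; exact Cj.refl _
    have hAQ₁ := family_normalizes hQ₁.1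
    have hAQ₂ := family_normalizes hQ₂.1
    obtain ⟨a, ha, ha1, hn₁, hn₂⟩ := invariant_q_subgroups_normalizer_of_meet hA hA3 hqp
      hQ₁.2.1 hQ₂.2.1 hAQ₁ hAQ₂ hD₁ hD₂
    have hAD : A ≤ Subgroup.normalizer (D : Set G) := le_normalizer_inf hAQ₁ hAQ₂
    have hDF : D ∈ signalizerFamily p A θ :=
      family_of_le hQ₁.1 inf_le_left (conj_mem_of_le_normalizer hAD)
    set H := θ a ⊓ Subgroup.normalizer (D : Set G) with hH
    have hθa := theta_mem_family hθ ha ha1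
    have hHF : H ∈ signalizerFamily p A θ :=
      family_of_le hθa inf_le_left (conj_mem_of_le_normalizer
        (le_normalizer_inf (family_normalizes hθa) (le_normalizer_normalizer hAD)))
    have hMF : D ⊔ H ∈ signalizerFamily p A θ := signalizerFamily_sup hA hDF hHF inf_le_right
    set M := D ⊔ H with hM
    have hAa : A ≤ Subgroup.normalizer ((Subgroup.centralizer ({a} : Set G) : Subgroup G) : Set G) := by
      refine le_trans ?_ Subgroup.le_normalizer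
      intro b hb
      rw [Subgroup.mem_centralizer_singleton_iff]
      exact elemAb_comm hA b hb a ha
    have hcop : (Nat.card ↥A).Coprime (Nat.card ↥M) :=
      coprime_card_of_pGroup (isPGroup_of_elemAb hA) hMF.2.1
    -- for each `i`, a maximal member `T` containing an `A`-invariant Sylow subgroup of `M`
    have key : ∀ Q : Subgroup G, IsMaxQ p A θ q Q → D ≤ Q →
        ¬ (Subgroup.normalizer (D : Set G) ⊓ Q ⊓ Subgroup.centralizer {a} ≤ D) →
        ∃ (E : Subgroup G) (S : Sylow q ↥M), D ≤ E ∧ D ≠ E ∧ E ≤ Q ∧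
          E ≤ (S : Subgroup ↥M).map M.subtype ∧
          A ≤ Subgroup.normalizer (((S : Subgroup ↥M).map M.subtype : Subgroup G) : Set G) := by
      intro Q hQ hDQ hnot
      set E := D ⊔ (Subgroup.normalizer (D : Set G) ⊓ Q ⊓ Subgroup.centralizer {a}) with hE
      have hEQ : E ≤ Q := sup_le hDQ (inf_le_left.trans inf_le_right)
      have hEM : E ≤ M := by
        refine sup_le_sup_left ?_ _
        refine le_inf ?_ (inf_le_left.trans inf_le_left)
        refine le_trans ?_ (hQ.1.2.2.2 a ha ha1)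
        exact inf_le_inf_right _ inf_le_right
      have hAE : A ≤ Subgroup.normalizer (E : Set G) := by
        apply le_normalizer_of_conj_mem
        intro b hb
        apply conj_mem_sup (conj_mem_of_le_normalizer hAD b hb)
        exact conj_mem_of_le_normalizer (le_normalizer_inf (le_normalizer_inf
          (le_normalizer_normalizer hAD) (family_normalizes hQ.1)) hAa) b hb
      obtain ⟨S, hES, hAS⟩ := Cfsg.Agent.S0025.result A M (family_normalizes hMF) hcop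
        (Or.inr hMF.1) q E hEM (hQ.2.1.to_le hEQ) hAE
      refine ⟨E, S, le_sup_left, ?_, hEQ, hES, hAS⟩
      intro h
      apply hnot
      have h' : Subgroup.normalizer (D : Set G) ⊓ Q ⊓ Subgroup.centralizer {a} ≤ E := le_sup_right
      exact h'.trans h.ge
    obtain ⟨E₁, S₁, hDE₁, hne₁, hEQ₁, hES₁, hAS₁⟩ := key Q₁ hQ₁ inf_le_left hn₁
    obtain ⟨E₂, S₂, hDE₂, hne₂, hEQ₂, hES₂, hAS₂⟩ := key Q₂ hQ₂ inf_le_right hn₂
    obtain ⟨c, hcA, hc⟩ := Cfsg.Agent.S0024.result A M (family_normalizes hMF) hcop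
      (Or.inr hMF.1) q S₁ S₂ hAS₁ hAS₂
    have hcC : (c : G) ∈ signalizerInf A θ :=
      (inf_centralizer_le_signalizerInf hMF le_rfl ⟨c.2, hcA⟩).2
    have hS₁F : (S₁ : Subgroup ↥M).map M.subtype ∈ signalizerFamily p A θ :=
      family_of_le hMF (Subgroup.map_subtype_le _) (conj_mem_of_le_normalizer hAS₁)
    have hS₂F : (S₂ : Subgroup ↥M).map M.subtype ∈ signalizerFamily p A θ :=
      family_of_le hMF (Subgroup.map_subtype_le _) (conj_mem_of_le_normalizer hAS₂)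
    obtain ⟨T₁, hT₁, hST₁⟩ := exists_isMaxQ hS₁F (S₁.2.map _)
    obtain ⟨T₂, hT₂, hST₂⟩ := exists_isMaxQ hS₂F (S₂.2.map _)
    have h1 : Cj A θ Q₁ T₁ := IH Q₁ T₁ hQ₁ hT₁ E₁ hDE₁ hne₁ hEQ₁ (hES₁.trans hST₁)
    have h2 : Cj A θ Q₂ T₂ := IH Q₂ T₂ hQ₂ hT₂ E₂ hDE₂ hne₂ hEQ₂ (hES₂.trans hST₂)
    have h3 : Cj A θ T₁ (T₁.map (MulAut.conj (c : G)).toMonoidHom) := ⟨c, hcC, rfl⟩
    have hS₂eq : (S₂ : Subgroup ↥M).map M.subtype =
        ((S₁ : Subgroup ↥M).map M.subtype).map (MulAut.conj (c : G)).toMonoidHom := by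
      rw [← hc, sylow_smul_map_subtype]
    have h4 : Cj A θ (T₁.map (MulAut.conj (c : G)).toMonoidHom) T₂ := by
      refine IH _ T₂ (hT₁.conj hθ hcC) hT₂ E₂ hDE₂ hne₂ ?_ (hES₂.trans hST₂)
      refine hES₂.trans ?_
      rw [hS₂eq]
      exact Subgroup.map_mono hST₁
    exact ((h1.trans h3).trans h4).trans h2.symm

/-- S1283: the transitivity theorem -/
theorem transitivity (hA : IsElementaryAbelian p A) (hA3 : p ^ 3 ≤ Nat.card ↥A)
    (hθ : IsSolvableSignalizerFunctor p A θ) {q : ℕ} [Fact q.Prime] (hqp : q ≠ p)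
    {Q₁ Q₂ : Subgroup G} (h₁ : IsMaxQ p A θ q Q₁) (h₂ : IsMaxQ p A θ q Q₂) : Cj A θ Q₁ Q₂ :=
  transitivity_aux hA hA3 hθ hqp _ Q₁ Q₂ h₁ h₂ rfl

theorem map_conj_eq_self_of_mem {H : Subgroup G} {c : G} (hc : c ∈ H) :
    H.map (MulAut.conj c).toMonoidHom = H := by
  have : c ∈ Subgroup.normalizer (H : Set G) := Subgroup.le_normalizer hc
  exact Subgroup.mem_normalizer_iff_map_conj_eq.mp this

/-- S1284 (a) -/
theorem maxQ_meets_member_in_sylow (hA : IsElementaryAbelian p A) (hA3 : p ^ 3 ≤ Nat.card ↥A)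
    (hθ : IsSolvableSignalizerFunctor p A θ) {q : ℕ} [Fact q.Prime] (hqp : q ≠ p)
    {Q : Subgroup G} (hQ : IsMaxQ p A θ q Q) {H : Subgroup G} (hH : H ∈ signalizerFamily p A θ) :
    ∃ c ∈ signalizerInf A θ, ∃ S : Sylow q ↥H,
      (S : Subgroup ↥H).map H.subtype = Q.map (MulAut.conj c).toMonoidHom ⊓ H := by
  have hcop : (Nat.card ↥A).Coprime (Nat.card ↥H) :=
    coprime_card_of_pGroup (isPGroup_of_elemAb hA) hH.2.1
  obtain ⟨S, hAS⟩ := Cfsg.Agent.S0023.result A H (family_normalizes hH) hcop (Or.inr hH.1) q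
  have hSF : (S : Subgroup ↥H).map H.subtype ∈ signalizerFamily p A θ :=
    family_of_le hH (Subgroup.map_subtype_le _) (conj_mem_of_le_normalizer hAS)
  obtain ⟨T, hT, hST⟩ := exists_isMaxQ hSF (S.2.map _)
  obtain ⟨c, hc, hcT⟩ := transitivity hA hA3 hθ hqp hQ hT
  refine ⟨c, hc, S, ?_⟩
  rw [hcT]
  have h1 : (T ⊓ H).subgroupOf H = (S : Subgroup ↥H) := by
    apply S.is_maximal'
    · exact (hT.2.1.to_le inf_le_left).comap_of_injective _ (Subgroup.subtype_injective _)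
    · intro t ht
      exact ⟨hST ⟨t, ht, rfl⟩, t.2⟩
  rw [← h1, Subgroup.map_subgroupOf_eq_of_le inf_le_right]

theorem signalizerInf_mem_family (hθ : IsSolvableSignalizerFunctor p A θ) {B : Subgroup G}
    (hB : B ≤ A) (hB1 : B ≠ ⊥) : signalizerInf B θ ∈ signalizerFamily p A θ := by
  obtain ⟨b₀, hb₀, hb₀1⟩ : ∃ b ∈ B, b ≠ 1 := by
    by_contra hcon
    apply hB1
    rw [eq_bot_iff]
    intro a ha
    by_contra ha1
    exact hcon ⟨a, ha, ha1⟩
  refine family_of_le (theta_mem_family hθ (hB hb₀) hb₀1)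
    (iInf_le (fun a : {a : G // a ∈ B ∧ a ≠ 1} => θ (a : G)) ⟨b₀, hb₀, hb₀1⟩) ?_
  intro b hb u hu
  refine Subgroup.mem_iInf.mpr fun d => ?_
  exact hθ.1.2.2.1 d.1 (hB d.2.1) d.2.2 b hb u (Subgroup.mem_iInf.mp hu d)

theorem signalizerInf_anti {B : Subgroup G} (hB : B ≤ A) :
    signalizerInf A θ ≤ signalizerInf B θ := by
  intro c hc
  refine Subgroup.mem_iInf.mpr fun d => ?_
  exact Subgroup.mem_iInf.mp hc ⟨d.1, hB d.2.1, d.2.2⟩

theorem signalizerInf_le_centralizer (hθ : IsSolvableSignalizerFunctor p A θ) {B : Subgroup G}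
    (hB : B ≤ A) : signalizerInf B θ ≤ Subgroup.centralizer (B : Set G) := by
  intro x hx
  rw [Subgroup.mem_centralizer_iff]
  intro d hd
  by_cases hd1 : d = 1
  · simp [hd1]
  · have h1 : x ∈ θ d := Subgroup.mem_iInf.mp hx ⟨d, hd, hd1⟩
    have h2 := hθ.1.1 d (hB hd) hd1 h1
    rw [Subgroup.mem_centralizer_singleton_iff] at h2
    exact h2.symm

/-- S1284 (b) -/
theorem maxQ_centralizer_sylow (hA : IsElementaryAbelian p A) (hA3 : p ^ 3 ≤ Nat.card ↥A)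
    (hθ : IsSolvableSignalizerFunctor p A θ) {q : ℕ} [Fact q.Prime] (hqp : q ≠ p)
    {Q : Subgroup G} (hQ : IsMaxQ p A θ q Q) {B : Subgroup G} (hB : B ≤ A) (hB1 : B ≠ ⊥) :
    ∃ S : Sylow q ↥(signalizerInf B θ),
      (S : Subgroup ↥(signalizerInf B θ)).map (signalizerInf B θ).subtype =
        Q ⊓ Subgroup.centralizer (B : Set G) := by
  have hHF := signalizerInf_mem_family hθ hB hB1
  obtain ⟨c, hc, S, hS⟩ := maxQ_meets_member_in_sylow hA hA3 hθ hqp hQ hHF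
  have hcH : c ∈ signalizerInf B θ := signalizerInf_anti hB hc
  refine ⟨MulAut.conj (⟨c, hcH⟩ : ↥(signalizerInf B θ))⁻¹ • S, ?_⟩
  rw [sylow_smul_map_subtype, hS, Subgroup.map_inf _ _ _ (MulAut.conj _).injective]
  have h1 : ((⟨c, hcH⟩ : ↥(signalizerInf B θ))⁻¹ : ↥(signalizerInf B θ)).1 = c⁻¹ := rfl
  rw [h1, map_conj_map_conj, inv_mul_cancel, map_conj_one,
    map_conj_eq_self_of_mem (inv_mem hcH)]
  apply le_antisymm
  · exact inf_le_inf_left _ (signalizerInf_le_centralizer hθ hB)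
  · exact inf_centralizer_le_signalizerInf hQ.1 hB

theorem bot_mem_family : (⊥ : Subgroup G) ∈ signalizerFamily p A θ := by
  refine ⟨inferInstance, ?_, ?_, ?_⟩
  · rw [Subgroup.card_bot]
    exact (Fact.out : p.Prime).one_lt.ne' ∘ Nat.dvd_one.mp
  · intro b _ u hu
    rw [Subgroup.mem_bot] at hu ⊢
    rw [hu]; group
  · intro a _ _
    exact inf_le_left.trans bot_le

/-- S1285 -/
theorem complete_of_single_prime (hA : IsElementaryAbelian p A) (hA3 : p ^ 3 ≤ Nat.card ↥A)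
    (hθ : IsSolvableSignalizerFunctor p A θ) {q : ℕ} [Fact q.Prime]
    (hq : ∀ a ∈ A, a ≠ 1 → IsPGroup q ↥(θ a)) : IsCompleteSignalizerFunctor p A θ := by
  refine ⟨hθ.1, ?_⟩
  by_cases hex : ∃ a ∈ A, a ≠ 1 ∧ q ∣ Nat.card ↥(θ a)
  · obtain ⟨a₀, ha₀, ha₀1, hdvd⟩ := hex
    have hqp : q ≠ p := by
      rintro rfl
      exact hθ.1.2.1 a₀ ha₀ ha₀1 hdvd
    obtain ⟨Q, hQ, _⟩ := exists_isMaxQ (p := p) (A := A) (θ := θ) (q := q) bot_mem_family
      (IsPGroup.of_bot)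
    refine ⟨Q, hQ.1.2.2.1, hQ.1.2.1, ?_⟩
    intro a ha ha1
    refine le_antisymm (hQ.1.2.2.2 a ha ha1) (le_inf ?_ (hθ.1.1 a ha ha1))
    obtain ⟨T, hT, hθT⟩ := exists_isMaxQ (theta_mem_family hθ ha ha1) (hq a ha ha1)
    obtain ⟨c, hc, hcT⟩ := transitivity hA hA3 hθ hqp hQ hT
    have hcθ := signalizerInf_mem hθ hc ha ha1
    have h1 := Subgroup.map_mono (f := (MulAut.conj c⁻¹).toMonoidHom) hθT
    rwa [map_conj_eq_self_of_mem (inv_mem hcθ), ← hcT, map_conj_map_conj, inv_mul_cancel,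
      map_conj_one] at h1
  · refine ⟨⊥, (bot_mem_family (p := p) (A := A) (θ := θ)).2.2.1,
      (bot_mem_family (p := p) (A := A) (θ := θ)).2.1, ?_⟩
    intro a ha ha1
    rw [bot_inf_eq]
    symm
    obtain ⟨n, hn⟩ := IsPGroup.iff_card.mp (hq a ha ha1)
    rcases n with _ | n
    · exact Subgroup.card_eq_one.mp (by simpa using hn)
    · exact absurd ⟨a, ha, ha1, hn ▸ dvd_pow_self q (Nat.succ_ne_zero n)⟩ hex

end

end Cfsg.H9
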