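import Mathlib
import Cfsg.Prelude.Def_Balance
import Cfsg.Agent.H9.Sig3
import Cfsg.Agent.H9.PConstr
import Cfsg.Agent.H9.Local4

/-!
# Coprime action: a criterion for lying in `O_{q'}` (S1288) (helper library of helper9)
-/

set_option autoImplicit false
set_option linter.style.haveILetI false
set_option linter.unusedSectionVars false

open scoped commutatorElement Pointwise

namespace Cfsg.H9

universe u

section
variable {G : Type u} [Group G] {G' : Type u} [Group G'] {p : ℕ}

theorem map_pPrimePCore_equiv (e : G ≃* G') :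
    (pPrimePCore p G).map e.toMonoidHom = pPrimePCore p G' := by
  have key : ∀ x : G, x ∈ pPrimePCore p G ↔ e x ∈ pPrimePCore p G' := by
    intro x
    show QuotientGroup.mk' (pPrimeCore p G) x ∈ pCore p (G ⧸ pPrimeCore p G) ↔
      QuotientGroup.mk' (pPrimeCore p G') (e x) ∈ pCore p (G' ⧸ pPrimeCore p G')
    rw [← map_pCore p (quotCoreCongr p e)]
    constructor
    · intro h
      exact ⟨_, h, rfl⟩
    · rintro ⟨y, hy, hyx⟩
      have : y = QuotientGroup.mk' (pPrimeCore p G) x := (quotCoreCongr p e).injective hyx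
      exact this ▸ hy
  ext y
  constructor
  · rintro ⟨x, hx, rfl⟩
    exact (key x).mp hx
  · intro hy
    refine ⟨e.symm y, (key _).mpr ?_, by simp⟩
    simpa using hy

theorem map_pPrimePCore_sub (e : G ≃* G') (K : Subgroup G) (K' : Subgroup G')
    (h : K.map e.toMonoidHom = K') :
    ((pPrimePCore p ↥K).map K.subtype).map e.toMonoidHom =
      (pPrimePCore p ↥K').map K'.subtype := by
  subst h
  have h := map_pPrimePCore_equiv (p := p) (e.subgroupMap K)
  change _ = Subgroup.map (Subgroup.map (↑e : G →* G') K).subtype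
    (pPrimePCore p ↥(Subgroup.map (↑e : G →* G') K))
  rw [← h, Subgroup.map_map, Subgroup.map_map]
  rfl

theorem le_normalizer_pPrimePCore_sub {K A : Subgroup G}
    (hn : A ≤ Subgroup.normalizer (K : Set G)) :
    A ≤ Subgroup.normalizer (((pPrimePCore p ↥K).map K.subtype : Subgroup G) : Set G) := by
  intro h hh
  rw [Subgroup.mem_normalizer_iff_map_conj_eq]
  exact map_pPrimePCore_sub (MulAut.conj h) K K (Subgroup.mem_normalizer_iff_map_conj_eq.mp (hn hh))

end

section
variable {G : Type u} [Group G] [Finite G] {p : ℕ} [Fact p.Prime]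

theorem pCore_le_map_of_coprime_relIndex {P' : Subgroup G}
    (h : (P'.relIndex (pPrimePCore p G)).Coprime p) :
    pCore p (G ⧸ pPrimeCore p G) ≤ P'.map (QuotientGroup.mk' (pPrimeCore p G)) := by
  have hp : p.Prime := Fact.out
  set R := pCore p (G ⧸ pPrimeCore p G) with hR
  have hTR : (pPrimePCore p G).map (QuotientGroup.mk' (pPrimeCore p G)) = R :=
    Subgroup.map_comap_eq_self_of_surjective (QuotientGroup.mk'_surjective _) _
  rw [← Subgroup.relIndex_eq_one]
  have h1 := relIndex_map_dvd (QuotientGroup.mk' (pPrimeCore p G)) P' (pPrimePCore p G)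
  rw [hTR] at h1
  obtain ⟨n, hn⟩ := (pCore_isPGroup p (G := G ⧸ pPrimeCore p G)).index
    ((P'.map (QuotientGroup.mk' (pPrimeCore p G))).subgroupOf R)
  have hn' : (P'.map (QuotientGroup.mk' (pPrimeCore p G))).relIndex R = p ^ n := hn
  rw [hn'] at h1 ⊢
  rcases n with _ | n
  · rfl
  · exfalso
    have h2 : p ∣ P'.relIndex (pPrimePCore p G) := (dvd_pow_self p (Nat.succ_ne_zero n)).trans h1
    exact (Nat.Prime.coprime_iff_not_dvd hp).mp h.symm h2

theorem eq_one_of_pow_and_coprime {Y : Type*} [Group Y] {y : Y} {n : ℕ}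
    (h1 : ∃ k : ℕ, y ^ p ^ k = 1) (h2 : y ^ n = 1) (hn : n.Coprime p) : y = 1 := by
  obtain ⟨k, hk⟩ := h1
  have h3 : orderOf y ∣ p ^ k := orderOf_dvd_of_pow_eq_one hk
  have h4 : orderOf y ∣ n := orderOf_dvd_of_pow_eq_one h2
  have h5 : orderOf y ∣ Nat.gcd n (p ^ k) := Nat.dvd_gcd h4 h3
  rw [Nat.Coprime.pow_right k hn] at h5
  exact orderOf_eq_one_iff.mp (Nat.dvd_one.mp h5)

end

section
variable {H : Type u} [Group H] [Finite H] {p : ℕ} [Fact p.Prime]

/-- S1288 -/
theorem le_coreOf_of_hyperplane_commutators {A K : Subgroup H} (hA : IsElementaryAbelian p A)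
    (hA2 : p ^ 2 ≤ Nat.card ↥A) (hK : ¬ p ∣ Nat.card ↥K) (hKs : Group.IsSolvable ↥K)
    (hAK : A ≤ Subgroup.normalizer (K : Set H)) {q : ℕ} [Fact q.Prime] {U : Subgroup H}
    (hU : U ≤ K) (hUq : ¬ q ∣ Nat.card ↥U)
    (hcomm : ∀ B : Subgroup H, B ≤ A → B.relIndex A = p →
      ¬ q ∣ Nat.card ↥⁅U, K ⊓ Subgroup.centralizer (B : Set H)⁆) :
    U ≤ (pPrimeCore q ↥K).map K.subtype := by
  have hq : q.Prime := Fact.out
  set O := pPrimeCore q ↥K with hO
  set V := pPrimePCore q ↥K with hV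
  set V' := V.map K.subtype with hV'
  have hV'K : V' ≤ K := Subgroup.map_subtype_le _
  have hAV' : A ≤ Subgroup.normalizer (V' : Set H) := le_normalizer_pPrimePCore_sub hAK
  have hV'p : ¬ p ∣ Nat.card ↥V' := fun h => hK (h.trans (Subgroup.card_dvd_of_le hV'K))
  have hAp := isPGroup_of_elemAb hA
  obtain ⟨R, hAR⟩ := Cfsg.Agent.S0023.result A V' hAV' (coprime_card_of_pGroup hAp hV'p)
    (Or.inl (by haveI := hAp.isNilpotent; infer_instance)) q
  set R' := (R : Subgroup ↥V').map V'.subtype with hR'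
  have hR'V' : R' ≤ V' := Subgroup.map_subtype_le _
  have hR'p : ¬ p ∣ Nat.card ↥R' := fun h => hV'p (h.trans (Subgroup.card_dvd_of_le hR'V'))
  have hidx : ((R'.subgroupOf K).relIndex V).Coprime q := by
    have h1 : V = V'.subgroupOf K :=
      (Subgroup.comap_map_eq_self_of_injective (Subgroup.subtype_injective _) V).symm
    rw [h1, Subgroup.relIndex_subgroupOf hV'K, hR', relIndex_map_subtype]
    exact ((Nat.Prime.coprime_iff_not_dvd hq).mpr R.not_dvd_index).symm
  have hcore := pCore_le_map_of_coprime_relIndex hidx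
  -- `K / O_{q'}(K)` is solvable with trivial `q'`-core
  haveI : Group.IsSolvable (↥K ⧸ O) := Group.isSolvable_of_surjective (QuotientGroup.mk'_surjective O)
  have hlay : layer (↥K ⧸ O) = ⊥ := by
    rw [layer_eq_bot_iff]
    intro L hL
    exact comp_not_isSolvable hL inferInstance
  have hself : Subgroup.centralizer (pCore q (↥K ⧸ O) : Set (↥K ⧸ O)) ≤ pCore q (↥K ⧸ O) := by
    have := centralizer_fitting_le_iff.mpr hlay
    rwa [fitting_eq_pCore_of_pPrimeCore_eq_bot (pPrimeCore_quotient q)] at this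
  intro u hu
  refine ⟨⟨u, hU hu⟩, ?_, rfl⟩
  set u' : ↥K := ⟨u, hU hu⟩ with hu'
  rw [SetLike.mem_coe, ← QuotientGroup.eq_one_iff]
  show QuotientGroup.mk' O u' = 1
  -- the subgroup of elements of `K` commuting with `u` modulo `O`
  set Z : Subgroup ↥K := (Subgroup.centralizer {QuotientGroup.mk' O u'}).comap (QuotientGroup.mk' O)
    with hZ
  have hRZ : R' ≤ Z.map K.subtype := by
    apply le_of_hyperplane_centralizers hA hA2 hR'p hAR
    intro B hB hBi r hr
    obtain ⟨hrR, hrB⟩ := Subgroup.mem_inf.mp hr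
    have hrK : r ∈ K := hV'K (hR'V' hrR)
    refine ⟨⟨r, hrK⟩, ?_, rfl⟩
    set r' : ↥K := ⟨r, hrK⟩ with hr'
    show QuotientGroup.mk' O r' ∈ Subgroup.centralizer {QuotientGroup.mk' O u'}
    rw [Subgroup.mem_centralizer_singleton_iff]
    have hrV : QuotientGroup.mk' O r' ∈ pCore q (↥K ⧸ O) := by
      have : r' ∈ V := by
        obtain ⟨v, hv, hvr⟩ := hR'V' hrR
        have : v = r' := Subtype.ext hvr
        exact this ▸ hv
      exact this
    have hc1 : ⁅QuotientGroup.mk' O u', QuotientGroup.mk' O r'⁆ ∈ pCore q (↥K ⧸ O) := by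
      rw [commutatorElement_def]
      have h1 := (inferInstance : (pCore q (↥K ⧸ O)).Normal).conj_mem _ hrV (QuotientGroup.mk' O u')
      exact mul_mem h1 (inv_mem hrV)
    have hc2 : ⁅u, r⁆ ∈ ⁅U, K ⊓ Subgroup.centralizer (B : Set H)⁆ :=
      Subgroup.commutator_mem_commutator hu ⟨hrK, hrB⟩
    have hc3 : ⁅u, r⁆ ^ Nat.card ↥⁅U, K ⊓ Subgroup.centralizer (B : Set H)⁆ = 1 := by
      have := pow_card_eq_one' (x := (⟨_, hc2⟩ : ↥⁅U, K ⊓ Subgroup.centralizer (B : Set H)⁆))
      exact congrArg Subtype.val this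
    have hc4 : ⁅QuotientGroup.mk' O u', QuotientGroup.mk' O r'⁆ ^
        Nat.card ↥⁅U, K ⊓ Subgroup.centralizer (B : Set H)⁆ = 1 := by
      rw [← map_commutatorElement, ← map_pow]
      have : ⁅u', r'⁆ ^ Nat.card ↥⁅U, K ⊓ Subgroup.centralizer (B : Set H)⁆ = 1 :=
        Subtype.ext hc3
      rw [this, map_one]
    have hc5 : ⁅QuotientGroup.mk' O u', QuotientGroup.mk' O r'⁆ = 1 := by
      apply eq_one_of_pow_and_coprime (p := q) ?_ hc4
        ((Nat.Prime.coprime_iff_not_dvd hq).mpr (hcomm B hB hBi)).symm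
      obtain ⟨k, hk⟩ := (pCore_isPGroup q (G := ↥K ⧸ O)) ⟨_, hc1⟩
      exact ⟨k, congrArg Subtype.val hk⟩
    exact (commutatorElement_eq_one_iff_mul_comm.mp hc5).symm
  have hucent : QuotientGroup.mk' O u' ∈
      Subgroup.centralizer (pCore q (↥K ⧸ O) : Set (↥K ⧸ O)) := by
    rw [Subgroup.mem_centralizer_iff]
    intro y hy
    obtain ⟨r, hr, rfl⟩ := hcore hy
    obtain ⟨z, hz, hzr⟩ := hRZ hr
    have hzr' : z = r := Subtype.ext hzr
    rw [hzr'] at hz
    have : QuotientGroup.mk' O r ∈ Subgroup.centralizer {QuotientGroup.mk' O u'} := hz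
    rw [Subgroup.mem_centralizer_singleton_iff] at this
    exact this
  have hu1 := hself hucent
  apply eq_one_of_pow_and_coprime (p := q) (n := Nat.card ↥U) ?_ ?_
    ((Nat.Prime.coprime_iff_not_dvd hq).mpr hUq).symm
  · obtain ⟨k, hk⟩ := (pCore_isPGroup q (G := ↥K ⧸ O)) ⟨_, hu1⟩
    exact ⟨k, congrArg Subtype.val hk⟩
  · rw [← map_pow]
    have : u' ^ Nat.card ↥U = 1 := by
      apply Subtype.ext
      have h9 := pow_card_eq_one' (x := (⟨u, hu⟩ : ↥U))
      have h10 : u ^ Nat.card ↥U = 1 := congrArg Subtype.val h9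
      exact h10
    rw [this, map_one]

end

end Cfsg.H9
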