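import Mathlib
import Cfsg.Agent.H9.PSolv
import Cfsg.Agent.H9.Sig4
import Cfsg.Agent.H4.Nilp
import Cfsg.Agent.H17.UniqueP
import Cfsg.Agent.Lib.Helper23.SylowNumber

set_option autoImplicit false
open Cfsg
universe u

namespace Cfsg.H9.EqOrd

open Subgroup

variable {G : Type u} [Group G] [Finite G] {p : ℕ} [Fact p.Prime]

theorem exists_normal_pair (H : Subgroup G) [H.Normal] (hsolv : IsPSolvable p H)
    (hdiv : p ∣ Nat.card H) :
    ∃ K Q : Subgroup G, K.Normal ∧ Q.Normal ∧ K ≤ Q ∧ Q ≤ H ∧ (Nat.card K).Coprime p ∧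
      (∃ n, K.relIndex Q = p ^ n) ∧ K ≠ Q := by
  have hinj := H.subtype_injective
  refine ⟨(pPrimeCore p ↥H).map H.subtype, (pPrimePCore p ↥H).map H.subtype, inferInstance, ?_,
    map_mono pPrimeCore_le_pPrimePCore, map_subtype_le _, ?_, ?_, ?_⟩
  · rw [← normalizer_eq_top_iff, eq_top_iff]
    apply le_normalizer_pPrimePCore_sub
    rw [normalizer_eq_top]
  · rw [card_map_of_injective hinj]
    exact pPrimeCore_coprime p
  · rw [relIndex_map_map_of_injective _ _ hinj]
    exact relIndex_pPrimeCore_pPrimePCore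
  · intro heq
    have h1 : pPrimeCore p ↥H = pPrimePCore p ↥H := map_injective hinj heq
    have hfs := QuotientGroup.mk'_surjective (pPrimeCore p ↥H)
    have h2 : pCore p (↥H ⧸ pPrimeCore p ↥H) = ⊥ := by
      have h3 : (pPrimePCore p ↥H).map (QuotientGroup.mk' (pPrimeCore p ↥H)) =
          pCore p (↥H ⧸ pPrimeCore p ↥H) := map_comap_eq_self_of_surjective hfs _
      rw [← h3, ← h1, ← le_bot_iff, map_le_iff_le_comap, MonoidHom.comap_bot, QuotientGroup.ker_mk']
    have h4 := Cfsg.Agent.Lib.Helper23.centralizer_pCore_le_of_isPSolvable p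
      (isPSolvable_of_surjective _ hfs hsolv) (pPrimeCore_quotient p)
    rw [h2] at h4
    have h5 : (⊤ : Subgroup (↥H ⧸ pPrimeCore p ↥H)) ≤ ⊥ := by
      refine le_trans ?_ h4
      rw [le_centralizer_iff]
      exact bot_le
    have h6 : pPrimeCore p ↥H = ⊤ := by
      rw [eq_top_iff]
      intro x _
      rw [← QuotientGroup.eq_one_iff]
      exact (mem_bot.mp (h5 (mem_top _)))
    have h7 := pPrimeCore_coprime p (G := ↥H)
    rw [h6, card_top] at h7
    exact (Nat.Prime.coprime_iff_not_dvd Fact.out).mp h7.symm hdiv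

theorem main (hp : p ≠ 2)
    (hC : ∀ H K : Subgroup G, IsPGroup p H → IsPGroup p K → Nat.card H = Nat.card K →
      ∃ g : G, K = H.map (MulAut.conj g).toMonoidHom) (P : Sylow p G)
    (K Q : Subgroup G) [hKn : K.Normal] [hQn : Q.Normal] (hKQ : K ≤ Q)
    (hKc : (Nat.card K).Coprime p) (hrel : ∃ n, K.relIndex Q = p ^ n) (hne : K ≠ Q) :
    IsMulCommutative P ∧ ((P : Subgroup G) ≤ Q ∨ IsCyclic P) := by
  classical
  have hpp : p.Prime := Fact.out
  set T := (P : Subgroup G) ⊓ Q with hT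
  have hTP : T ≤ P := inf_le_left
  have hTQ : T ≤ Q := inf_le_right
  have hTp : IsPGroup p T := P.isPGroup'.to_le hTP
  have hTrel : ¬ p ∣ T.relIndex Q := by
    rw [hT, inf_relIndex_right, ← Cfsg.Agent.Lib.Helper23.relIndex_sup_normal_eq]
    intro hd
    have h1 := relIndex_mul_index (le_sup_left : (P : Subgroup G) ≤ (P : Subgroup G) ⊔ Q)
    exact P.not_dvd_index (h1 ▸ Dvd.dvd.mul_right hd _)
  have hKT : K ⊓ T = ⊥ := by
    obtain ⟨k, hk⟩ := IsPGroup.iff_card.mp hTp
    apply (disjoint_of_coprime_natCard _).eq_bot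
    rw [hk]
    exact Nat.Coprime.pow_right k hKc
  have hQle : Q ≤ K ⊔ T := by
    rw [← relIndex_eq_one]
    obtain ⟨n, hn⟩ := hrel
    have d1 : (K ⊔ T).relIndex Q ∣ p ^ n := hn ▸ relIndex_dvd_of_le_left Q le_sup_left
    have d2 : (K ⊔ T).relIndex Q ∣ T.relIndex Q := relIndex_dvd_of_le_left Q le_sup_right
    obtain ⟨j, -, hj⟩ := (Nat.dvd_prime_pow hpp).mp d1
    rcases j with _ | j
    · simpa using hj
    · exfalso
      apply hTrel
      rw [hj] at d2
      exact (dvd_pow_self p (Nat.succ_ne_zero j)).trans d2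
  have hT1 : T ≠ ⊥ := by
    intro h0
    rw [h0, sup_bot_eq] at hQle
    exact hne (le_antisymm hKQ hQle)
  have hFr : K ⊔ normalizer (T : Set G) = ⊤ := by
    have hp1 : IsPGroup p (T.subgroupOf Q) :=
      hTp.comap_of_injective Q.subtype Q.subtype_injective
    have h1 := Sylow.normalizer_sup_eq_top (hp1.toSylow hTrel)
    have e : ((hp1.toSylow hTrel : Sylow p Q) : Subgroup Q) = T.subgroupOf Q :=
      IsPGroup.toSylow_coe hp1 hTrel
    rw [e, map_subgroupOf_eq_of_le hTQ] at h1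
    rw [eq_top_iff, ← h1]
    refine sup_le le_sup_right (hQle.trans (sup_le le_sup_left ?_))
    exact le_normalizer.trans le_sup_right
  -- central element of order p in T
  obtain ⟨z, hzT, hzo, hzc⟩ : ∃ z ∈ T, orderOf z = p ∧ ∀ y ∈ (P : Subgroup G), y * z = z * y := by
    haveI : Group.IsNilpotent (P : Subgroup G) := P.isPGroup'.isNilpotent
    haveI : (Q.subgroupOf (P : Subgroup G)).Normal := inferInstance
    have hne' : Q.subgroupOf (P : Subgroup G) ≠ ⊥ := by
      intro h0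
      apply hT1
      rw [subgroupOf_eq_bot] at h0
      rw [hT, inf_comm]
      exact h0.eq_bot
    have h1 := Cfsg.Agent.H4.normal_inf_center_ne_bot (Q.subgroupOf (P : Subgroup G)) hne'
    set Z := Q.subgroupOf (P : Subgroup G) ⊓ center (P : Subgroup G) with hZ
    have hZp : IsPGroup p Z := P.isPGroup'.to_subgroup Z
    obtain ⟨k, hk⟩ := IsPGroup.iff_card.mp hZp
    have hk0 : k ≠ 0 := by
      rintro rfl
      rw [pow_zero] at hk
      exact h1 (card_eq_one.mp hk)
    obtain ⟨z, hz⟩ := exists_prime_orderOf_dvd_card' (G := Z) p (hk ▸ dvd_pow_self p hk0)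
    obtain ⟨hz1, hz2⟩ := mem_inf.mp z.2
    refine ⟨((z : (P : Subgroup G)) : G), mem_inf.mpr ⟨(z : (P : Subgroup G)).2, hz1⟩, ?_, ?_⟩
    · rw [orderOf_coe, orderOf_coe, hz]
    · intro y hy
      have := mem_center_iff.mp hz2 ⟨y, hy⟩
      exact congrArg (fun t : (P : Subgroup G) => (t : G)) this
  have hcyc : ∀ x : G, orderOf x = p → IsPGroup p (zpowers x) ∧ Nat.card (zpowers x) = p := by
    intro x hx
    have : Nat.card (zpowers x) = p := by rw [Nat.card_zpowers, hx]
    exact ⟨IsPGroup.of_card (n := 1) (by rw [this, pow_one]), this⟩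
  -- key claim
  have key : ∀ x ∈ (P : Subgroup G), orderOf x = p → x ∈ T ∧ ∀ t ∈ T, t * x = x * t := by
    intro x hxP hxo
    obtain ⟨g, hg⟩ := hC (zpowers z) (zpowers x) (hcyc z hzo).1 (hcyc x hxo).1
      ((hcyc z hzo).2.trans (hcyc x hxo).2.symm)
    have hx1 : x ∈ (zpowers z).map (MulAut.conj g).toMonoidHom := hg ▸ mem_zpowers x
    obtain ⟨w₀, hw₀, hw₀x⟩ := hx1
    have hw₀T : w₀ ∈ T := (zpowers_le.mpr hzT) hw₀
    have hw₀c : ∀ y ∈ (P : Subgroup G), y * w₀ = w₀ * y := by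
      intro y hy
      obtain ⟨i, rfl⟩ := mem_zpowers_iff.mp hw₀
      exact ((Commute.zpow_right (hzc y hy) i) : y * z ^ i = z ^ i * y)
    have hgx : g * w₀ * g⁻¹ = x := by simpa using hw₀x
    obtain ⟨k, hk, n, hn, hkn⟩ := mem_sup_of_normal_left.mp (hFr ▸ mem_top g : g ∈ K ⊔ normalizer (T : Set G))
    set w := n * w₀ * n⁻¹ with hw
    have hwT : w ∈ T := (mem_normalizer_iff.mp hn w₀).mp hw₀T
    have hwc : ∀ t ∈ T, t * w = w * t := by
      intro t ht
      have h1 : n⁻¹ * t * n⁻¹⁻¹ ∈ T := (mem_normalizer_iff.mp (inv_mem hn) t).mp ht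
      have h2 := hw₀c _ (hTP h1)
      rw [inv_inv] at h2
      calc t * w = n * ((n⁻¹ * t * n) * w₀) * n⁻¹ := by rw [hw]; group
        _ = w * t := by rw [h2, hw]; group
    have hxw : x = k * w * k⁻¹ := by rw [← hgx, ← hkn, hw]; group
    have hxQ : x ∈ Q := by
      rw [hxw]
      exact hQn.conj_mem w (hTQ hwT) k
    have hxT : x ∈ T := mem_inf.mpr ⟨hxP, hxQ⟩
    have h3 : x * w⁻¹ ∈ K ⊓ T := by
      refine mem_inf.mpr ⟨?_, mul_mem hxT (inv_mem hwT)⟩
      have : x * w⁻¹ = k * (w * k⁻¹ * w⁻¹) := by rw [hxw]; group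
      rw [this]
      exact mul_mem hk (hKn.conj_mem _ (inv_mem hk) w)
    rw [hKT, mem_bot, mul_inv_eq_one] at h3
    rw [h3]
    exact ⟨hwT, hwc⟩
  by_cases huop : Cfsg.Agent.H17.UOP p (P : Subgroup G)
  · rcases (Cfsg.Agent.H17.uop_iff P.isPGroup').mp huop with h | ⟨h, -⟩
    · exact ⟨IsCyclic.isMulCommutative, Or.inr h⟩
    · exact absurd h hp
  · -- exponent p
    unfold Cfsg.Agent.H17.UOP at huop
    push Not at huop
    obtain ⟨x, y, hxo, hyo, hyx⟩ := huop
    let Ω : Subgroup G :=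
      { carrier := {a | a ∈ T ∧ (∀ t ∈ T, t * a = a * t) ∧ a ^ p = 1}
        one_mem' := ⟨one_mem _, by simp, one_pow _⟩
        mul_mem' := by
          rintro a b ⟨ha1, ha2, ha3⟩ ⟨hb1, hb2, hb3⟩
          refine ⟨mul_mem ha1 hb1, ?_, ?_⟩
          · intro t ht
            rw [← mul_assoc, ha2 t ht, mul_assoc, hb2 t ht, mul_assoc]
          · have : Commute a b := hb2 a ha1
            rw [this.mul_pow, ha3, hb3, one_mul]
        inv_mem' := by
          rintro a ⟨ha1, ha2, ha3⟩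
          refine ⟨inv_mem ha1, ?_, by rw [inv_pow, ha3, inv_one]⟩
          intro t ht
          have : Commute t a := ha2 t ht
          exact this.inv_right }
    have hΩmem : ∀ a ∈ (P : Subgroup G), orderOf a = p → a ∈ Ω := by
      intro a ha hao
      obtain ⟨h1, h2⟩ := key a ha hao
      exact ⟨h1, h2, by rw [← hao, pow_orderOf_eq_one]⟩
    have hΩT : Ω ≤ T := fun a ha => ha.1
    have hΩp : IsPGroup p Ω := hTp.to_le hΩT
    have hxo' : orderOf (x : G) = p := by rw [orderOf_coe, hxo]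
    have hyo' : orderOf (y : G) = p := by rw [orderOf_coe, hyo]
    obtain ⟨m, hm⟩ := IsPGroup.iff_card.mp hΩp
    have hxΩ : zpowers (x : G) ≤ Ω := zpowers_le.mpr (hΩmem x x.2 hxo')
    have hm2 : 2 ≤ m := by
      by_contra hlt
      have hle : Nat.card Ω ≤ Nat.card (zpowers (x : G)) := by
        rw [(hcyc _ hxo').2, hm]
        calc p ^ m ≤ p ^ 1 := Nat.pow_le_pow_right hpp.pos (by omega)
          _ = p := pow_one p
      have heq : zpowers (x : G) = Ω := eq_of_le_of_card_ge hxΩ hle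
      have hy1 : (y : G) ∈ zpowers (x : G) := heq ▸ hΩmem y y.2 hyo'
      apply hyx
      obtain ⟨i, hi⟩ := mem_zpowers_iff.mp hy1
      exact mem_zpowers_iff.mpr ⟨i, Subtype.ext (by simpa using hi)⟩
    obtain ⟨E', hE'⟩ := Sylow.exists_subgroup_card_pow_prime (G := Ω) p (n := 2)
      (hm ▸ pow_dvd_pow p hm2)
    set E := E'.map Ω.subtype with hE
    have hEc : Nat.card E = p ^ 2 := by rw [hE, card_map_of_injective Ω.subtype_injective, hE']
    have hEexp : ∀ e ∈ E, e ^ p = 1 := by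
      rintro _ ⟨e, -, rfl⟩
      exact e.2.2.2
    have hexp : ∀ u ∈ (P : Subgroup G), u ^ p = 1 := by
      intro u hu
      by_contra hne1
      obtain ⟨k, hk⟩ := (IsPGroup.iff_orderOf.mp P.isPGroup') ⟨u, hu⟩
      rw [orderOf_mk] at hk
      have hk2 : 2 ≤ k := by
        by_contra hlt
        apply hne1
        have : orderOf u ∣ p := by
          rw [hk]
          calc p ^ k ∣ p ^ 1 := pow_dvd_pow p (by omega)
            _ = p := pow_one p
        exact orderOf_dvd_iff_pow_eq_one.mp this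
      set v := u ^ (p ^ (k - 2)) with hv
      have hvo : orderOf v = p ^ 2 := by
        rw [hv, orderOf_pow_of_dvd (pow_ne_zero _ hpp.ne_zero) (hk ▸ pow_dvd_pow p (by omega)), hk,
          Nat.pow_div (by omega) hpp.pos]
        congr 1
        omega
      have hvc : Nat.card (zpowers v) = p ^ 2 := by rw [Nat.card_zpowers, hvo]
      obtain ⟨g, hg⟩ := hC E (zpowers v) (IsPGroup.of_card hEc) (IsPGroup.of_card hvc)
        (hEc.trans hvc.symm)
      have hv1 : v ∈ E.map (MulAut.conj g).toMonoidHom := hg ▸ mem_zpowers v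
      obtain ⟨e, he, hev⟩ := hv1
      have hvp : v ^ p = 1 := by
        rw [← hev, ← map_pow, hEexp e he, map_one]
      have := orderOf_dvd_of_pow_eq_one hvp
      rw [hvo] at this
      have h2 := Nat.le_of_dvd hpp.pos this
      have h3 := hpp.one_lt
      nlinarith
    have hall : ∀ u ∈ (P : Subgroup G), u ∈ T ∧ ∀ t ∈ T, t * u = u * t := by
      intro u hu
      by_cases hu1 : u = 1
      · rw [hu1]; exact ⟨one_mem _, by simp⟩
      · exact key u hu (orderOf_eq_prime (hexp u hu) hu1)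
    refine ⟨⟨⟨fun a b => ?_⟩⟩, Or.inl (fun u hu => hTQ (hall u hu).1)⟩
    apply Subtype.ext
    exact (hall b b.2).2 a (hall a a.2).1

end Cfsg.H9.EqOrd
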