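import Mathlib
import Cfsg.Agent.S4341
import Cfsg.Agent.S0025
import Cfsg.Agent.Lib.Helper23.SylowNumber

set_option autoImplicit false
universe u

namespace Cfsg.H9.HallNum

open Subgroup

/-- `n` is a product of prime powers `≡ 1 mod p` and Sylow numbers of simple groups. -/
def Good (p : ℕ) (n : ℕ) : Prop :=
  ∃ l : List ℕ, l.prod = n ∧ ∀ m ∈ l, (IsPrimePow m ∧ m % p = 1) ∨
    ∃ (S : Type u) (_ : Group S) (_ : Finite S), IsSimpleGroup S ∧ m = Nat.card (Sylow p S)

theorem Good.one (p : ℕ) : Good.{u} p 1 := ⟨[], rfl, by simp⟩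

theorem Good.mul {p a b : ℕ} (ha : Good.{u} p a) (hb : Good.{u} p b) : Good.{u} p (a * b) := by
  obtain ⟨l, hl, hl'⟩ := ha
  obtain ⟨k, hk, hk'⟩ := hb
  refine ⟨l ++ k, by rw [List.prod_append, hl, hk], ?_⟩
  intro m hm
  rcases List.mem_append.mp hm with h | h
  · exact hl' m h
  · exact hk' m h

theorem good_of_parts {p : ℕ} (hp : 1 < p) {n : ℕ} (hn : n ≠ 0)
    (h : ∀ q : ℕ, q.Prime → q ^ n.factorization q ≡ 1 [MOD p]) : Good.{u} p n := by
  refine ⟨n.primeFactors.toList.map (fun q => q ^ n.factorization q), ?_, ?_⟩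
  · rw [Finset.prod_map_toList]
    have := Nat.prod_factorization_pow_eq_self hn
    rw [Finsupp.prod, Nat.support_factorization] at this
    exact this
  · intro m hm
    obtain ⟨q, hq, rfl⟩ := List.mem_map.mp hm
    rw [Finset.mem_toList] at hq
    have hqp := Nat.prime_of_mem_primeFactors hq
    left
    refine ⟨hqp.isPrimePow.pow ?_, ?_⟩
    · have := (hqp.factorization_pos_of_dvd hn (Nat.dvd_of_mem_primeFactors hq))
      omega
    · have := h q hqp
      rw [Nat.ModEq, Nat.mod_eq_of_lt hp] at this
      exact this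

theorem card_modEq_inf_centralizer {G : Type*} [Group G] [Finite G] {p : ℕ} [Fact p.Prime]
    (P Q : Subgroup G) (hP : IsPGroup p P) (hN : P ≤ normalizer (Q : Set G)) :
    Nat.card Q ≡ Nat.card (Q ⊓ centralizer (P : Set G) : Subgroup G) [MOD p] := by
  letI act : MulAction P Q :=
    { smul := fun a x => ⟨a * x * a⁻¹, (mem_normalizer_iff.mp (hN a.2) x).mp x.2⟩
      one_smul := fun x => Subtype.ext (by change ((1 : P) : G) * x * ((1 : P) : G)⁻¹ = x; simp)
      mul_smul := fun a b x => Subtype.ext (by
        change ((a * b : P) : G) * x * ((a * b : P) : G)⁻¹ = (a : G) * ((b : G) * x * (b : G)⁻¹) * (a : G)⁻¹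
        simp [mul_assoc]) }
  have h := hP.card_modEq_card_fixedPoints Q
  have e : Nat.card (MulAction.fixedPoints P Q) = Nat.card (Q ⊓ centralizer (P : Set G) : Subgroup G) := by
    apply Nat.card_congr
    refine ⟨fun x => ⟨x.1.1, x.1.2, ?_⟩, fun x => ⟨⟨x.1, x.2.1⟩, ?_⟩, fun x => rfl, fun x => rfl⟩
    · change x.1.1 ∈ centralizer (P : Set G)
      rw [mem_centralizer_iff]
      intro a ha
      have h1 : (a : G) * x.1.1 * (a : G)⁻¹ = x.1.1 := congrArg Subtype.val (x.2 ⟨a, ha⟩)
      exact (mul_inv_eq_iff_eq_mul.mp h1)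
    · intro a
      apply Subtype.ext
      change (a : G) * x.1 * (a : G)⁻¹ = x.1
      have := mem_centralizer_iff.mp x.2.2 a a.2
      rw [this]; group
  rw [e] at h
  exact h

theorem qpart {G : Type*} [Group G] [Finite G] (p : ℕ) [Fact p.Prime] (K : Subgroup G) [K.Normal]
    (P : Sylow p G) (hd : (P : Subgroup G) ⊓ K = ⊥) (hs : (P : Subgroup G) ⊔ K = ⊤)
    (q : ℕ) (hq : q.Prime) :
    q ^ (Nat.card (Sylow p G)).factorization q ≡ 1 [MOD p] := by
  have hp : p.Prime := Fact.out
  haveI : Fact q.Prime := ⟨hq⟩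
  -- `K` is a `p'`-group
  have hcompl : IsComplement' (P : Subgroup G) K := by
    apply isComplement'_of_disjoint_and_mul_eq_univ (disjoint_iff.mpr hd)
    rw [← mul_normal, hs, coe_top]
  have hKidx : (P : Subgroup G).index = Nat.card K := hcompl.symm.index_eq_card
  have hpK : ¬ p ∣ Nat.card K := by rw [← hKidx]; exact P.not_dvd_index
  have hcop : (Nat.card (P : Subgroup G)).Coprime (Nat.card K) := by
    obtain ⟨k, hk⟩ := IsPGroup.iff_card.mp P.2
    rw [hk]
    exact Nat.Coprime.pow_left _ ((Nat.Prime.coprime_iff_not_dvd hp).mpr hpK)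
  set C : Subgroup G := K ⊓ centralizer ((P : Subgroup G) : Set G) with hC
  have hNC : normalizer ((P : Subgroup G) : Set G) ⊓ K = C := by
    apply le_antisymm
    · intro k hk
      have hkK : k ∈ K := hk.2
      have hkN : k ∈ normalizer ((P : Subgroup G) : Set G) := hk.1
      refine ⟨hk.2, ?_⟩
      change k ∈ centralizer ((P : Subgroup G) : Set G)
      rw [mem_centralizer_iff]
      intro x hx
      have hx' : x ∈ (P : Subgroup G) := hx
      have h1 : k * x * k⁻¹ * x⁻¹ ∈ (P : Subgroup G) ⊓ K := by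
        refine mem_inf.mpr ⟨mul_mem ((mem_normalizer_iff.mp hkN x).mp hx') (inv_mem hx'), ?_⟩
        have : k * x * k⁻¹ * x⁻¹ = k * (x * k⁻¹ * x⁻¹) := by group
        rw [this]
        exact mul_mem hkK (‹K.Normal›.conj_mem _ (inv_mem hkK) x)
      rw [hd, mem_bot] at h1
      have : k * x = x * k := by
        have h2 : k * x * k⁻¹ * x⁻¹ * (x * k) = x * k := by rw [h1, one_mul]
        rw [← h2]; group
      exact this.symm
    · intro k hk
      exact ⟨centralizer_le_normalizer _ hk.2, hk.1⟩
  have hn : Nat.card (Sylow p G) * Nat.card C = Nat.card K := by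
    rw [Cfsg.Agent.Lib.Helper23.card_sylow_eq_index_normalizer_coe P, ← relIndex_top_right, ← hs,
      Cfsg.Agent.Lib.Helper23.relIndex_sup_eq_of_le le_normalizer (by rw [normalizer_eq_top]; exact le_top),
      ← inf_relIndex_right, hNC]
    have h1 := relIndex_mul_relIndex ⊥ C K bot_le inf_le_left
    rw [relIndex_bot_left, relIndex_bot_left] at h1
    rw [mul_comm]; exact h1
  obtain ⟨U₀⟩ : Nonempty (Sylow q C) := inferInstance
  set U : Subgroup G := (U₀ : Subgroup C).map C.subtype with hU
  have hUC : U ≤ C := map_subtype_le _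
  have hUq : IsPGroup q U := U₀.2.map _
  have hPU : (P : Subgroup G) ≤ normalizer (U : Set G) := by
    intro a ha
    rw [mem_normalizer_iff]
    intro x
    have key : ∀ y ∈ U, a * y * a⁻¹ = y := by
      intro y hy
      have := mem_centralizer_iff.mp (hUC hy).2 a ha
      rw [this]; group
    constructor
    · intro hx
      rw [key x hx]; exact hx
    · intro hx
      have h1 := key _ hx
      have h2 : a * x * a⁻¹ = x := by
        have : a * (a * x * a⁻¹) * a⁻¹ = a * x * a⁻¹ := h1
        have h3 : a⁻¹ * (a * (a * x * a⁻¹) * a⁻¹) * a = a⁻¹ * (a * x * a⁻¹) * a := by rw [this]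
        have e1 : a⁻¹ * (a * (a * x * a⁻¹) * a⁻¹) * a = a * x * a⁻¹ := by group
        have e2 : a⁻¹ * (a * x * a⁻¹) * a = x := by group
        rw [e1, e2] at h3
        exact h3
      rw [← h2]; exact hx
  have hsolv : Group.IsSolvable (P : Subgroup G) := by
    haveI := P.2.isNilpotent
    infer_instance
  obtain ⟨Q, hUQ, hPQ⟩ := Cfsg.Agent.S0025.result (P : Subgroup G) K
    (by rw [normalizer_eq_top]; exact le_top) hcop (Or.inl hsolv) q U (hUC.trans inf_le_left) hUq hPU
  set Q' : Subgroup G := (Q : Subgroup K).map K.subtype with hQ'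
  have hQ'K : Q' ≤ K := map_subtype_le _
  have hQ'q : IsPGroup q Q' := Q.2.map _
  have hW : Q' ⊓ centralizer ((P : Subgroup G) : Set G) = U := by
    apply le_antisymm
    · set W : Subgroup G := Q' ⊓ centralizer ((P : Subgroup G) : Set G) with hW
      have hWC : W ≤ C := fun x hx => ⟨hQ'K hx.1, hx.2⟩
      have hWq : IsPGroup q (W.subgroupOf C) :=
        (hQ'q.to_le inf_le_left).comap_of_injective C.subtype C.subtype_injective
      have hle : (U₀ : Subgroup C) ≤ W.subgroupOf C := by
        intro x hx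
        rw [mem_subgroupOf]
        have hxU : (x : G) ∈ U := ⟨x, hx, rfl⟩
        exact ⟨hUQ hxU, (hUC hxU).2⟩
      have heq := U₀.3 hWq hle
      intro x hx
      have : (⟨x, hWC hx⟩ : C) ∈ W.subgroupOf C := hx
      rw [heq] at this
      exact ⟨_, this, rfl⟩
    · exact le_inf hUQ (hUC.trans inf_le_right)
  have hmod := card_modEq_inf_centralizer (P : Subgroup G) Q' P.2 hPQ
  rw [hW] at hmod
  have hcQ : Nat.card Q' = q ^ (Nat.card K).factorization q := by
    rw [hQ', card_map_of_injective K.subtype_injective]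
    exact Q.card_eq_multiplicity
  have hcU : Nat.card U = q ^ (Nat.card C).factorization q := by
    rw [hU, card_map_of_injective C.subtype_injective]
    exact U₀.card_eq_multiplicity
  have hfac : (Nat.card K).factorization q =
      (Nat.card (Sylow p G)).factorization q + (Nat.card C).factorization q := by
    rw [← hn, Nat.factorization_mul Nat.card_pos.ne' Nat.card_pos.ne', Finsupp.add_apply]
  rw [hcQ, hcU, hfac, pow_add] at hmod
  -- cancel
  have hcop2 : Nat.Coprime p (q ^ (Nat.card C).factorization q) := by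
    rw [← hcU]
    apply (Nat.Prime.coprime_iff_not_dvd hp).mpr
    intro h
    exact hpK (h.trans ((card_dvd_of_le (hUC.trans inf_le_left))))
  have h1 : q ^ (Nat.card (Sylow p G)).factorization q * q ^ (Nat.card C).factorization q
      ≡ 1 * q ^ (Nat.card C).factorization q [MOD p] := by rw [one_mul]; exact hmod
  exact Nat.ModEq.cancel_right_of_coprime (by rw [Nat.coprime_iff_gcd_eq_one.symm]; exact hcop2) h1

theorem main (p : ℕ) [Fact p.Prime] (n : ℕ) : ∀ (G : Type u) [Group G] [Finite G], Nat.card G = n →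
    Good.{u} p (Nat.card (Sylow p G)) := by
  induction n using Nat.strong_induction_on with
  | _ n ih =>
    intro G _ _ hn
    have hp : p.Prime := Fact.out
    by_cases hsim : IsSimpleGroup G
    · exact ⟨[Nat.card (Sylow p G)], by simp, fun m hm =>
        Or.inr ⟨G, inferInstance, inferInstance, hsim, by simpa using hm⟩⟩
    rcases subsingleton_or_nontrivial G with hsub | hnt
    · have : Nat.card (Sylow p G) = 1 := by
        have : Subsingleton (Sylow p G) := ⟨fun P Q => Sylow.ext (Subsingleton.elim _ _)⟩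
        exact Nat.card_unique
      rw [this]; exact Good.one p
    obtain ⟨K, hKn, hKb, hKt⟩ : ∃ K : Subgroup G, K.Normal ∧ K ≠ ⊥ ∧ K ≠ ⊤ := by
      by_contra hcon
      push Not at hcon
      exact hsim ⟨fun K hK => by
        by_cases h : K = ⊥
        · exact Or.inl h
        · exact Or.inr (hcon K hK h)⟩
    obtain ⟨P⟩ : Nonempty (Sylow p G) := inferInstance
    by_cases hcase : (P : Subgroup G) ⊓ K = ⊥ ∧ (P : Subgroup G) ⊔ K = ⊤
    · exact good_of_parts hp.one_lt Nat.card_pos.ne' (fun q hq => qpart p K P hcase.1 hcase.2 q hq)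
    set N : Subgroup G := ((P : Subgroup G) ⊔ K) ⊓
      normalizer (((P : Subgroup G) ⊓ K : Subgroup G) : Set G) with hN
    have hDN : (P : Subgroup G) ⊓ K ≤ N := le_inf (inf_le_left.trans le_sup_left) le_normalizer
    haveI hnorm : (((P : Subgroup G) ⊓ K).subgroupOf N).Normal :=
      (normal_subgroupOf_iff_le_normalizer hDN).mpr inf_le_right
    have hform := Cfsg.Agent.S4341.result p K P N hN
    have hK1 : 1 < Nat.card K := by
      rw [Finite.one_lt_card_iff_nontrivial]
      exact (nontrivial_iff_ne_bot K).2 hKb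
    have hlt1 : Nat.card (G ⧸ K) < n := by
      rw [← hn, card_eq_card_quotient_mul_card_subgroup K]
      have h3 : 0 < Nat.card (G ⧸ K) := Nat.card_pos
      nlinarith
    have hlt2 : Nat.card K < n := by
      rw [← hn]
      by_contra hcon
      exact hKt (eq_top_of_le_card K (not_lt.mp hcon))
    have hlt3 : Nat.card (N ⧸ ((P : Subgroup G) ⊓ K).subgroupOf N) < n := by
      have h1 := card_eq_card_quotient_mul_card_subgroup (((P : Subgroup G) ⊓ K).subgroupOf N)
      have h2 : Nat.card N ≤ n := by rw [← hn]; exact card_le_card_group N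
      have h3 : 0 < Nat.card (N ⧸ ((P : Subgroup G) ⊓ K).subgroupOf N) := Nat.card_pos
      have h4 : 0 < Nat.card (((P : Subgroup G) ⊓ K).subgroupOf N) := Nat.card_pos
      by_cases hb : (P : Subgroup G) ⊓ K = ⊥
      · have ht : (P : Subgroup G) ⊔ K ≠ ⊤ := fun h => hcase ⟨hb, h⟩
        have h5 : Nat.card N < n := by
          rw [← hn]
          by_contra hcon
          have := eq_top_of_le_card N (not_lt.mp hcon)
          apply ht
          rw [eq_top_iff, ← this]
          exact inf_le_left
        nlinarith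
      · have h5 : 1 < Nat.card (((P : Subgroup G) ⊓ K).subgroupOf N) := by
          rw [Nat.card_congr (subgroupOfEquivOfLe hDN).toEquiv, Finite.one_lt_card_iff_nontrivial]
          exact (nontrivial_iff_ne_bot _).2 hb
        nlinarith
    rw [hform]
    exact ((ih _ hlt1 (G ⧸ K) rfl).mul (ih _ hlt2 K rfl)).mul (ih _ hlt3 _ rfl)

end Cfsg.H9.HallNum
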