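import Mathlib
import Cfsg.Agent.H1.Hall
import Cfsg.Agent.H9.HallNum
import Cfsg.Agent.H4.Schmidt2
import Cfsg.Agent.S0003
import Cfsg.Agent.S0004
import Cfsg.Agent.S0005

set_option autoImplicit false
universe u

namespace Cfsg.H9.HallCnt

open Subgroup

section chain
variable {G : Type u} [Group G]

theorem centralizer_sup_eq (A B : Subgroup G) :
    centralizer ((A ⊔ B : Subgroup G) : Set G) = centralizer (A : Set G) ⊓ centralizer (B : Set G) := by
  apply le_antisymm
  · exact le_inf (centralizer_le (le_sup_left : A ≤ A ⊔ B)) (centralizer_le (le_sup_right : B ≤ A ⊔ B))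
  · rw [le_centralizer_iff]
    refine sup_le ?_ ?_
    · rw [le_centralizer_iff]; exact inf_le_left
    · rw [le_centralizer_iff]; exact inf_le_right

variable [Finite G]

theorem chain (q : ℕ) (hq : q.Prime) (N : Subgroup G) (hN : IsPGroup q N) :
    ∀ (n : ℕ) (H : Subgroup G), Nat.card H = n → Group.IsSolvable H →
      H ≤ normalizer (N : Set G) → (Nat.card H).Coprime q →
      ∃ l : List ℕ, l.prod = (N ⊓ centralizer (H : Set G)).relIndex N ∧
        ∀ y ∈ l, (∃ e : ℕ, y = q ^ e) ∧ ∃ r : ℕ, r.Prime ∧ r ∣ Nat.card H ∧ y ≡ 1 [MOD r] := by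
  intro n
  induction n using Nat.strong_induction_on with
  | _ n ih =>
  intro H hHn hsol hHN hcop
  by_cases hH : H = ⊥
  · refine ⟨[], ?_, by simp⟩
    have : centralizer ((⊥ : Subgroup G) : Set G) = ⊤ := by
      rw [eq_top_iff, le_centralizer_iff]; exact bot_le
    rw [hH, this, inf_top_eq, relIndex_self, List.prod_nil]
  haveI : Nontrivial H := (nontrivial_iff_ne_bot H).mpr hH
  haveI := hsol
  obtain ⟨M, hMn, hMp⟩ := Cfsg.Agent.H4.exists_normal_prime_index (G := H)
  set r := M.index with hr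
  haveI : Fact r.Prime := ⟨hMp⟩
  set H₁ := M.map H.subtype with hH₁
  have hH₁H : H₁ ≤ H := map_subtype_le M
  have hcardM : Nat.card H₁ * r = Nat.card H := by
    rw [hH₁, card_map_of_injective H.subtype_injective]
    exact M.card_mul_index
  have hrH : r ∣ Nat.card H := Dvd.intro_left _ hcardM
  have hH₁d : Nat.card H₁ ∣ Nat.card H := Dvd.intro _ hcardM
  have hlt : Nat.card H₁ < n := by
    rw [← hHn, ← hcardM]
    have : 0 < Nat.card H₁ := Nat.card_pos
    have h2 := hMp.one_lt
    nlinarith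
  have hsol₁ : Group.IsSolvable H₁ :=
    Group.isSolvable_of_isSolvable_injective (f := inclusion hH₁H) (inclusion_injective hH₁H)
  obtain ⟨l₁, hl₁, hl₁'⟩ := ih _ hlt H₁ rfl hsol₁ (hH₁H.trans hHN)
    (Nat.Coprime.coprime_dvd_left hH₁d hcop)
  obtain ⟨P⟩ : Nonempty (Sylow r H) := inferInstance
  set R := (P : Subgroup H).map H.subtype with hR
  have hRp : IsPGroup r R := P.isPGroup'.map _
  have hRH : R ≤ H := map_subtype_le _
  have hsup : H₁ ⊔ R = H := by
    have h1 : M ⊔ (P : Subgroup H) = ⊤ := by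
      rw [← index_eq_one]
      have d1 : (M ⊔ (P : Subgroup H)).index ∣ r := index_dvd_of_le le_sup_left
      have d2 : (M ⊔ (P : Subgroup H)).index ∣ (P : Subgroup H).index := index_dvd_of_le le_sup_right
      rcases (Nat.dvd_prime hMp).mp d1 with h | h
      · exact h
      · rw [h] at d2
        exact absurd d2 P.not_dvd_index
    have h2 := congrArg (Subgroup.map H.subtype) h1
    rwa [Subgroup.map_sup, ← MonoidHom.range_eq_map, range_subtype] at h2
  set N₁ := N ⊓ centralizer (H₁ : Set G) with hN₁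
  have hclaim : ∀ x ∈ R, ∀ h ∈ N₁, x * h * x⁻¹ ∈ N₁ := by
    intro x hx h hh
    obtain ⟨hh1, hh2⟩ := mem_inf.mp hh
    refine mem_inf.mpr ⟨(mem_normalizer_iff.mp (hHN (hRH hx)) h).mp hh1, ?_⟩
    rw [mem_centralizer_iff] at hh2 ⊢
    intro a ha
    have ha' : x⁻¹ * a * x ∈ H₁ := by
      obtain ⟨a', ha', rfl⟩ := ha
      refine ⟨(⟨x, hRH hx⟩ : H)⁻¹ * a' * ⟨x, hRH hx⟩, ?_, by simp⟩
      have := hMn.conj_mem a' ha' (⟨x, hRH hx⟩ : H)⁻¹
      simpa using this
    have h3 := hh2 _ ha'
    calc a * (x * h * x⁻¹) = x * ((x⁻¹ * a * x) * h) * x⁻¹ := by group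
      _ = x * h * x⁻¹ * a := by rw [h3]; group
  have hRN₁ : R ≤ normalizer (N₁ : Set G) := by
    intro x hx
    rw [mem_normalizer_iff]
    intro h
    refine ⟨hclaim x hx h, fun hh => ?_⟩
    have := hclaim x⁻¹ (inv_mem hx) _ hh
    have e : x⁻¹ * (x * h * x⁻¹) * x⁻¹⁻¹ = h := by group
    rwa [e] at this
  have hmod := Cfsg.H9.HallNum.card_modEq_inf_centralizer R N₁ hRp hRN₁
  set C := N ⊓ centralizer (H : Set G) with hC
  have hCeq : N₁ ⊓ centralizer (R : Set G) = C := by
    rw [hN₁, hC, inf_assoc, ← centralizer_sup_eq, hsup]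
  rw [hCeq] at hmod
  have hCN₁ : C ≤ N₁ := by rw [← hCeq]; exact inf_le_left
  have hN₁N : N₁ ≤ N := inf_le_left
  set y := C.relIndex N₁ with hy
  have hcy : Nat.card C * y = Nat.card N₁ := by
    have := relIndex_mul_relIndex ⊥ C N₁ bot_le hCN₁
    rwa [relIndex_bot_left, relIndex_bot_left] at this
  haveI : Fact q.Prime := ⟨hq⟩
  obtain ⟨k, hk⟩ := IsPGroup.iff_card.mp hN
  have hyq : ∃ e : ℕ, y = q ^ e := by
    have h1 : y ∣ q ^ k := by
      rw [← hk]
      exact (Dvd.intro_left _ hcy).trans (card_dvd_of_le hN₁N)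
    obtain ⟨e, -, he⟩ := (Nat.dvd_prime_pow hq).mp h1
    exact ⟨e, he⟩
  have hqr : Nat.Coprime r q := Nat.Coprime.coprime_dvd_left hrH hcop
  have hCr : Nat.gcd r (Nat.card C) = 1 := by
    have h1 : Nat.card C ∣ q ^ k := by rw [← hk]; exact card_dvd_of_le inf_le_left
    exact Nat.Coprime.coprime_dvd_right h1 (Nat.Coprime.pow_right k hqr)
  have hy1 : y ≡ 1 [MOD r] := by
    apply Nat.ModEq.cancel_left_of_coprime hCr
    rw [hcy, mul_one]
    exact hmod
  refine ⟨y :: l₁, ?_, ?_⟩
  · rw [List.prod_cons, hl₁]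
    exact relIndex_mul_relIndex C N₁ N hCN₁ hN₁N
  · intro z hz
    rcases List.mem_cons.mp hz with rfl | hz
    · exact ⟨hyq, r, hMp, hrH, hy1⟩
    · obtain ⟨h1, r', hr', hr'd, hr'm⟩ := hl₁' z hz
      exact ⟨h1, r', hr', hr'd.trans hH₁d, hr'm⟩

end chain

section count
open scoped Pointwise
open Cfsg.H1
variable {G : Type u} [Group G] [Finite G]

omit [Finite G] in
theorem mem_normalizer_iff_smul {H : Subgroup G} {g : G} :
    g ∈ normalizer (H : Set G) ↔ MulAut.conj g • H = H := by
  rw [mem_normalizer_iff_map_conj_eq]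
  rfl

theorem card_eq_index_normalizer (m : ℕ) (H : Subgroup G) (hH : Nat.card H = m)
    (hconj : ∀ K : Subgroup G, Nat.card K = m → ∃ g : G, MulAut.conj g • H = K) :
    Nat.card {K : Subgroup G // Nat.card K = m} = (normalizer (H : Set G)).index := by
  rw [Subgroup.index]
  symm
  let f : G ⧸ normalizer (H : Set G) → {K : Subgroup G // Nat.card K = m} :=
    Quotient.lift (s := QuotientGroup.leftRel (normalizer (H : Set G)))
      (fun g => ⟨MulAut.conj g • H, by rw [card_conj_smul, hH]⟩) (by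
        intro a b hab
        have hab' : a⁻¹ * b ∈ normalizer (H : Set G) := QuotientGroup.leftRel_apply.mp hab
        rw [mem_normalizer_iff_smul] at hab'
        apply Subtype.ext
        change MulAut.conj a • H = MulAut.conj b • H
        have : b = a * (a⁻¹ * b) := by group
        rw [this, conj_mul_smul, hab'])
  apply Nat.card_congr (Equiv.ofBijective f ⟨?_, ?_⟩)
  · intro x y
    induction x using QuotientGroup.induction_on with
    | H a =>
    induction y using QuotientGroup.induction_on with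
    | H b =>
    intro hxy
    have h1 : MulAut.conj a • H = MulAut.conj b • H := congrArg Subtype.val hxy
    rw [QuotientGroup.eq, mem_normalizer_iff_smul, conj_mul_smul, ← h1, ← conj_mul_smul,
      inv_mul_cancel, map_one, one_smul]
  · rintro ⟨K, hK⟩
    obtain ⟨g, hg⟩ := hconj K hK
    exact ⟨(g : G ⧸ normalizer (H : Set G)), Subtype.ext hg⟩

theorem count_step [Group.IsSolvable G] (N H : Subgroup G) [N.Normal]
    (hcop : (Nat.card H).Coprime (Nat.card N)) :
    (normalizer (H : Set G)).index =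
      (normalizer ((H.map (QuotientGroup.mk' N) : Subgroup (G ⧸ N)) : Set (G ⧸ N))).index *
        (N ⊓ centralizer (H : Set G)).relIndex N := by
  have hfs : Function.Surjective (QuotientGroup.mk' N) := QuotientGroup.mk'_surjective N
  set A := normalizer (H : Set G) with hA
  set L := H ⊔ N with hL
  have hHA : H ≤ A := le_normalizer
  have h1 : (normalizer ((H.map (QuotientGroup.mk' N) : Subgroup (G ⧸ N)) : Set (G ⧸ N))).index
      = (normalizer (L : Set G)).index := by
    rw [← index_comap_of_surjective _ hfs, comap_normalizer_eq_of_surjective _ hfs, comap_map_eq,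
      QuotientGroup.ker_mk']
  have h2 : normalizer (L : Set G) = A ⊔ N := by
    apply le_antisymm
    · intro g hg
      rw [mem_normalizer_iff_smul] at hg
      have hK : MulAut.conj g • H ≤ L := by
        rw [← hg]
        exact pointwise_smul_le_pointwise_smul_iff.2 le_sup_left
      have hsolL : Group.IsSolvable L := inferInstance
      have hHall : (Nat.card H).Coprime (H.relIndex L) := by
        rw [hL, Cfsg.Agent.Lib.Helper23.relIndex_sup_normal_eq]
        exact Nat.Coprime.coprime_dvd_right (relIndex_dvd_card H N) hcop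
      obtain ⟨l, hl, hlH⟩ := hall_conj_internal hsolL le_sup_left hK hHall (card_conj_smul g H)
      have h3 : l⁻¹ * g ∈ A := by
        rw [hA, mem_normalizer_iff_smul, conj_mul_smul, ← hlH, ← conj_mul_smul, inv_mul_cancel,
          map_one, one_smul]
      have : g = l * (l⁻¹ * g) := by group
      rw [this]
      exact mul_mem (sup_le_sup_right hHA N hl) (mem_sup_left h3)
    · refine sup_le ?_ (le_sup_right.trans le_normalizer)
      intro x hx
      rw [hA, mem_normalizer_iff_smul] at hx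
      rw [mem_normalizer_iff_smul, hL, smul_sup, hx, Normal.conj_smul_eq_self x N]
  have h3 : A.relIndex (A ⊔ N) * (A ⊔ N).index = A.index := relIndex_mul_index le_sup_left
  have h4 : A ⊓ N = N ⊓ centralizer (H : Set G) := by
    apply le_antisymm
    · intro x hx
      obtain ⟨hx1, hx2⟩ := mem_inf.mp hx
      refine mem_inf.mpr ⟨hx2, ?_⟩
      apply mem_centralizer_of_conj_eq (K := N) ?_ (disjoint_of_coprime_natCard hcop.symm) hx2
        (mem_normalizer_iff_smul.mp hx1)
      rw [normalizer_eq_top]; exact le_top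
    · intro x hx
      obtain ⟨hx1, hx2⟩ := mem_inf.mp hx
      exact mem_inf.mpr ⟨centralizer_le_normalizer _ hx2, hx1⟩
  rw [← h3, h1, h2, Cfsg.Agent.Lib.Helper23.relIndex_sup_normal_eq, ← inf_relIndex_right, h4, mul_comm]

theorem index_normalizer_map_of_le (N H : Subgroup G) [N.Normal] (hNH : N ≤ H) :
    (normalizer ((H.map (QuotientGroup.mk' N) : Subgroup (G ⧸ N)) : Set (G ⧸ N))).index
      = (normalizer (H : Set G)).index := by
  have hfs : Function.Surjective (QuotientGroup.mk' N) := QuotientGroup.mk'_surjective N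
  rw [← index_comap_of_surjective _ hfs, comap_normalizer_eq_of_surjective _ hfs, comap_map_eq,
    QuotientGroup.ker_mk', sup_eq_left.mpr hNH]

end count

section main
open Cfsg.H1
open scoped Pointwise

/-- admissible factor -/
def FacOK (G : Type u) [Group G] (m y : ℕ) : Prop :=
  (∃ q e : ℕ, q.Prime ∧ y = q ^ e) ∧
  (∃ K L : Subgroup G, K.Normal ∧ L.Normal ∧ K < L ∧
    (∀ M : Subgroup G, M.Normal → K ≤ M → M ≤ L → M = K ∨ M = L) ∧ y ∣ K.relIndex L) ∧
  (∃ q : ℕ, q.Prime ∧ q ∣ m ∧ y ≡ 1 [MOD q])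

/-- product of admissible factors -/
def Fac (G : Type u) [Group G] (m x : ℕ) : Prop :=
  ∃ l : List ℕ, l.prod = x ∧ ∀ y ∈ l, FacOK G m y

theorem Fac.mul {G : Type u} [Group G] {m a b : ℕ} (ha : Fac G m a) (hb : Fac G m b) :
    Fac G m (a * b) := by
  obtain ⟨l, hl, hl'⟩ := ha
  obtain ⟨k, hk, hk'⟩ := hb
  refine ⟨l ++ k, by rw [List.prod_append, hl, hk], ?_⟩
  intro y hy
  rcases List.mem_append.mp hy with h | h
  · exact hl' y h
  · exact hk' y h

theorem FacOK.lift {G : Type u} [Group G] (N : Subgroup G) [N.Normal] {m' m y : ℕ}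
    (h : FacOK (G ⧸ N) m' y) (hm : m' ∣ m) : FacOK G m y := by
  obtain ⟨h1, ⟨K, L, hK, hL, hKL, hmin, hd⟩, q, hq, hqm, hy⟩ := h
  have hfs : Function.Surjective (QuotientGroup.mk' N) := QuotientGroup.mk'_surjective N
  refine ⟨h1, ⟨K.comap (QuotientGroup.mk' N), L.comap (QuotientGroup.mk' N), hK.comap _,
    hL.comap _, (comap_lt_comap_of_surjective hfs).mpr hKL, ?_, ?_⟩, q, hq, hqm.trans hm, hy⟩
  · intro M hM hKM hML
    have hker : (QuotientGroup.mk' N).ker ≤ M := (ker_le_comap _ K).trans hKM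
    have h2 := hmin (M.map (QuotientGroup.mk' N)) (hM.map _ hfs)
      (by rw [← map_comap_eq_self_of_surjective hfs K]; exact map_mono hKM)
      (by rw [← map_comap_eq_self_of_surjective hfs L]; exact map_mono hML)
    rcases h2 with h2 | h2
    · left; rw [← h2, comap_map_eq_self hker]
    · right; rw [← h2, comap_map_eq_self hker]
  · rw [relIndex_comap, map_comap_eq_self_of_surjective hfs]
    exact hd

theorem Fac.lift {G : Type u} [Group G] (N : Subgroup G) [N.Normal] {m' m x : ℕ}
    (h : Fac (G ⧸ N) m' x) (hm : m' ∣ m) : Fac G m x := by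
  obtain ⟨l, hl, hl'⟩ := h
  exact ⟨l, hl, fun y hy => (hl' y hy).lift N hm⟩

theorem main : ∀ (c : ℕ) (G : Type u) [Group G] [Finite G] [Group.IsSolvable G], Nat.card G = c →
    ∀ m n : ℕ, Nat.card G = m * n → m.Coprime n →
      Fac G m (Nat.card {H : Subgroup G // Nat.card H = m}) := by
  intro c
  induction c using Nat.strong_induction_on with
  | _ c ih =>
  intro G _ _ _ hc m n hG hmn
  have hconj : ∀ H : Subgroup G, Nat.card H = m → ∀ K : Subgroup G, Nat.card K = m →
      ∃ g : G, MulAut.conj g • H = K :=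
    fun H hH K hK => Cfsg.Agent.S0004.result m n hG hmn H K hH hK
  by_cases htriv : Subsingleton G
  · obtain ⟨H, hH⟩ := Cfsg.Agent.S0003.result (G := G) m n hG hmn
    rw [card_eq_index_normalizer m H hH (hconj H hH)]
    have : (normalizer (H : Set G)).index = 1 := by
      rw [index_eq_one, eq_top_iff]
      intro x _
      rw [Subsingleton.elim x 1]
      exact one_mem _
    rw [this]
    exact ⟨[], rfl, by simp⟩
  rw [not_subsingleton_iff_nontrivial] at htriv
  -- minimal normal subgroup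
  obtain ⟨N, ⟨hNn, hNne⟩, hNmin⟩ := (wellFounded_lt (α := Subgroup G)).has_min
    {N : Subgroup G | N.Normal ∧ N ≠ ⊥} ⟨⊤, inferInstance, top_ne_bot⟩
  haveI := hNn
  have hchief : ∀ M : Subgroup G, M.Normal → ⊥ ≤ M → M ≤ N → M = ⊥ ∨ M = N := by
    intro M hM _ hMN
    by_cases h0 : M = ⊥
    · exact Or.inl h0
    · right
      by_contra hne
      exact hNmin M ⟨hM, h0⟩ (lt_of_le_of_ne hMN hne)
  obtain ⟨q, A, hq, hAn, hAN, hAne, -, hAq⟩ := exists_normal_elemAb_le N inferInstance hNne
  have hAeq : A = N := (hchief A hAn bot_le hAN).resolve_left hAne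
  rw [hAeq] at hAq
  haveI : Fact q.Prime := ⟨hq⟩
  have hNp : IsPGroup q N := by
    intro x
    exact ⟨1, by rw [pow_one]; exact Subtype.ext (hAq x x.2)⟩
  obtain ⟨a, ha⟩ := IsPGroup.iff_card.mp hNp
  have hcardG : Nat.card G = Nat.card (G ⧸ N) * Nat.card N := card_eq_card_quotient_mul_card_subgroup N
  have hN1 : 1 < Nat.card N := by
    haveI : Nontrivial N := (nontrivial_iff_ne_bot N).mpr hNne
    exact Finite.one_lt_card
  have hlt : Nat.card (G ⧸ N) < c := by
    rw [← hc, hcardG]
    have : 0 < Nat.card (G ⧸ N) := Nat.card_pos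
    nlinarith
  have hNG : Nat.card N ∣ m * n := by rw [← hG]; exact card_subgroup_dvd_card N
  have hNpos : 0 < Nat.card N := Nat.card_pos
  by_cases hqm : q ∣ m
  · -- case A
    have hqn : Nat.Coprime q n := Nat.Coprime.coprime_dvd_left hqm hmn
    have hNn' : (Nat.card N).Coprime n := by rw [ha]; exact Nat.Coprime.pow_left a hqn
    obtain ⟨m', hm'⟩ : Nat.card N ∣ m := hNn'.dvd_of_dvd_mul_right hNG
    obtain ⟨H, hH, hNH⟩ := Cfsg.Agent.S0005.result m n hG hmn N hNn'
    have hGq : Nat.card (G ⧸ N) = m' * n := by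
      apply Nat.eq_of_mul_eq_mul_right hNpos
      rw [← hcardG, hG, hm']; ring
    have hmn' : m'.Coprime n := Nat.Coprime.coprime_dvd_left (Dvd.intro_left _ hm'.symm) hmn
    have hHb : Nat.card (H.map (QuotientGroup.mk' N)) = m' := by
      apply Nat.eq_of_mul_eq_mul_right hNpos
      rw [card_map_mk'_of_le hNH, hH, hm']; ring
    have h1 := ih _ hlt (G ⧸ N) rfl m' n hGq hmn'
    rw [card_eq_index_normalizer m' _ hHb
      (fun K hK => Cfsg.Agent.S0004.result m' n hGq hmn' _ K hHb hK),
      index_normalizer_map_of_le N H hNH] at h1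
    rw [card_eq_index_normalizer m H hH (hconj H hH)]
    exact h1.lift N (Dvd.intro_left _ hm'.symm)
  · -- case B
    have hqm' : Nat.Coprime q m := (Nat.Prime.coprime_iff_not_dvd hq).mpr hqm
    have hNm : (Nat.card N).Coprime m := by rw [ha]; exact Nat.Coprime.pow_left a hqm'
    obtain ⟨n', hn'⟩ : Nat.card N ∣ n := hNm.dvd_of_dvd_mul_left hNG
    obtain ⟨H, hH⟩ := Cfsg.Agent.S0003.result (G := G) m n hG hmn
    have hGq : Nat.card (G ⧸ N) = m * n' := by
      apply Nat.eq_of_mul_eq_mul_right hNpos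
      rw [← hcardG, hG, hn']; ring
    have hmn' : m.Coprime n' := Nat.Coprime.coprime_dvd_right (Dvd.intro_left _ hn'.symm) hmn
    have hHN : (Nat.card H).Coprime (Nat.card N) := by rw [hH]; exact hNm.symm
    have hHb : Nat.card (H.map (QuotientGroup.mk' N)) = m := by
      rw [card_map_mk'_of_disjoint (disjoint_of_coprime_natCard hHN), hH]
    have h1 := ih _ hlt (G ⧸ N) rfl m n' hGq hmn'
    rw [card_eq_index_normalizer m _ hHb
      (fun K hK => Cfsg.Agent.S0004.result m n' hGq hmn' _ K hHb hK)] at h1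
    rw [card_eq_index_normalizer m H hH (hconj H hH), count_step N H hHN]
    refine (h1.lift N dvd_rfl).mul ?_
    obtain ⟨l, hl, hl'⟩ := chain q hq N hNp _ H rfl inferInstance
      (by rw [normalizer_eq_top]; exact le_top) (by rw [hH]; exact hqm'.symm)
    refine ⟨l, hl, fun y hy => ?_⟩
    obtain ⟨⟨e, he⟩, r, hr, hrH, hyr⟩ := hl' y hy
    refine ⟨⟨q, e, hq, he⟩, ⟨⊥, N, inferInstance, hNn, bot_lt_iff_ne_bot.mpr hNne, hchief, ?_⟩,
      r, hr, hH ▸ hrH, hyr⟩
    rw [relIndex_bot_left]
    exact ((List.dvd_prod hy).trans (by rw [hl])).trans (relIndex_dvd_card _ N)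

end main

end Cfsg.H9.HallCnt
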