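import Mathlib
import Cfsg.Agent.Tr.Kaz3
import Cfsg.Agent.H9.Sig

/-!
# Consequences of Kazarin's theorem (helper library of helper9)
-/

set_option autoImplicit false
set_option linter.style.haveILetI false
set_option linter.unusedSectionVars false

namespace Cfsg.H9

universe u

section
variable {G : Type u} [Group G] [Finite G]

/-- there is a largest solvable normal subgroup -/
theorem exists_max_solvable_normal :
    ∃ R : Subgroup G, R.Normal ∧ Group.IsSolvable ↥R ∧
      ∀ N : Subgroup G, N.Normal → Group.IsSolvable ↥N → N ≤ R := by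
  classical
  obtain ⟨R, hR⟩ := (Set.toFinite {R : Subgroup G | R.Normal ∧ Group.IsSolvable ↥R}).exists_maximal
    ⟨⊥, inferInstance, inferInstance⟩
  refine ⟨R, hR.1.1, hR.1.2, ?_⟩
  intro N hN hNs
  haveI := hR.1.1
  haveI := hN
  have h1 : (R ⊔ N) ∈ {R : Subgroup G | R.Normal ∧ Group.IsSolvable ↥R} :=
    ⟨inferInstance, isSolvable_sup_of_le_normalizer
      (by rw [Subgroup.normalizer_eq_top_iff.mpr hR.1.1]; exact le_top) hR.1.2 hNs⟩
  exact le_sup_right.trans (hR.2 h1 le_sup_left)

/-- a set of elements with prime power class sizes lies in a solvable normal subgroup -/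
theorem exists_solvable_normal_of_prime_power_index (C : Subgroup G)
    (hC : ∀ x ∈ C, ∃ (p : ℕ) (a : ℕ), p.Prime ∧
      (Subgroup.centralizer ({x} : Set G)).index = p ^ a) :
    ∃ R : Subgroup G, R.Normal ∧ Group.IsSolvable ↥R ∧ C ≤ R := by
  obtain ⟨R, hRn, hRs, hmax⟩ := exists_max_solvable_normal (G := G)
  refine ⟨R, hRn, hRs, ?_⟩
  intro x hx
  obtain ⟨p, a, hp, ha⟩ := hC x hx
  exact hmax _ Subgroup.normalClosure_normal (Cfsg.Agent.Tr.Kaz.kazarin hp x a ha)
    (Subgroup.subset_normalClosure (Set.mem_singleton x))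

/-- `G = S C` with `S` a `p`-group and every element of `C` commuting with `C`: solvable -/
theorem isSolvable_of_pGroup_mul_abelian {p : ℕ} [Fact p.Prime] (S C : Subgroup G)
    (hS : IsPGroup p ↥S) (hC : ∀ x ∈ C, ∀ y ∈ C, x * y = y * x) (hSC : S ⊔ C = ⊤)
    (hidx : ∃ a, C.index = p ^ a) : Group.IsSolvable G := by
  have hp : p.Prime := Fact.out
  obtain ⟨a, ha⟩ := hidx
  obtain ⟨R, hRn, hRs, hCR⟩ := exists_solvable_normal_of_prime_power_index C (by
    intro x hx
    have h1 : C ≤ Subgroup.centralizer ({x} : Set G) := by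
      intro y hy
      rw [Subgroup.mem_centralizer_singleton_iff]
      exact hC y hy x hx
    have h2 : (Subgroup.centralizer ({x} : Set G)).index ∣ p ^ a :=
      ha ▸ Subgroup.index_dvd_of_le h1
    obtain ⟨j, _, hj⟩ := (Nat.dvd_prime_pow hp).mp h2
    exact ⟨p, j, hp, hj⟩)
  haveI := hRn
  have h3 : S.map (QuotientGroup.mk' R) = ⊤ := by
    have h4 : (S ⊔ C).map (QuotientGroup.mk' R) = ⊤ := by
      rw [hSC, ← MonoidHom.range_eq_map]
      exact MonoidHom.range_eq_top.mpr (QuotientGroup.mk'_surjective R)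
    rw [Subgroup.map_sup] at h4
    have h5 : C.map (QuotientGroup.mk' R) = ⊥ := by
      rw [eq_bot_iff]
      rintro _ ⟨x, hx, rfl⟩
      exact (QuotientGroup.eq_one_iff x).mpr (hCR hx)
    rwa [h5, sup_bot_eq] at h4
  have h6 : IsPGroup p (G ⧸ R) := by
    have := hS.map (QuotientGroup.mk' R)
    rw [h3] at this
    exact this.of_equiv Subgroup.topEquiv
  haveI : Group.IsNilpotent (G ⧸ R) := h6.isNilpotent
  haveI : Group.IsSolvable (G ⧸ R) := inferInstance
  haveI := hRs
  exact Group.isSolvable_of_ker_le_range R.subtype (QuotientGroup.mk' R)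
    (by rw [QuotientGroup.ker_mk', Subgroup.range_subtype])

end

end Cfsg.H9
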