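import Mathlib
import Cfsg.Agent.H1.NormalRank2
import Cfsg.Agent.Lib.Helper13.Puig2
import Cfsg.Agent.Lib.Helper13.NonCyclic

set_option autoImplicit false

/-! A finite 2-group containing an elementary abelian subgroup of order `> 4` has a normal
four-group. -/

namespace Cfsg.H9.NFour

open Subgroup

variable {S : Type*} [Group S]

/-- the explicit four-group generated by two commuting involutions -/
def fourSub (z e : S) (hz : z * z = 1) (he : e * e = 1) (hc : z * e = e * z) : Subgroup S where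
  carrier := {u | u = 1 ∨ u = z ∨ u = e ∨ u = e * z}
  one_mem' := Or.inl rfl
  mul_mem' := by
    intro a b ha hb
    simp only [Set.mem_ofPred_eq] at ha hb ⊢
    have h1 : z * (e * z) = e := by rw [← mul_assoc, hc, mul_assoc, hz, mul_one]
    have h2 : e * (e * z) = z := by rw [← mul_assoc, he, one_mul]
    have h3 : e * z * z = e := by rw [mul_assoc, hz, mul_one]
    have h4 : e * z * e = z := by rw [← hc, mul_assoc, he, mul_one]
    have h5 : e * z * (e * z) = 1 := by rw [← mul_assoc, h4, hz]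
    rcases ha with ha | ha | ha | ha <;> rcases hb with hb | hb | hb | hb <;> rw [ha, hb] <;>
      simp only [one_mul, mul_one, hz, he, hc, h1, h2, h3, h4, h5, true_or, or_true]
  inv_mem' := by
    intro a ha
    simp only [Set.mem_ofPred_eq] at ha ⊢
    have h4 : e * z * e = z := by rw [← hc, mul_assoc, he, mul_one]
    have h5 : e * z * (e * z) = 1 := by rw [← mul_assoc, h4, hz]
    rcases ha with ha | ha | ha | ha
    · left; rw [ha, inv_one]
    · right; left; rw [ha]; exact inv_eq_of_mul_eq_one_left hz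
    · right; right; left; rw [ha]; exact inv_eq_of_mul_eq_one_left he
    · right; right; right; rw [ha]; exact inv_eq_of_mul_eq_one_left h5

theorem mem_fourSub {z e : S} {hz : z * z = 1} {he : e * e = 1} {hc : z * e = e * z} {u : S} :
    u ∈ fourSub z e hz he hc ↔ u = 1 ∨ u = z ∨ u = e ∨ u = e * z := Iff.rfl

theorem exists_mem_notMem [Finite S] (E : Subgroup S) (T : Finset S) (h : T.card < Nat.card E) :
    ∃ e ∈ E, e ∉ T := by
  by_contra hcon
  push Not at hcon
  have h1 : (E : Set S) ⊆ (T : Set S) := fun e he => hcon e he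
  have h2 := Set.ncard_le_ncard h1 (Set.toFinite _)
  rw [Set.ncard_coe_finset] at h2
  have h3 : Nat.card E = (E : Set S).ncard := Nat.card_coe_set_eq _
  omega

theorem card_le_of_subset [Finite S] (E : Subgroup S) (T : Finset S) (h : ∀ t ∈ T, t ∈ E) :
    T.card ≤ Nat.card E := by
  have h1 : (T : Set S) ⊆ (E : Set S) := fun e he => h e he
  have h2 := Set.ncard_le_ncard h1 (Set.toFinite _)
  rw [Set.ncard_coe_finset] at h2
  have h3 : Nat.card E = (E : Set S).ncard := Nat.card_coe_set_eq _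
  omega

theorem card_fourSub [Finite S] {z e : S} {hz : z * z = 1} {he : e * e = 1} {hc : z * e = e * z}
    (hz1 : z ≠ 1) (he1 : e ≠ 1) (hez : e ≠ z) : Nat.card (fourSub z e hz he hc) = 4 := by
  classical
  have h3 : Nat.card (fourSub z e hz he hc) = ((fourSub z e hz he hc : Subgroup S) : Set S).ncard :=
    Nat.card_coe_set_eq _
  have h4 : ((fourSub z e hz he hc : Subgroup S) : Set S) = (({1, z, e, e * z} : Finset S) : Set S) := by
    ext u
    simp only [SetLike.mem_coe, mem_fourSub, Finset.coe_insert, Finset.coe_singleton,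
      Set.mem_insert_iff, Set.mem_singleton_iff]
  rw [h3, h4, Set.ncard_coe_finset]
  have a1 : e ≠ e * z := fun h => hz1 (by simpa using h.symm)
  have a2 : z ≠ e * z := fun h => he1 (by simpa using h.symm)
  have a3 : (1 : S) ≠ e * z := by
    intro h
    apply hez
    have : e * z * z = z := by rw [← h, one_mul]
    rwa [mul_assoc, hz, mul_one] at this
  rw [Finset.card_insert_of_notMem, Finset.card_insert_of_notMem, Finset.card_insert_of_notMem,
    Finset.card_singleton]
  · simpa using a1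
  · simp only [Finset.mem_insert, Finset.mem_singleton, not_or]
    exact ⟨hez.symm, a2⟩
  · simp only [Finset.mem_insert, Finset.mem_singleton, not_or]
    exact ⟨hz1.symm, he1.symm, a3⟩


/-- an involutory inner action centralizing `Ω₂(A)` moves elements of `A` by involutions -/
theorem comm_sq [Finite S] (hS : IsPGroup 2 S) (A : Subgroup S) [hAn : A.Normal]
    (f : S) (hf : f * f = 1) (hf4 : ∀ a ∈ A, a ^ 4 = 1 → f * a * f⁻¹ = a) (a : S) (ha : a ∈ A) :
    (f * a * f⁻¹ * a⁻¹) ^ 2 = 1 := by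
  set c := f * a * f⁻¹ * a⁻¹ with hc
  have hfa : f * a * f⁻¹ ∈ A := hAn.conj_mem a ha f
  have hcA : c ∈ A := A.mul_mem hfa (A.inv_mem ha)
  have hfinv : f⁻¹ = f := inv_eq_of_mul_eq_one_left hf
  have hinv : f * c * f⁻¹ = c⁻¹ := by
    have h1 : f * c * f⁻¹ = (f * f) * a * f⁻¹ * a⁻¹ * f⁻¹ := by rw [hc]; group
    have h2 : c⁻¹ = a * f * a⁻¹ * f⁻¹ := by rw [hc]; group
    rw [h1, h2, hf, one_mul, hfinv]
  obtain ⟨k, hk⟩ := (IsPGroup.iff_orderOf.mp hS) c
  by_cases hk2 : k ≤ 1
  · rw [← orderOf_dvd_iff_pow_eq_one, hk]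
    calc 2 ^ k ∣ 2 ^ 1 := pow_dvd_pow 2 hk2
      _ = 2 := pow_one 2
  · exfalso
    obtain ⟨j, rfl⟩ : ∃ j, k = j + 2 := ⟨k - 2, by omega⟩
    set d := c ^ (2 ^ j) with hd
    have hd4 : d ^ 4 = 1 := by
      rw [hd, ← pow_mul, show 2 ^ j * 4 = 2 ^ (j + 2) by ring, ← hk, pow_orderOf_eq_one]
    have h1 : f * d * f⁻¹ = d := hf4 d (A.pow_mem hcA _) hd4
    have h2 : f * d * f⁻¹ = d⁻¹ := by rw [hd, ← conj_pow, hinv, inv_pow]
    have h3 : d * d = 1 := by
      have : d = d⁻¹ := h1.symm.trans h2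
      calc d * d = d * d⁻¹ := by rw [← this]
        _ = 1 := mul_inv_cancel d
    have h4 : c ^ (2 ^ (j + 1)) = 1 := by
      rw [show 2 ^ (j + 1) = 2 ^ j + 2 ^ j by ring, pow_add]; exact h3
    have h5 := orderOf_dvd_of_pow_eq_one h4
    rw [hk] at h5
    have := (Nat.pow_dvd_pow_iff_le_right (by norm_num : 1 < 2)).mp h5
    omega

theorem core [Finite S] (hS : IsPGroup 2 S) (A : Subgroup S) [hAn : A.Normal]
    [hAc : IsMulCommutative A] (hCA : centralizer (A : Set S) ≤ A)
    (z : S) (hzA : z ∈ A) (hz1 : z ≠ 1) (hz2 : z ^ 2 = 1)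
    (huniq : ∀ a ∈ A, a ^ 2 = 1 → a = 1 ∨ a = z)
    (E : Subgroup S) (hE : 4 < Nat.card E) (hE2 : ∀ e ∈ E, e ^ 2 = 1) :
    ∃ U : Subgroup S, U.Normal ∧ Nat.card U = 4 ∧ ∀ u ∈ U, u ^ 2 = 1 := by
  classical
  have hcomm : ∀ a ∈ A, ∀ b ∈ A, a * b = b * a := fun a ha b hb =>
    congrArg Subtype.val (hAc.is_comm.comm ⟨a, ha⟩ ⟨b, hb⟩)
  have hzz : z * z = 1 := by rw [← sq]; exact hz2
  have hzc : ∀ s : S, s * z * s⁻¹ = z := by
    intro s
    have h1 : s * z * s⁻¹ ∈ A := hAn.conj_mem z hzA s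
    have h2 : (s * z * s⁻¹) ^ 2 = 1 := by rw [conj_pow, hz2, mul_one, mul_inv_cancel]
    rcases huniq _ h1 h2 with h | h
    · exfalso; apply hz1
      have : z = s⁻¹ * (s * z * s⁻¹) * s := by group
      rw [this, h]; group
    · exact h
  have hzc' : ∀ s : S, s * z = z * s := fun s => by
    have := hzc s
    rw [mul_inv_eq_iff_eq_mul] at this; exact this
  have hEA : ∀ e ∈ E, e ∈ A → e = 1 ∨ e = z := fun e he heA => huniq e heA (hE2 e he)
  have hEinv : ∀ e ∈ E, e * e = 1 := fun e he => by rw [← sq]; exact hE2 e he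
  obtain ⟨e₁, he₁, hn₁⟩ := exists_mem_notMem E {1, z}
    (lt_of_le_of_lt (Finset.card_le_two) (by omega))
  simp only [Finset.mem_insert, Finset.mem_singleton, not_or] at hn₁
  have he₁A : e₁ ∉ A := fun h => by
    rcases hEA e₁ he₁ h with h' | h'
    · exact hn₁.1 h'
    · exact hn₁.2 h'
  -- find e
  obtain ⟨e, heE, heA, he4⟩ : ∃ e ∈ E, e ∉ A ∧ ∀ a ∈ A, a ^ 4 = 1 → e * a * e⁻¹ = a := by
    by_cases hx : ∃ x ∈ A, x ^ 2 = z
    · obtain ⟨x, hxA, hxz⟩ := hx
      have hO2 : ∀ a ∈ A, a ^ 4 = 1 → a = 1 ∨ a = z ∨ a = x ∨ a = x * z := by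
        intro a ha ha4
        have h1 : (a ^ 2) ^ 2 = 1 := by rw [← pow_mul]; exact ha4
        rcases huniq _ (A.pow_mem ha 2) h1 with h | h
        · rcases huniq a ha h with h' | h'
          · exact Or.inl h'
          · exact Or.inr (Or.inl h')
        · have h2 : (x⁻¹ * a) ^ 2 = 1 := by
            have hc : Commute x⁻¹ a := hcomm _ (A.inv_mem hxA) _ ha
            rw [hc.mul_pow, inv_pow, hxz, h, inv_mul_cancel]
          rcases huniq _ (A.mul_mem (A.inv_mem hxA) ha) h2 with h' | h'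
          · right; right; left
            exact (inv_mul_eq_one.mp h').symm
          · right; right; right
            rw [← h']; group
      have hkey : ∀ s : S, s * x * s⁻¹ = x ∨ s * x * s⁻¹ = x * z := by
        intro s
        have h1 : s * x * s⁻¹ ∈ A := hAn.conj_mem x hxA s
        have h2 : (s * x * s⁻¹) ^ 2 = z := by rw [conj_pow, hxz, hzc]
        have h3 : (s * x * s⁻¹) ^ 4 = 1 := by
          rw [show 4 = 2 * 2 from rfl, pow_mul, h2, hz2]
        rcases hO2 _ h1 h3 with h | h | h | h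
        · rw [h, one_pow] at h2; exact absurd h2.symm hz1
        · rw [h, hz2] at h2; exact absurd h2.symm hz1
        · exact Or.inl h
        · exact Or.inr h
      have hcx : ∀ s : S, s * x * s⁻¹ = x → ∀ a ∈ A, a ^ 4 = 1 → s * a * s⁻¹ = a := by
        intro s hs a ha ha4
        rcases hO2 a ha ha4 with h | h | h | h
        · rw [h]; group
        · rw [h]; exact hzc s
        · rw [h]; exact hs
        · rw [h]
          have : s * (x * z) * s⁻¹ = (s * x * s⁻¹) * (s * z * s⁻¹) := by group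
          rw [this, hs, hzc]
      rcases hkey e₁ with h1 | h1
      · exact ⟨e₁, he₁, he₁A, hcx e₁ h1⟩
      obtain ⟨e₂, he₂, hn₂⟩ := exists_mem_notMem E {1, z, e₁, e₁ * z}
        (lt_of_le_of_lt (Finset.card_le_four) hE)
      simp only [Finset.mem_insert, Finset.mem_singleton, not_or] at hn₂
      have he₂A : e₂ ∉ A := fun h => by
        rcases hEA e₂ he₂ h with h' | h'
        · exact hn₂.1 h'
        · exact hn₂.2.1 h'
      rcases hkey e₂ with h2 | h2
      · exact ⟨e₂, he₂, he₂A, hcx e₂ h2⟩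
      refine ⟨e₁ * e₂, E.mul_mem he₁ he₂, ?_, hcx _ ?_⟩
      · intro h
        have h0 : e₂ = e₁ * (e₁ * e₂) := by rw [← mul_assoc, hEinv e₁ he₁, one_mul]
        rcases hEA _ (E.mul_mem he₁ he₂) h with h' | h'
        · apply hn₂.2.2.1
          rw [h0, h', mul_one]
        · apply hn₂.2.2.2
          rw [h0, h']
      · have h3 : e₁ * e₂ * x * (e₁ * e₂)⁻¹ = e₁ * (e₂ * x * e₂⁻¹) * e₁⁻¹ := by group
        rw [h3, h2]
        have h4 : e₁ * (x * z) * e₁⁻¹ = (e₁ * x * e₁⁻¹) * (e₁ * z * e₁⁻¹) := by group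
        rw [h4, h1, hzc, mul_assoc, hzz, mul_one]
    · push Not at hx
      refine ⟨e₁, he₁, he₁A, ?_⟩
      intro a ha ha4
      have h1 : (a ^ 2) ^ 2 = 1 := by rw [← pow_mul]; exact ha4
      rcases huniq _ (A.pow_mem ha 2) h1 with h | h
      · rcases huniq a ha h with h' | h'
        · rw [h']; group
        · rw [h']; exact hzc _
      · exact absurd h (hx a ha)
  -- `A` is cyclic
  have hcyc : IsCyclic A := by
    by_contra hnc
    letI : CommGroup A := { (inferInstance : Group A) with mul_comm := hAc.is_comm.comm }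
    obtain ⟨r, hr, x, y, hx, hy, hy1, hxy⟩ :=
      Cfsg.Agent.Lib.Helper13.exists_prime_torsion_of_not_isCyclic hnc
    have hx1 : x ≠ 1 := by
      have := hxy 0
      simpa using this
    have hr2 : r = 2 := by
      obtain ⟨k, hk⟩ := (IsPGroup.iff_orderOf.mp (hS.to_subgroup A)) x
      haveI : Fact r.Prime := ⟨hr⟩
      have h1 : orderOf x = r := orderOf_eq_prime hx hx1
      rw [h1] at hk
      have h2 : r ∣ 2 ^ k := hk ▸ dvd_rfl
      exact (Nat.prime_dvd_prime_iff_eq hr Nat.prime_two).mp (hr.dvd_of_dvd_pow h2)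
    subst hr2
    have hxz : (x : S) = z := by
      have h1 : (x : S) ^ 2 = 1 := by have := congrArg Subtype.val hx; simpa using this
      rcases huniq x x.2 h1 with h | h
      · exact absurd (Subtype.ext h) hx1
      · exact h
    have hyz : (y : S) = z := by
      have h1 : (y : S) ^ 2 = 1 := by have := congrArg Subtype.val hy; simpa using this
      rcases huniq y y.2 h1 with h | h
      · exact absurd (Subtype.ext h) hy1
      · exact h
    apply hxy 1
    apply Subtype.ext
    rw [pow_one]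
    show (x : S) * (y : S) = 1
    rw [hxz, hyz, hzz]
  obtain ⟨b, hb⟩ := hcyc.exists_generator
  have hcent : ∀ g : S, g * (b : S) = (b : S) * g → g ∈ A := by
    intro g hg
    apply hCA
    rw [mem_centralizer_iff]
    intro a ha
    obtain ⟨k, hk⟩ := mem_zpowers_iff.mp (hb ⟨a, ha⟩)
    have hak : a = (b : S) ^ k := by
      have := congrArg Subtype.val hk
      simpa using this.symm
    have hc : Commute g (b : S) := hg
    rw [hak]; exact ((hc.zpow_right k).eq).symm
  have hgen : ∀ f : S, f * f = 1 → f ∉ A → (∀ a ∈ A, a ^ 4 = 1 → f * a * f⁻¹ = a) →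
      f * b * f⁻¹ * (b : S)⁻¹ = z := by
    intro f hf hfA hf4
    have h1 := comm_sq hS A f hf hf4 b b.2
    have h2 : f * b * f⁻¹ * (b : S)⁻¹ ∈ A := A.mul_mem (hAn.conj_mem _ b.2 f) (A.inv_mem b.2)
    rcases huniq _ h2 h1 with h | h
    · exfalso; apply hfA; apply hcent
      have := mul_inv_eq_one.mp h
      exact mul_inv_eq_iff_eq_mul.mp this
    · exact h
  have hee : e * e = 1 := hEinv e heE
  have hze : z * e = e * z := (hzc' e).symm
  refine ⟨fourSub z e hzz hee hze, ?_, card_fourSub hz1 ?_ ?_, ?_⟩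
  · constructor
    intro u hu s
    have hf : s * e * s⁻¹ = e ∨ s * e * s⁻¹ = e * z := by
      set f := s * e * s⁻¹ with hfdef
      have hff : f * f = 1 := by
        calc f * f = s * (e * e) * s⁻¹ := by rw [hfdef]; group
          _ = 1 := by rw [hee]; group
      have hfA : f ∉ A := by
        intro h
        apply heA
        have := hAn.conj_mem f h s⁻¹
        rw [hfdef] at this
        convert this using 1; group
      have hf4 : ∀ a ∈ A, a ^ 4 = 1 → f * a * f⁻¹ = a := by
        intro a ha ha4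
        have h1 : s⁻¹ * a * s ∈ A := by simpa using hAn.conj_mem a ha s⁻¹
        have h2 : (s⁻¹ * a * s) ^ 4 = 1 := by
          have := conj_pow (a := s⁻¹) (b := a) (i := 4)
          rw [inv_inv] at this; rw [this, ha4]; group
        have h3 := he4 _ h1 h2
        calc f * a * f⁻¹ = s * (e * (s⁻¹ * a * s) * e⁻¹) * s⁻¹ := by rw [hfdef]; group
          _ = a := by rw [h3]; group
      have h1 := hgen f hff hfA hf4
      have h2 := hgen e hee heA he4
      set a₀ := e⁻¹ * f with ha₀
      have hcb : a₀ * (b : S) = (b : S) * a₀ := by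
        have h3 : f * b * f⁻¹ = e * b * e⁻¹ := mul_right_cancel (h1.trans h2.symm)
        have h4 : f * b = e * b * e⁻¹ * f := by rw [← h3]; group
        calc a₀ * (b : S) = e⁻¹ * (f * b) := by rw [ha₀]; group
          _ = e⁻¹ * (e * b * e⁻¹ * f) := by rw [h4]
          _ = b * a₀ := by rw [ha₀]; group
      have ha₀A : a₀ ∈ A := hcent a₀ hcb
      have hfe : f = e * a₀ := by rw [ha₀]; group
      have heinv : e⁻¹ = e := inv_eq_of_mul_eq_one_left hee
      have h5 : (e * a₀ * e⁻¹) * a₀ = 1 := by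
        have h0 : f * f = e * a₀ * (e * a₀) := by rw [← hfe]
        rw [heinv, ← hff, h0]
        group
      have h6 := comm_sq hS A e hee he4 a₀ ha₀A
      have h7 : e * a₀ * e⁻¹ = a₀⁻¹ := eq_inv_of_mul_eq_one_left h5
      have h8 : a₀ ^ 4 = 1 := by
        rw [h7] at h6
        have : (a₀⁻¹ * a₀⁻¹) ^ 2 = (a₀ ^ 4)⁻¹ := by group
        rw [this] at h6; exact inv_eq_one.mp h6
      have h9 := he4 a₀ ha₀A h8
      have h10 : a₀ ^ 2 = 1 := by
        rw [h9] at h5; rw [sq]; exact h5
      rcases huniq a₀ ha₀A h10 with h | h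
      · left; rw [hfe, h, mul_one]
      · right; rw [hfe, h]
    rcases mem_fourSub.mp hu with h | h | h | h
    · rw [h, mul_one, mul_inv_cancel]; exact one_mem _
    · rw [h, hzc]; exact mem_fourSub.mpr (Or.inr (Or.inl rfl))
    · rw [h]
      rcases hf with h' | h'
      · rw [h']; exact mem_fourSub.mpr (Or.inr (Or.inr (Or.inl rfl)))
      · rw [h']; exact mem_fourSub.mpr (Or.inr (Or.inr (Or.inr rfl)))
    · rw [h]
      have h3 : s * (e * z) * s⁻¹ = (s * e * s⁻¹) * (s * z * s⁻¹) := by group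
      rw [h3, hzc]
      rcases hf with h' | h'
      · rw [h']; exact mem_fourSub.mpr (Or.inr (Or.inr (Or.inr rfl)))
      · rw [h', mul_assoc, hzz, mul_one]; exact mem_fourSub.mpr (Or.inr (Or.inr (Or.inl rfl)))
  · intro h; exact heA (h ▸ A.one_mem)
  · intro h; exact heA (h ▸ hzA)
  · intro u hu
    rcases mem_fourSub.mp hu with h | h | h | h
    · rw [h, one_pow]
    · rw [h, hz2]
    · rw [h, sq, hee]
    · rw [h, sq]
      calc e * z * (e * z) = e * (z * e) * z := by group
        _ = (e * e) * (z * z) := by rw [hze]; group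
        _ = 1 := by rw [hee, hzz, one_mul]


theorem exists_normal_four [Finite S] (hS : IsPGroup 2 S) (E : Subgroup S) (hE : 4 < Nat.card E)
    (hE2 : ∀ e ∈ E, e ^ 2 = 1) :
    ∃ U : Subgroup S, U.Normal ∧ Nat.card U = 4 ∧ ∀ u ∈ U, u ^ 2 = 1 := by
  classical
  haveI : Fact (Nat.Prime 2) := ⟨Nat.prime_two⟩
  haveI := hS.isNilpotent
  obtain ⟨A, hAn, hAc, hCA⟩ := Cfsg.Agent.Lib.Helper13.exists_normal_abelian_self_centralizing S
  by_cases h : ∃ z ∈ A, z ≠ 1 ∧ z ^ 2 = 1 ∧ ∀ a ∈ A, a ^ 2 = 1 → a = 1 ∨ a = z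
  · obtain ⟨z, hzA, hz1, hz2, hu⟩ := h
    exact core hS A hCA z hzA hz1 hz2 hu E hE hE2
  · push Not at h
    have hA1 : A ≠ ⊥ := by
      rintro rfl
      have h1 : ∀ x : S, x = 1 := by
        intro x
        have : x ∈ centralizer (((⊥ : Subgroup S)) : Set S) := by
          rw [mem_centralizer_iff]
          intro y hy
          have hy' : y = 1 := by simpa using hy
          rw [hy', one_mul, mul_one]
        simpa using hCA this
      have h2 : Nat.card E ≤ 1 := by
        rw [Finite.card_le_one_iff_subsingleton]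
        exact ⟨fun a b => Subtype.ext ((h1 a).trans (h1 b).symm)⟩
      omega
    obtain ⟨z, hz⟩ : ∃ z : A, orderOf z = 2 := by
      apply exists_prime_orderOf_dvd_card' 2
      rcases (hS.to_subgroup A).card_eq_or_dvd with h1 | h1
      · exact absurd (A.card_eq_one.mp h1) hA1
      · exact h1
    have hz1 : (z : S) ≠ 1 := by
      intro h1
      have : z = 1 := Subtype.ext h1
      rw [this, orderOf_one] at hz
      omega
    have hz2 : (z : S) ^ 2 = 1 := by
      have := pow_orderOf_eq_one z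
      rw [hz] at this
      have := congrArg Subtype.val this
      simpa using this
    obtain ⟨a, haA, ha2, ha1, haz⟩ := h z z.2 hz1 hz2
    set Ω := Cfsg.H1.omegaAb 2 A with hΩ
    haveI hΩn : Ω.Normal :=
      ⟨fun x hx s => ⟨hAn.conj_mem x hx.1 s, by rw [conj_pow, hx.2, mul_one, mul_inv_cancel]⟩⟩
    have hzΩ : (z : S) ∈ Ω := ⟨z.2, hz2⟩
    have haΩ : a ∈ Ω := ⟨haA, ha2⟩
    have hΩ3 : 3 ≤ Nat.card Ω := by
      have := card_le_of_subset Ω {1, (z : S), a} (by
        intro t ht
        simp only [Finset.mem_insert, Finset.mem_singleton] at ht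
        rcases ht with rfl | rfl | rfl
        · exact one_mem _
        · exact hzΩ
        · exact haΩ)
      rw [Finset.card_insert_of_notMem, Finset.card_insert_of_notMem, Finset.card_singleton] at this
      · exact this
      · simpa using fun h => haz h.symm
      · simp only [Finset.mem_insert, Finset.mem_singleton, not_or]
        exact ⟨hz1.symm, ha1.symm⟩
    have hΩ1 : (⊥ : Subgroup S) < Ω := by
      rw [bot_lt_iff_ne_bot]
      intro h0
      rw [h0] at hΩ3
      simp at hΩ3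
    obtain ⟨E₁, hE₁n, -, hE₁Ω, hr1⟩ := Cfsg.H1.exists_normal_step hS ⊥ Ω hΩ1
    rw [relIndex_bot_left] at hr1
    haveI := hE₁n
    have hlt : E₁ < Ω := by
      apply lt_of_le_of_ne hE₁Ω
      intro h0
      rw [h0] at hr1
      omega
    obtain ⟨E₂, hE₂n, h12, hE₂Ω, hr2⟩ := Cfsg.H1.exists_normal_step hS E₁ Ω hlt
    refine ⟨E₂, hE₂n, ?_, fun u hu => (hE₂Ω hu).2⟩
    have := relIndex_mul_relIndex ⊥ E₁ E₂ bot_le h12
    rw [relIndex_bot_left, relIndex_bot_left, hr1, hr2] at this
    omega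

theorem comm_of_sq (U : Subgroup S) (h : ∀ u ∈ U, u ^ 2 = 1) : IsMulCommutative U := by
  have key : ∀ a b : S, a * a = 1 → b * b = 1 → a * b * (a * b) = 1 → a * b = b * a := by
    intro a b ha hb hab
    calc a * b = b * b * (a * b) * (a * a) := by rw [ha, hb, one_mul, mul_one]
      _ = b * (b * ((a * b) * (a * b)) * b⁻¹) * a := by group
      _ = b * a := by rw [hab]; group
  refine ⟨⟨fun x y => Subtype.ext ?_⟩⟩
  exact key x y (by rw [← sq]; exact h x x.2) (by rw [← sq]; exact h y y.2)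
    (by rw [← sq]; exact h _ (U.mul_mem x.2 y.2))

section general

variable {P : Type*} [Group P] [Finite P] {p : ℕ} [hp : Fact p.Prime]

omit [Finite P] hp in
theorem sup_ea (A B : Subgroup P) (hA : IsMulCommutative A ∧ ∀ a ∈ A, a ^ p = 1)
    (hB : IsMulCommutative B ∧ ∀ a ∈ B, a ^ p = 1) (hAB : ∀ a ∈ A, ∀ b ∈ B, a * b = b * a) :
    IsMulCommutative (A ⊔ B : Subgroup P) ∧ ∀ a ∈ A ⊔ B, a ^ p = 1 := by
  have hAA : A ≤ centralizer (A : Set P) := fun a ha => mem_centralizer_iff.mpr
    (fun b hb => congrArg Subtype.val (hA.1.is_comm.comm ⟨b, hb⟩ ⟨a, ha⟩))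
  have hBB : B ≤ centralizer (B : Set P) := fun a ha => mem_centralizer_iff.mpr
    (fun b hb => congrArg Subtype.val (hB.1.is_comm.comm ⟨b, hb⟩ ⟨a, ha⟩))
  have h1 : A ⊔ B ≤ centralizer (A : Set P) :=
    sup_le hAA (fun b hb => mem_centralizer_iff.mpr fun a ha => hAB a ha b hb)
  have h2 : A ⊔ B ≤ centralizer (B : Set P) :=
    sup_le (fun a ha => mem_centralizer_iff.mpr fun b hb => (hAB a ha b hb).symm) hBB
  have h3 : A ⊔ B ≤ centralizer ((A ⊔ B : Subgroup P) : Set P) :=
    sup_le (le_centralizer_iff.mp h1) (le_centralizer_iff.mp h2)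
  haveI hc : IsMulCommutative (A ⊔ B : Subgroup P) :=
    ⟨⟨fun x y => Subtype.ext ((mem_centralizer_iff.mp (h3 y.2)) x x.2)⟩⟩
  refine ⟨hc, ?_⟩
  have h4 : A ⊔ B ≤ Cfsg.H1.omegaAb p (A ⊔ B) :=
    sup_le (fun a ha => ⟨le_sup_left (a := A) ha, hA.2 a ha⟩)
      (fun a ha => ⟨le_sup_right (b := B) ha, hB.2 a ha⟩)
  exact fun a ha => (h4 ha).2

theorem index_centralizer_lt (U : Subgroup P) [hUn : U.Normal] (u : P) (hu : u ∈ U) (hu1 : u ≠ 1) :
    (centralizer ({u} : Set P)).index < Nat.card U := by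
  rw [Subgroup.index]
  let f₀ : P ⧸ centralizer ({u} : Set P) → U :=
    Quotient.lift (s := QuotientGroup.leftRel (centralizer ({u} : Set P)))
      (fun g => (⟨g * u * g⁻¹, hUn.conj_mem u hu g⟩ : U)) (by
        intro a b hab
        have hab' : a⁻¹ * b ∈ centralizer ({u} : Set P) := QuotientGroup.leftRel_apply.mp hab
        rw [mem_centralizer_singleton_iff] at hab'
        apply Subtype.ext
        change a * u * a⁻¹ = b * u * b⁻¹
        have h1 : b = a * (a⁻¹ * b) := by group
        have h2 : b * u * b⁻¹ = a * ((a⁻¹ * b) * u) * (a⁻¹ * b)⁻¹ * a⁻¹ := by group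
        rw [h2, hab']
        group)
  let f : Option (P ⧸ centralizer ({u} : Set P)) → U := fun o => o.elim 1 f₀
  have hf : Function.Injective f := by
    intro x y hxy
    rcases x with _ | x <;> rcases y with _ | y
    · rfl
    · exfalso
      induction y using QuotientGroup.induction_on with
      | H b =>
      have h1 : (1 : P) = b * u * b⁻¹ := congrArg Subtype.val hxy
      apply hu1
      have : u = b⁻¹ * (b * u * b⁻¹) * b := by group
      rw [this, ← h1]; group
    · exfalso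
      induction x using QuotientGroup.induction_on with
      | H b =>
      have h1 : b * u * b⁻¹ = (1 : P) := congrArg Subtype.val hxy
      apply hu1
      have : u = b⁻¹ * (b * u * b⁻¹) * b := by group
      rw [this, h1]; group
    · congr 1
      induction x using QuotientGroup.induction_on with
      | H a =>
      induction y using QuotientGroup.induction_on with
      | H b =>
      have h1 : a * u * a⁻¹ = b * u * b⁻¹ := congrArg Subtype.val hxy
      rw [QuotientGroup.eq, mem_centralizer_singleton_iff]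
      calc a⁻¹ * b * u = a⁻¹ * (b * u * b⁻¹) * b := by group
        _ = a⁻¹ * (a * u * a⁻¹) * b := by rw [h1]
        _ = u * (a⁻¹ * b) := by group
  have := Nat.card_le_card_of_injective f hf
  rw [Finite.card_option] at this
  omega

theorem index_centralizer_dvd (hP : IsPGroup p P) (U : Subgroup P) [hUn : U.Normal]
    (hUe : ∀ a ∈ U, a ^ p = 1) (hU : Nat.card U = p ^ 2) :
    (centralizer (U : Set P)).index ∣ p := by
  haveI := hP.isNilpotent
  have hp1 := hp.out.one_lt
  have hU1 : U ≠ ⊥ := by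
    rintro rfl
    rw [card_bot] at hU
    have : 1 < p ^ 2 := Nat.one_lt_pow (by norm_num) hp1
    omega
  have h0 := Cfsg.Agent.S0065.result U hU1
  obtain ⟨z, hz, hz1⟩ := (U ⊓ center P).bot_or_exists_ne_one.resolve_left h0
  have hzU : z ∈ U := hz.1
  have hzc : z ∈ center P := hz.2
  have hoz : Nat.card (zpowers z) = p := by
    rw [Nat.card_zpowers]; exact orderOf_eq_prime (hUe z hzU) hz1
  have hlt : zpowers z < U := by
    apply lt_of_le_of_ne (zpowers_le.mpr hzU)
    intro h
    rw [h, hU] at hoz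
    have : p ^ 2 = p * p := sq p
    nlinarith
  obtain ⟨u, huU, huz⟩ := SetLike.exists_of_lt hlt
  have hu1 : u ≠ 1 := fun h => huz (h ▸ one_mem _)
  have hW : zpowers z ⊔ zpowers u = U := by
    have hle : zpowers z ⊔ zpowers u ≤ U := sup_le (zpowers_le.mpr hzU) (zpowers_le.mpr huU)
    apply eq_of_le_of_card_ge hle
    have h1 : Nat.card (zpowers z ⊔ zpowers u : Subgroup P) ∣ p ^ 2 := hU ▸ card_dvd_of_le hle
    obtain ⟨j, hj, hj'⟩ := (Nat.dvd_prime_pow hp.out).mp h1
    have h2 : zpowers z < zpowers z ⊔ zpowers u := by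
      apply lt_of_le_of_ne le_sup_left
      intro h
      apply huz
      rw [h]
      exact le_sup_right (a := zpowers z) (mem_zpowers u)
    have h3 : Nat.card (zpowers z) < Nat.card (zpowers z ⊔ zpowers u : Subgroup P) := by
      by_contra hcon
      exact h2.ne (eq_of_le_of_card_ge h2.le (not_lt.mp hcon))
    rw [hoz, hj'] at h3
    have h4 : 1 < j := by
      by_contra hcon
      have : p ^ j ≤ p ^ 1 := Nat.pow_le_pow_right hp.out.pos (not_lt.mp hcon)
      rw [pow_one] at this
      omega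
    have h5 : j = 2 := by omega
    rw [hU, hj', h5]
  have hle : centralizer ({u} : Set P) ≤ centralizer (U : Set P) := by
    intro g hg
    rw [mem_centralizer_singleton_iff] at hg
    have h1 : U ≤ centralizer ({g} : Set P) := by
      rw [← hW]
      apply sup_le
      · rw [zpowers_le, mem_centralizer_singleton_iff]
        exact (mem_center_iff.mp hzc g).symm
      · rw [zpowers_le, mem_centralizer_singleton_iff]
        exact hg.symm
    rw [mem_centralizer_iff]
    intro x hx
    have := h1 hx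
    rw [mem_centralizer_singleton_iff] at this
    exact this
  have h1 := index_dvd_of_le hle
  have h2 := index_centralizer_lt U u huU hu1
  obtain ⟨n, hn⟩ := hP.index (centralizer ({u} : Set P))
  rw [hn, hU] at h2
  have h3 : n < 2 := (Nat.pow_lt_pow_iff_right hp1).mp h2
  apply h1.trans
  rw [hn]
  calc p ^ n ∣ p ^ 1 := pow_dvd_pow p (by omega)
    _ = p := pow_one p

theorem card_le_mul_inf (hP : IsPGroup p P) (U : Subgroup P) [hUn : U.Normal]
    (hUe : ∀ a ∈ U, a ^ p = 1) (hU : Nat.card U = p ^ 2) (E : Subgroup P) :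
    Nat.card E ≤ p * Nat.card (E ⊓ centralizer (U : Set P) : Subgroup P) := by
  have h1 := index_centralizer_dvd hP U hUe hU
  have h2 : (centralizer (U : Set P)).relIndex E ∣ p := (relIndex_dvd_index_of_normal _ _).trans h1
  have h3 := relIndex_mul_relIndex ⊥ (E ⊓ centralizer (U : Set P)) E bot_le inf_le_left
  rw [relIndex_bot_left, relIndex_bot_left, inf_relIndex_left] at h3
  have h4 := Nat.le_of_dvd hp.out.pos h2
  rw [← h3, mul_comm]
  exact Nat.mul_le_mul_right _ h4


/-- `C` contains an elementary abelian subgroup of order `> p²` -/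
def R3 (p : ℕ) (C : Subgroup P) : Prop :=
  ∃ W : Subgroup P, W ≤ C ∧ (IsMulCommutative W ∧ ∀ a ∈ W, a ^ p = 1) ∧ p ^ 2 < Nat.card W

omit [Finite P] hp in
theorem rank_iff (C : Subgroup P) :
    (¬ ∀ A : Subgroup ↥C, IsMulCommutative A → (∀ a ∈ A, a ^ p = 1) → Nat.card A ≤ p ^ 2) ↔
      R3 p C := by
  constructor
  · intro h
    push Not at h
    obtain ⟨A, hAc, hAe, hA⟩ := h
    refine ⟨A.map C.subtype, map_subtype_le A, ⟨⟨⟨?_⟩⟩, ?_⟩, ?_⟩
    · rintro ⟨x, a, ha, rfl⟩ ⟨y, b, hb, rfl⟩
      apply Subtype.ext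
      have h1 : a * b = b * a := congrArg Subtype.val (hAc.is_comm.comm ⟨a, ha⟩ ⟨b, hb⟩)
      exact (congrArg Subtype.val h1 : (a : P) * b = b * a)
    · rintro x ⟨a, ha, rfl⟩
      have := congrArg Subtype.val (hAe a ha)
      simpa using this
    · rw [card_map_of_injective C.subtype_injective]
      exact hA
  · rintro ⟨W, hWC, ⟨hWc, hWe⟩, hW⟩ h
    have h1 := h (W.subgroupOf C) inferInstance (by
      intro a ha
      apply Subtype.ext
      have := hWe a (mem_subgroupOf.mp ha)
      simpa using this)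
    rw [Nat.card_congr (subgroupOfEquivOfLe hWC).toEquiv] at h1
    omega

theorem sq_le_card_inf (hP : IsPGroup p P) (U : Subgroup P) [hUn : U.Normal]
    (hUe : ∀ a ∈ U, a ^ p = 1) (hU : Nat.card U = p ^ 2) (E : Subgroup P)
    (hE : p ^ 2 < Nat.card E) :
    p ^ 2 ≤ Nat.card (E ⊓ centralizer (U : Set P) : Subgroup P) := by
  have h1 := card_le_mul_inf hP U hUe hU E
  obtain ⟨j, hj⟩ := (hP.to_subgroup (E ⊓ centralizer (U : Set P))).exists_card_eq
  rw [hj] at h1 ⊢
  have h2 : p ^ 2 < p ^ (j + 1) := by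
    calc p ^ 2 < Nat.card E := hE
      _ ≤ p * p ^ j := h1
      _ = p ^ (j + 1) := by ring
  have h3 := (Nat.pow_lt_pow_iff_right hp.out.one_lt).mp h2
  exact Nat.pow_le_pow_right hp.out.pos (by omega)

theorem r3_centralizer (hP : IsPGroup p P) (U : Subgroup P) [hUn : U.Normal]
    (hUea : IsMulCommutative U ∧ ∀ a ∈ U, a ^ p = 1) (hU : Nat.card U = p ^ 2) (E : Subgroup P)
    (hEea : IsMulCommutative E ∧ ∀ a ∈ E, a ^ p = 1) (hE : p ^ 2 < Nat.card E) :
    R3 p (centralizer (U : Set P)) := by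
  set C := centralizer (U : Set P) with hC
  have hUC : U ≤ C := fun a ha => mem_centralizer_iff.mpr
    (fun b hb => congrArg Subtype.val (hUea.1.is_comm.comm ⟨b, hb⟩ ⟨a, ha⟩))
  have hEC : IsMulCommutative (E ⊓ C : Subgroup P) ∧ ∀ a ∈ E ⊓ C, a ^ p = 1 :=
    ⟨⟨⟨fun x y => Subtype.ext (show (x : P) * y = y * x from
      (congrArg Subtype.val (hEea.1.is_comm.comm ⟨x, x.2.1⟩ ⟨y, y.2.1⟩)))⟩⟩,
      fun a ha => hEea.2 a ha.1⟩
  have hW := sup_ea (E ⊓ C) U hEC hUea
    (fun a ha b hb => ((mem_centralizer_iff.mp ha.2) b hb).symm)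
  by_cases hc : p ^ 2 < Nat.card (E ⊓ C ⊔ U : Subgroup P)
  · exact ⟨E ⊓ C ⊔ U, sup_le inf_le_right hUC, hW, hc⟩
  · exfalso
    have h1 : U = E ⊓ C ⊔ U := eq_of_le_of_card_ge le_sup_right (by rw [hU]; exact not_lt.mp hc)
    have h2 : E ⊓ C ≤ U := by rw [h1]; exact le_sup_left
    have h3 := sq_le_card_inf hP U hUea.2 hU E hE
    have h4 : E ⊓ C = U := eq_of_le_of_card_ge h2 (by rw [hU]; exact h3)
    have h5 : U ≤ E := h4 ▸ inf_le_left
    have h6 : E ≤ C := fun a ha => mem_centralizer_iff.mpr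
      (fun b hb => congrArg Subtype.val (hEea.1.is_comm.comm ⟨b, h5 hb⟩ ⟨a, ha⟩))
    rw [inf_eq_left.mpr h6] at h4
    rw [h4, hU] at hE
    exact lt_irrefl _ hE

theorem component (hP : IsPGroup p P) (U : Subgroup P) [hUn : U.Normal]
    (hUea : IsMulCommutative U ∧ ∀ a ∈ U, a ^ p = 1) (hU : Nat.card U = p ^ 2) (E : Subgroup P)
    (hEea : IsMulCommutative E ∧ ∀ a ∈ E, a ^ p = 1) (hE : p ^ 2 < Nat.card E)
    (X : Subgroup P) (hX : IsMulCommutative X ∧ ∀ a ∈ X, a ^ p = 1) (hXc : p ^ 2 ≤ Nat.card X) :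
    Relation.ReflTransGen (fun A B : Subgroup P => (IsMulCommutative A ∧ ∀ a ∈ A, a ^ p = 1) ∧
      p ^ 2 ≤ Nat.card ↥A ∧ (IsMulCommutative B ∧ ∀ a ∈ B, a ^ p = 1) ∧ p ^ 2 ≤ Nat.card ↥B ∧
      ∀ a ∈ A, ∀ b ∈ B, a * b = b * a) X U ↔ R3 p (centralizer (X : Set P)) := by
  constructor
  · intro h
    induction h using Relation.ReflTransGen.head_induction_on with
    | refl => exact r3_centralizer hP U hUea hU E hEea hE
    | head hab _ ih =>
      rename_i A B _
      obtain ⟨hA, hAc, hB, hBc, hAB⟩ := hab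
      have hW := sup_ea A B hA hB hAB
      by_cases hc : p ^ 2 < Nat.card (A ⊔ B : Subgroup P)
      · refine ⟨A ⊔ B, ?_, hW, hc⟩
        intro x hx
        rw [mem_centralizer_iff]
        intro a ha
        exact congrArg Subtype.val (hW.1.is_comm.comm ⟨a, le_sup_left (a := A) ha⟩ ⟨x, hx⟩)
      · have h1 : A = A ⊔ B := eq_of_le_of_card_ge le_sup_left ((not_lt.mp hc).trans hAc)
        have h2 : B = A ⊔ B := eq_of_le_of_card_ge le_sup_right ((not_lt.mp hc).trans hBc)
        rw [h1, ← h2]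
        exact ih hB hBc
  · rintro ⟨W, hWC, hWea, hW⟩
    set C := centralizer (U : Set P) with hC
    have hWC' : IsMulCommutative (W ⊓ C : Subgroup P) ∧ ∀ a ∈ W ⊓ C, a ^ p = 1 :=
      ⟨⟨⟨fun x y => Subtype.ext (show (x : P) * y = y * x from
        (congrArg Subtype.val (hWea.1.is_comm.comm ⟨x, x.2.1⟩ ⟨y, y.2.1⟩)))⟩⟩,
        fun a ha => hWea.2 a ha.1⟩
    have h3 := sq_le_card_inf hP U hUea.2 hU W hW
    refine Relation.ReflTransGen.head (b := W) ⟨hX, hXc, hWea, hW.le, ?_⟩
      (Relation.ReflTransGen.head (b := W ⊓ C) ⟨hWea, hW.le, hWC', h3, ?_⟩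
        (Relation.ReflTransGen.single ⟨hWC', h3, hUea, hU.ge, ?_⟩))
    · intro a ha b hb
      exact (mem_centralizer_iff.mp (hWC hb)) a ha
    · intro a ha b hb
      exact congrArg Subtype.val (hWea.1.is_comm.comm ⟨a, ha⟩ ⟨b, hb.1⟩)
    · intro a ha b hb
      exact ((mem_centralizer_iff.mp ha.2) b hb).symm

end general

end Cfsg.H9.NFour
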