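import Mathlib
import Cfsg.Agent.H9.PSolv
import Cfsg.Agent.H9.PComp

/-! `p'`-subgroups normalizing a Sylow `p`-subgroup of a `p`-solvable group (helper9). -/

set_option autoImplicit false

open scoped commutatorElement

namespace Cfsg.H9

open Cfsg

universe u

theorem pow_card_eq_one_of_mem {G : Type*} [Group G] {H : Subgroup G} {g : G} (hg : g ∈ H) :
    g ^ Nat.card H = 1 := by
  have h := pow_card_eq_one' (G := H) (x := ⟨g, hg⟩)
  have h2 := congrArg (fun z : H => (z : G)) h
  simpa only [Subgroup.coe_pow, Subgroup.coe_one] using h2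

/-- stabilizing a chain: if `x` (a `p`-element) centralizes `t = [x,q]` and `t` is a `p'`-element
then `t = 1`. -/
theorem eq_one_of_comm_of_coprime {G : Type*} [Group G] {x q : G} {n m : ℕ}
    (hc : x * (x * q * x⁻¹ * q⁻¹) = (x * q * x⁻¹ * q⁻¹) * x) (hx : x ^ n = 1)
    (ht : (x * q * x⁻¹ * q⁻¹) ^ m = 1) (hnm : n.Coprime m) : x * q * x⁻¹ * q⁻¹ = 1 := by
  have hpow : ∀ k : ℕ, x ^ k * q * (x ^ k)⁻¹ = (x * q * x⁻¹ * q⁻¹) ^ k * q := by
    intro k
    induction k with
    | zero => simp
    | succ k ih =>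
      have hc' : Commute x ((x * q * x⁻¹ * q⁻¹) ^ k) :=
        (show Commute x (x * q * x⁻¹ * q⁻¹) from hc).pow_right k
      calc x ^ (k + 1) * q * (x ^ (k + 1))⁻¹ = x * (x ^ k * q * (x ^ k)⁻¹) * x⁻¹ := by
            rw [pow_succ']; group
        _ = x * ((x * q * x⁻¹ * q⁻¹) ^ k * q) * x⁻¹ := by rw [ih]
        _ = (x * (x * q * x⁻¹ * q⁻¹) ^ k) * q * x⁻¹ := by group
        _ = ((x * q * x⁻¹ * q⁻¹) ^ k * x) * q * x⁻¹ := by rw [hc'.eq]
        _ = (x * q * x⁻¹ * q⁻¹) ^ k * (x * q * x⁻¹ * q⁻¹) * q := by group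
        _ = _ := by rw [← pow_succ]
  have h1 := hpow n
  rw [hx] at h1
  have h2 : (x * q * x⁻¹ * q⁻¹) ^ n = 1 := by
    have : q = (x * q * x⁻¹ * q⁻¹) ^ n * q := by simpa using h1
    exact mul_eq_right.mp this.symm
  have h3 := pow_gcd_eq_one.mpr ⟨h2, ht⟩
  rw [hnm, pow_one] at h3
  exact h3

theorem pElement_centralizes_aux (p : ℕ) [Fact p.Prime] (n : ℕ) :
    ∀ (G : Type u) [Group G] [Finite G], Nat.card G ≤ n → IsPSolvable p G →
      ∀ (Q : Subgroup G), ¬ p ∣ Nat.card Q → ∀ P : Sylow p G,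
        Q ≤ Subgroup.normalizer ((P : Subgroup G) : Set G) →
        ∀ x ∈ Subgroup.normalizer (Q : Set G), (∃ k : ℕ, x ^ p ^ k = 1) →
          x ∈ Subgroup.centralizer (Q : Set G) := by
  have hp : p.Prime := Fact.out
  induction n with
  | zero =>
    intro G _ _ hcard
    exact absurd hcard (by have := Nat.card_pos (α := G); omega)
  | succ n ih =>
    intro G _ _ hcard hG Q hQ P hQP x hxQ hxp
    -- quotient step
    have hquot : ∀ (N : Subgroup G) [N.Normal], N ≠ ⊥ → ∀ q ∈ Q, x * q * x⁻¹ * q⁻¹ ∈ N := by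
      intro N _ hN q hq
      have hlt : Nat.card (G ⧸ N) ≤ n := by
        have h1 := Subgroup.card_eq_card_quotient_mul_card_subgroup N
        have h2 : 1 < Nat.card N := by
          rw [Subgroup.one_lt_card_iff_ne_bot]; exact hN
        have h3 : 0 < Nat.card (G ⧸ N) := Nat.card_pos
        nlinarith
      have hsurj := QuotientGroup.mk'_surjective N
      have h1 := ih (G ⧸ N) hlt (isPSolvable_of_surjective _ hsurj hG) (Q.map (QuotientGroup.mk' N))
        (fun h => hQ (h.trans (Subgroup.card_map_dvd Q (QuotientGroup.mk' N))))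
        (P.mapSurjective hsurj)
        (by
          rw [Sylow.coe_mapSurjective]
          exact (Subgroup.map_mono hQP).trans (Subgroup.le_normalizer_map _))
        (QuotientGroup.mk' N x) (Subgroup.le_normalizer_map _ ⟨x, hxQ, rfl⟩)
        (by
          obtain ⟨k, hk⟩ := hxp
          exact ⟨k, by rw [← map_pow, hk, map_one]⟩)
      rw [Subgroup.mem_centralizer_iff] at h1
      have h2 := h1 _ ⟨q, hq, rfl⟩
      rw [← QuotientGroup.eq_one_iff]
      have h3 : (QuotientGroup.mk' N) (x * q * x⁻¹ * q⁻¹) = 1 := by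
        rw [map_mul, map_mul, map_mul, map_inv, map_inv, ← h2]; group
      exact h3
    have hxq : ∀ q ∈ Q, x * q * x⁻¹ * q⁻¹ ∈ Q := by
      intro q hq
      exact Q.mul_mem ((Subgroup.mem_normalizer_iff.mp hxQ q).mp hq) (Q.inv_mem hq)
    have hfin : (∀ q ∈ Q, x * q * x⁻¹ * q⁻¹ = 1) → x ∈ Subgroup.centralizer (Q : Set G) := by
      intro h
      rw [Subgroup.mem_centralizer_iff]
      intro q hq
      have := h q hq
      calc q * x = (x * q * x⁻¹ * q⁻¹)⁻¹ * (x * q) := by group
        _ = x * q := by rw [this]; simp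
    by_cases hW : pPrimeCore p G = ⊥
    · -- `O_{p'}(G) = 1`
      have hHH := Cfsg.Agent.Lib.Helper23.centralizer_pCore_le_of_isPSolvable p hG hW
      by_cases hR : pCore p G = ⊥
      · rw [hR] at hHH
        have hx1 : x ∈ (⊥ : Subgroup G) := by
          apply hHH
          rw [Subgroup.mem_centralizer_iff]
          intro y hy
          have : y = 1 := hy
          rw [this]; simp
        rw [Subgroup.mem_bot] at hx1
        rw [hx1]; exact Subgroup.one_mem _
      · apply hfin
        intro q hq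
        have h1 := hquot (pCore p G) hR q hq
        have h2 := hxq q hq
        obtain ⟨k, hk⟩ := (pCore_isPGroup p (G := G)) ⟨_, h1⟩
        have hk' : (x * q * x⁻¹ * q⁻¹) ^ p ^ k = 1 := by
          simpa using congrArg Subtype.val hk
        have h3 : (x * q * x⁻¹ * q⁻¹) ^ Nat.card Q = 1 := pow_card_eq_one_of_mem h2
        have h4 := pow_gcd_eq_one.mpr ⟨hk', h3⟩
        have h5 : (p ^ k).gcd (Nat.card Q) = 1 :=
          Nat.Coprime.pow_left k ((Nat.Prime.coprime_iff_not_dvd hp).mpr hQ)
        rw [h5, pow_one] at h4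
        exact h4
    · -- `O_{p'}(G) ≠ 1`
      apply hfin
      intro q hq
      have h1 := hquot (pPrimeCore p G) hW q hq
      have h2 := hxq q hq
      obtain ⟨k, hk⟩ := hxp
      have h3 : (x * q * x⁻¹ * q⁻¹) ^ Nat.card Q = 1 := pow_card_eq_one_of_mem h2
      refine eq_one_of_comm_of_coprime ?_ hk h3
        (Nat.Coprime.pow_left k ((Nat.Prime.coprime_iff_not_dvd hp).mpr hQ))
      -- `x` centralizes `Q ⊓ W`
      have hPc : (P : Subgroup G) ≤ Subgroup.centralizer ((Q ⊓ pPrimeCore p G : Subgroup G) : Set G) := by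
        intro y hy
        rw [Subgroup.mem_centralizer_iff]
        intro w hw
        have hw1 := hQP (Subgroup.mem_inf.mp hw).1
        have hw2 := (Subgroup.mem_inf.mp hw).2
        have hn : (pPrimeCore p G).Normal := inferInstance
        have h5 : w * y * w⁻¹ * y⁻¹ ∈ (P : Subgroup G) :=
          Subgroup.mul_mem _ ((Subgroup.mem_normalizer_iff.mp hw1 y).mp hy) (Subgroup.inv_mem _ hy)
        have h6 : w * y * w⁻¹ * y⁻¹ ∈ pPrimeCore p G := by
          have e : w * y * w⁻¹ * y⁻¹ = w * (y * w⁻¹ * y⁻¹) := by group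
          rw [e]
          exact Subgroup.mul_mem _ hw2 (hn.conj_mem _ (Subgroup.inv_mem _ hw2) y)
        obtain ⟨j, hj⟩ := P.2 ⟨_, h5⟩
        have hj' : (w * y * w⁻¹ * y⁻¹) ^ p ^ j = 1 := by simpa using congrArg Subtype.val hj
        have h7 : (w * y * w⁻¹ * y⁻¹) ^ Nat.card (pPrimeCore p G) = 1 := pow_card_eq_one_of_mem h6
        have h8 := pow_gcd_eq_one.mpr ⟨hj', h7⟩
        have h9 : (p ^ j).gcd (Nat.card (pPrimeCore p G)) = 1 :=
          Nat.Coprime.pow_left j (pPrimeCore_coprime p).symm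
        rw [h9, pow_one] at h8
        calc w * y = (w * y * w⁻¹ * y⁻¹) * (y * w) := by group
          _ = y * w := by rw [h8, one_mul]
      have hxN : x ∈ Subgroup.normalizer ((Q ⊓ pPrimeCore p G : Subgroup G) : Set G) := by
        rw [Subgroup.mem_normalizer_iff]
        intro w
        have hn : (pPrimeCore p G).Normal := inferInstance
        rw [Subgroup.mem_inf, Subgroup.mem_inf, ← Subgroup.mem_normalizer_iff.mp hxQ w]
        constructor
        · rintro ⟨ha, hb⟩; exact ⟨ha, hn.conj_mem w hb x⟩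
        · rintro ⟨ha, hb⟩
          refine ⟨ha, ?_⟩
          have := hn.conj_mem _ hb x⁻¹
          simpa [mul_assoc] using this
      have hCN : Subgroup.centralizer ((Q ⊓ pPrimeCore p G : Subgroup G) : Set G) ≤
          Subgroup.normalizer ((Q ⊓ pPrimeCore p G : Subgroup G) : Set G) :=
        Subgroup.centralizer_le_normalizer _
      have hmem : (⟨x, hxN⟩ : Subgroup.normalizer ((Q ⊓ pPrimeCore p G : Subgroup G) : Set G)) ∈
          (Subgroup.centralizer ((Q ⊓ pPrimeCore p G : Subgroup G) : Set G)).subgroupOf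
            (Subgroup.normalizer ((Q ⊓ pPrimeCore p G : Subgroup G) : Set G)) := by
        apply mem_of_subnormal_of_coprime_index (p := p)
        · exact (inferInstance : ((Subgroup.centralizer ((Q ⊓ pPrimeCore p G : Subgroup G) : Set G)).subgroupOf
            (Subgroup.normalizer ((Q ⊓ pPrimeCore p G : Subgroup G) : Set G))).Normal).isSubnormal
        · apply Nat.Coprime.symm
          rw [Nat.Prime.coprime_iff_not_dvd hp]
          intro h
          apply P.not_dvd_index
          refine h.trans ?_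
          exact (Subgroup.relIndex_dvd_of_le_left _ hPc).trans
            (Subgroup.relIndex_dvd_index_of_le (hPc.trans hCN))
        · exact ⟨k, Subtype.ext (by simpa using hk)⟩
      rw [Subgroup.mem_subgroupOf, Subgroup.mem_centralizer_iff] at hmem
      exact (hmem _ (Subgroup.mem_inf.mpr ⟨h2, h1⟩)).symm

end Cfsg.H9
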