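import Mathlib
import Cfsg.Agent.S0023
import Cfsg.Agent.Lib.Helper16.Basic

set_option autoImplicit false
open Cfsg

namespace Cfsg.H9.PiCl

open Cfsg.Agent.Lib.Helper16

/-- `n` is a `π`-number. -/
def Pn (π : Set ℕ) (n : ℕ) : Prop := ∀ p : ℕ, p.Prime → p ∣ n → p ∈ π

variable {π : Set ℕ}

theorem Pn.of_dvd {n m : ℕ} (h : Pn π n) (hd : m ∣ n) : Pn π m :=
  fun p hp hpm => h p hp (hpm.trans hd)

theorem Pn.mul {n m : ℕ} (h : Pn π n) (h' : Pn π m) : Pn π (n * m) :=
  fun p hp hd => (hp.dvd_mul.mp hd).elim (h p hp) (h' p hp)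

theorem eq_one_of_Pn {n : ℕ} (h : Pn π n) (h' : Pn πᶜ n) : n = 1 := by
  by_contra hn
  obtain ⟨p, hp, hd⟩ := Nat.exists_prime_and_dvd hn
  exact h' p hp hd (h p hp hd)

theorem coprime_of_Pn {n m : ℕ} (h : Pn π n) (h' : Pn πᶜ m) : n.Coprime m :=
  eq_one_of_Pn (h.of_dvd (Nat.gcd_dvd_left n m)) (h'.of_dvd (Nat.gcd_dvd_right n m))

theorem Pn_prime_pow {q : ℕ} (hq : q.Prime) (hqπ : q ∈ π) (k : ℕ) : Pn π (q ^ k) := by
  intro p hp hd
  have := (Nat.prime_dvd_prime_iff_eq hp hq).mp (hp.dvd_of_dvd_pow hd)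
  rwa [this]

section
variable {G : Type*} [Group G]

theorem mem_of_normal_index (N : Subgroup G) [N.Normal] (hN : Pn πᶜ N.index) {x : G}
    (hx : Pn π (orderOf x)) : x ∈ N := by
  rw [← QuotientGroup.eq_one_iff, ← orderOf_eq_one_iff]
  apply eq_one_of_Pn (π := π)
  · exact hx.of_dvd (orderOf_map_dvd (QuotientGroup.mk' N) x)
  · exact hN.of_dvd (orderOf_dvd_natCard _)

/-- the `π`-elements of `H` form a subgroup -/
def ClosedIn (π : Set ℕ) (H : Subgroup G) : Prop :=
  ∃ K : Subgroup G, ∀ x : G, x ∈ K ↔ x ∈ H ∧ Pn π (orderOf x)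

theorem closedIn_top_iff : ClosedIn π (⊤ : Subgroup G) ↔
    ∃ K : Subgroup G, ∀ x : G, x ∈ K ↔ ∀ p : ℕ, p.Prime → p ∣ orderOf x → p ∈ π := by
  constructor
  · rintro ⟨K, hK⟩
    exact ⟨K, fun x => by rw [hK]; simp [Pn]⟩
  · rintro ⟨K, hK⟩
    exact ⟨K, fun x => by rw [hK]; simp [Pn]⟩

theorem closedIn_of_hall [Finite G] (L : Subgroup G) [L.Normal] (h1 : Pn π (Nat.card L))
    (h2 : Pn πᶜ L.index) : ClosedIn π (⊤ : Subgroup G) := by
  refine ⟨L, fun x => ⟨fun hx => ⟨Subgroup.mem_top x, ?_⟩, fun hx => mem_of_normal_index L h2 hx.2⟩⟩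
  apply h1.of_dvd
  have := orderOf_dvd_natCard (⟨x, hx⟩ : L)
  rwa [← Subgroup.orderOf_coe] at this

theorem orderOf_conj' (g x : G) : orderOf (g * x * g⁻¹) = orderOf x := by
  have : g * x * g⁻¹ = MulAut.conj g x := by simp
  rw [this, MulEquiv.orderOf_eq]

theorem ClosedIn.data [Finite G] {M : Subgroup G} [hM : M.Normal] (h : ClosedIn π M) :
    ∃ L : Subgroup G, L.Normal ∧ L ≤ M ∧ Pn π (Nat.card L) ∧ Pn πᶜ (L.relIndex M) ∧
      ∀ x : G, x ∈ L ↔ x ∈ M ∧ Pn π (orderOf x) := by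
  obtain ⟨L, hL⟩ := h
  refine ⟨L, ⟨?_⟩, fun x hx => ((hL x).mp hx).1, ?_, ?_, hL⟩
  · intro x hx g
    rw [hL] at hx ⊢
    exact ⟨hM.conj_mem x hx.1 g, by rw [orderOf_conj']; exact hx.2⟩
  · intro p hp hd
    haveI : Fact p.Prime := ⟨hp⟩
    obtain ⟨x, hx⟩ := exists_prime_orderOf_dvd_card' p hd
    have h1 := ((hL x).mp x.2).2
    rw [Subgroup.orderOf_coe, hx] at h1
    exact h1 p hp dvd_rfl
  · intro p hp hd hpπ
    haveI : Fact p.Prime := ⟨hp⟩
    obtain ⟨P⟩ : Nonempty (Sylow p M) := inferInstance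
    have hle : (P : Subgroup M) ≤ L.subgroupOf M := by
      intro y hy
      rw [Subgroup.mem_subgroupOf, hL]
      refine ⟨y.2, ?_⟩
      obtain ⟨k, hk⟩ := (IsPGroup.iff_orderOf.mp P.isPGroup') ⟨y, hy⟩
      rw [Subgroup.orderOf_mk] at hk
      rw [Subgroup.orderOf_coe, hk]
      exact Pn_prime_pow hp hpπ k
    exact P.not_dvd_index (hd.trans (Subgroup.index_dvd_of_le hle))

/-- element form of `π'`-homogeneity -/
def Hom' (π : Set ℕ) (G : Type*) [Group G] : Prop :=
  ∀ H : Subgroup G, H ≠ ⊥ → Pn πᶜ (Nat.card H) → ∀ r ∈ π, r.Prime →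
    ∀ y ∈ Subgroup.normalizer (H : Set G), ∀ k : ℕ,
      y ^ (r ^ k) ∈ Subgroup.centralizer (H : Set G) → y ∈ Subgroup.centralizer (H : Set G)

theorem hom'_of_hom [Finite G]
    (hhom : ∀ H : Subgroup G, H ≠ ⊥ → (∀ p : ℕ, p.Prime → p ∣ Nat.card ↥H → p ∉ π) →
        ∀ p : ℕ, p.Prime → p ∣ (Subgroup.centralizer (H : Set G)).relIndex
          (Subgroup.normalizer (H : Set G)) → p ∉ π) : Hom' π G := by
  intro H hH hHπ r hrπ hr y hy k hyk
  have h1 := hhom H hH hHπ
  set C := Subgroup.centralizer (H : Set G) with hC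
  set N := Subgroup.normalizer (H : Set G) with hN
  haveI hn : (C.subgroupOf N).Normal := by
    constructor
    intro c hc n
    rw [Subgroup.mem_subgroupOf] at hc ⊢
    rw [hC, Subgroup.mem_centralizer_iff] at hc ⊢
    intro h hh
    have hn' : (n : G)⁻¹ * h * ((n : G)⁻¹)⁻¹ ∈ H :=
      (Subgroup.mem_normalizer_iff.mp (N.inv_mem n.2) h).mp hh
    have h2 := hc _ hn'
    simp only [Subgroup.coe_mul, Subgroup.coe_inv, inv_inv] at h2 ⊢
    calc h * ((n : G) * c * (n : G)⁻¹) = n * (((n : G)⁻¹ * h * n) * c) * (n : G)⁻¹ := by group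
      _ = (n : G) * c * (n : G)⁻¹ * h := by rw [h2]; group
  have h2 : (⟨y, hy⟩ : N) ∈ C.subgroupOf N := by
    rw [← QuotientGroup.eq_one_iff, ← orderOf_eq_one_iff]
    have d1 : orderOf ((⟨y, hy⟩ : N) : N ⧸ C.subgroupOf N) ∣ r ^ k := by
      apply orderOf_dvd_of_pow_eq_one
      rw [← QuotientGroup.mk_pow, QuotientGroup.eq_one_iff, Subgroup.mem_subgroupOf]
      exact hyk
    have d2 : orderOf ((⟨y, hy⟩ : N) : N ⧸ C.subgroupOf N) ∣ C.relIndex N :=
      orderOf_dvd_natCard _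
    exact eq_one_of_Pn ((Pn_prime_pow hr hrπ k).of_dvd d1) (Pn.of_dvd (π := πᶜ) h1 d2)
  exact h2

theorem Hom'.subgroup (h : Hom' π G) (X : Subgroup G) : Hom' π X := by
  intro H hH hHπ r hrπ hr y hy k hyk
  have hinj := X.subtype_injective
  have h1 : H.map X.subtype ≠ ⊥ := by
    rwa [Ne, Subgroup.map_eq_bot_iff_of_injective _ hinj]
  have h2 : Pn πᶜ (Nat.card (H.map X.subtype)) := by
    rwa [Subgroup.card_map_of_injective hinj]
  have h3 : (y : G) ∈ Subgroup.normalizer ((H.map X.subtype : Subgroup G) : Set G) := by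
    rw [Subgroup.mem_normalizer_iff]
    intro h
    constructor
    · rintro ⟨a, ha, rfl⟩
      exact ⟨y * a * y⁻¹, (Subgroup.mem_normalizer_iff.mp hy a).mp ha, by simp⟩
    · rintro ⟨b, hb, hb'⟩
      refine ⟨y⁻¹ * b * y, (Subgroup.mem_normalizer_iff.mp hy _).mpr ?_, ?_⟩
      · have : y * (y⁻¹ * b * y) * y⁻¹ = b := by group
        rwa [this]
      · simp only [Subgroup.subtype_apply, Subgroup.coe_mul, Subgroup.coe_inv] at hb' ⊢
        rw [hb']
        group
  have h4 : ∀ z : X, (z : G) ∈ Subgroup.centralizer ((H.map X.subtype : Subgroup G) : Set G) ↔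
      z ∈ Subgroup.centralizer (H : Set X) := by
    intro z
    rw [Subgroup.mem_centralizer_iff, Subgroup.mem_centralizer_iff]
    constructor
    · intro hz a ha
      exact Subtype.ext (hz a ⟨a, ha, rfl⟩)
    · rintro hz _ ⟨a, ha, rfl⟩
      exact congrArg (fun t : X => (t : G)) (hz a ha)
  rw [← h4]
  apply h _ h1 h2 r hrπ hr _ h3 k
  have := (h4 (y ^ (r ^ k))).mpr hyk
  simpa using this

end

section key
variable {X : Type*} [Group X] [Finite X]

theorem eq_top_of_sylow_le (C : Subgroup X)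
    (h : ∀ q : ℕ, [Fact q.Prime] → ∃ Q : Sylow q X, (Q : Subgroup X) ≤ C) : C = ⊤ := by
  rw [← Subgroup.index_eq_one]
  by_contra hn
  obtain ⟨q, hq, hd⟩ := Nat.exists_prime_and_dvd hn
  haveI : Fact q.Prime := ⟨hq⟩
  obtain ⟨Q, hQ⟩ := h q
  exact Q.not_dvd_index (hd.trans (Subgroup.index_dvd_of_le hQ))

omit [Finite X] in
theorem card_map_mk' (L M : Subgroup X) [L.Normal] :
    Nat.card (M.map (QuotientGroup.mk' L)) = L.relIndex M := by
  rw [← Subgroup.relIndex_bot_left, ← Subgroup.relIndex_comap, MonoidHom.comap_bot,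
    QuotientGroup.ker_mk']

theorem key (hhom : Hom' π X) (L M : Subgroup X) [L.Normal] [M.Normal]
    (hL : Pn π (Nat.card L)) (hML : Pn πᶜ (L.relIndex M)) {r : ℕ} (hr : r.Prime) (hrπ : r ∈ π)
    {x : X} {k : ℕ} (hx : x ^ (r ^ k) = 1) :
    (QuotientGroup.mk' L x) ∈ Subgroup.centralizer
      ((M.map (QuotientGroup.mk' L) : Subgroup (X ⧸ L)) : Set (X ⧸ L)) := by
  classical
  set f := QuotientGroup.mk' L with hf
  have hfs : Function.Surjective f := QuotientGroup.mk'_surjective L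
  set Mb := M.map f with hMb
  haveI hMbn : Mb.Normal := Subgroup.Normal.map inferInstance f hfs
  have hMbc : Pn πᶜ (Nat.card Mb) := by rw [hMb, hf, card_map_mk']; exact hML
  set A := Subgroup.zpowers (f x) with hA
  have hAN : A ≤ Subgroup.normalizer (Mb : Set (X ⧸ L)) := by
    rw [Subgroup.normalizer_eq_top]; exact le_top
  have hxk : (f x) ^ (r ^ k) = 1 := by rw [← map_pow, hx, map_one]
  have hAc : Pn π (Nat.card A) := by
    rw [hA, Nat.card_zpowers]
    exact (Pn_prime_pow hr hrπ k).of_dvd (orderOf_dvd_of_pow_eq_one hxk)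
  have hsol : Group.IsSolvable A := by
    apply Group.isSolvable_of_comm
    intro a b
    exact mul_comm' a b
  have main : ∀ q : ℕ, [Fact q.Prime] → ∃ Q : Sylow q Mb,
      (Q : Subgroup Mb) ≤ (Subgroup.centralizer ({f x} : Set (X ⧸ L))).subgroupOf Mb := by
    intro q hqF
    have hq : q.Prime := hqF.out
    obtain ⟨Qs, hQs⟩ := Cfsg.Agent.S0023.result A Mb hAN (coprime_of_Pn hAc hMbc) (Or.inl hsol) q
    refine ⟨Qs, ?_⟩
    set Qb := (Qs : Subgroup Mb).map Mb.subtype with hQb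
    have hQbp : IsPGroup q Qb := Qs.isPGroup'.map _
    suffices hsuff : Qb ≤ Subgroup.centralizer ({f x} : Set (X ⧸ L)) by
      intro b hb
      rw [Subgroup.mem_subgroupOf]
      exact hsuff ⟨b, hb, rfl⟩
    by_cases hbot : Qb = ⊥
    · rw [hbot]; exact bot_le
    have hqπ : q ∉ π := by
      obtain ⟨n, hn⟩ := IsPGroup.iff_card.mp hQbp
      have hn0 : n ≠ 0 := by
        rintro rfl
        rw [pow_zero] at hn
        exact hbot (Subgroup.card_eq_one.mp hn)
      have h1 : q ∣ Nat.card Qb := by rw [hn]; exact dvd_pow_self q hn0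
      have h2 : Nat.card Qb ∣ Nat.card Mb := Subgroup.card_dvd_of_le (Subgroup.map_subtype_le _)
      exact hMbc q hq (h1.trans h2)
    set U := Qb.comap f with hU
    obtain ⟨Q⟩ : Nonempty (Sylow q U) := inferInstance
    set Q' := (Q : Subgroup U).map U.subtype with hQ'
    have hQ'syl : IsSyl q Q' U := isSyl_mk Q
    -- the image of Q' is Qb
    have hlift : ∀ u ∈ U, ∃ s ∈ Q', f s = f u := by
      intro u hu
      have hg := f.subgroupComap_surjective_of_surjective Qb hfs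
      have htop : (⊤ : Subgroup Qb) = ((Q.mapSurjective hg : Sylow q Qb) : Subgroup Qb) :=
        (Q.mapSurjective hg).is_maximal' (hQbp.to_subgroup ⊤) le_top
      have hb : (⟨f u, hu⟩ : Qb) ∈ ((Q.mapSurjective hg : Sylow q Qb) : Subgroup Qb) := by
        rw [← htop]; exact Subgroup.mem_top _
      rw [Sylow.coe_mapSurjective] at hb
      obtain ⟨s, hs, hs'⟩ := hb
      refine ⟨s, ⟨s, hs, rfl⟩, ?_⟩
      exact congrArg (fun t : Qb => (t : X ⧸ L)) hs'
    have hxU : x ∈ Subgroup.normalizer (U : Set X) := by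
      have h1 : f x ∈ Subgroup.normalizer (Qb : Set (X ⧸ L)) := hQs (Subgroup.mem_zpowers _)
      have h2 := Subgroup.comap_normalizer_eq_of_surjective Qb hfs
      rw [hU, ← h2]
      exact h1
    have hcj : IsSyl q (Q'.map (MulAut.conj x).toMonoidHom) U := by
      have := hQ'syl.cj x
      rwa [cj_eq_self_iff.mpr hxU] at this
    obtain ⟨u, hu, hconj⟩ := hcj.exists_conj_eq hQ'syl
    rw [cj_cj, cj_eq_self_iff] at hconj
    obtain ⟨s, hs, hsu⟩ := hlift u hu
    have hyN : s⁻¹ * (u * x) ∈ Subgroup.normalizer (Q' : Set X) :=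
      mul_mem (inv_mem (Subgroup.le_normalizer hs)) hconj
    have hfy : f (s⁻¹ * (u * x)) = f x := by
      rw [map_mul, map_mul, map_inv, hsu, inv_mul_cancel_left]
    set y := s⁻¹ * (u * x) with hy
    have hQ'p : IsPGroup q Q' := hQ'syl.isPGroup
    have hQ'c : Pn πᶜ (Nat.card Q') := by
      obtain ⟨n, hn⟩ := IsPGroup.iff_card.mp hQ'p
      rw [hn]
      exact Pn_prime_pow hq hqπ n
    have hLQ : L ⊓ Q' = ⊥ := (Subgroup.disjoint_of_coprime_natCard (coprime_of_Pn hL hQ'c)).eq_bot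
    have hyk : y ^ (r ^ k) ∈ Subgroup.centralizer (Q' : Set X) := by
      have h1 : y ^ (r ^ k) ∈ L := by
        rw [← QuotientGroup.ker_mk' L, MonoidHom.mem_ker, map_pow]
        change f y ^ (r ^ k) = 1
        rw [hfy, hxk]
      have h2 : y ^ (r ^ k) ∈ Subgroup.normalizer (Q' : Set X) := pow_mem hyN _
      set w := y ^ (r ^ k) with hw
      rw [Subgroup.mem_centralizer_iff]
      intro t ht
      have h3 : w * t * w⁻¹ * t⁻¹ ∈ L ⊓ Q' := by
        refine Subgroup.mem_inf.mpr ⟨?_, ?_⟩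
        · have : w * t * w⁻¹ * t⁻¹ = w * (t * w⁻¹ * t⁻¹) := by group
          rw [this]
          exact mul_mem h1 ((inferInstance : L.Normal).conj_mem _ (inv_mem h1) t)
        · exact mul_mem ((Subgroup.mem_normalizer_iff.mp h2 t).mp ht) (inv_mem ht)
      rw [hLQ, Subgroup.mem_bot] at h3
      have : w * t = t * w := by
        calc w * t = (w * t * w⁻¹ * t⁻¹) * (t * w) := by group
          _ = t * w := by rw [h3, one_mul]
      exact this.symm
    have hQ'ne : Q' ≠ ⊥ := by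
      intro h0
      apply hbot
      rw [eq_bot_iff]
      intro b hb
      obtain ⟨u', rfl⟩ := hfs b
      obtain ⟨s', hs', hsu'⟩ := hlift u' hb
      rw [h0, Subgroup.mem_bot] at hs'
      rw [Subgroup.mem_bot, ← hsu', hs', map_one]
    have hyC := hhom Q' hQ'ne hQ'c r hrπ hr y hyN k hyk
    intro b hb
    obtain ⟨u', rfl⟩ := hfs b
    obtain ⟨s', hs', hsu'⟩ := hlift u' hb
    rw [Subgroup.mem_centralizer_singleton_iff, ← hsu', ← hfy, ← map_mul, ← map_mul,
      Subgroup.mem_centralizer_iff.mp hyC s' hs']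
  have htop := eq_top_of_sylow_le _ main
  rw [Subgroup.mem_centralizer_iff]
  intro b hb
  have h1 : (⟨b, hb⟩ : Mb) ∈ (Subgroup.centralizer ({f x} : Set (X ⧸ L))).subgroupOf Mb := by
    rw [htop]; exact Subgroup.mem_top _
  rw [Subgroup.mem_subgroupOf, Subgroup.mem_centralizer_singleton_iff] at h1
  exact h1

theorem step_pi (hhom : Hom' π X) (M : Subgroup X) [M.Normal] (hM : ClosedIn π M)
    (hXM : Pn π M.index) : ClosedIn π (⊤ : Subgroup X) := by
  classical
  obtain ⟨L, hLn, hLM, hLc, hLr, hL⟩ := hM.data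
  haveI := hLn
  set f := QuotientGroup.mk' L with hf
  have hfs : Function.Surjective f := QuotientGroup.mk'_surjective L
  set Mb := M.map f with hMb
  haveI hMbn : Mb.Normal := Subgroup.Normal.map inferInstance f hfs
  have hMbc : Pn πᶜ (Nat.card Mb) := by rw [hMb, hf, card_map_mk']; exact hLr
  have hMbi : Pn π Mb.index := by
    exact hXM.of_dvd (Subgroup.index_map_dvd M hfs)
  set C := Subgroup.centralizer (Mb : Set (X ⧸ L)) with hC
  haveI hCn : C.Normal := inferInstance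
  have hCi : Pn πᶜ C.index := by
    intro r hr hd hrπ
    haveI : Fact r.Prime := ⟨hr⟩
    obtain ⟨R⟩ : Nonempty (Sylow r X) := inferInstance
    have hle : ((R.mapSurjective hfs : Sylow r (X ⧸ L)) : Subgroup (X ⧸ L)) ≤ C := by
      rw [Sylow.coe_mapSurjective]
      rintro _ ⟨x, hx, rfl⟩
      obtain ⟨k, hk⟩ := R.isPGroup' ⟨x, hx⟩
      have hk' : x ^ (r ^ k) = 1 := by simpa using congrArg Subtype.val hk
      exact key hhom L M hLc hLr hr hrπ hk'
    exact (R.mapSurjective hfs).not_dvd_index (hd.trans (Subgroup.index_dvd_of_le hle))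
  obtain ⟨B, hB⟩ := Subgroup.exists_right_complement'_of_coprime (N := Mb)
    (coprime_of_Pn hMbi hMbc).symm
  have hBi : B.index = Nat.card Mb := hB.index_eq_card
  have hBc : Mb.index = Nat.card B := hB.symm.index_eq_card
  have hBC : B ≤ C := by
    intro b hb
    apply mem_of_normal_index C hCi
    apply hMbi.of_dvd
    rw [hBc]
    have := orderOf_dvd_natCard (⟨b, hb⟩ : B)
    rwa [← Subgroup.orderOf_coe] at this
  haveI hBn : B.Normal := by
    constructor
    intro c hc g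
    obtain ⟨⟨m, b⟩, hmb⟩ := hB.2 g
    simp only at hmb
    have h1 : (b : X ⧸ L) * c * (b : X ⧸ L)⁻¹ ∈ B := mul_mem (mul_mem b.2 hc) (inv_mem b.2)
    have h2 := Subgroup.mem_centralizer_iff.mp (hBC h1) m m.2
    rw [← hmb]
    have : (m : X ⧸ L) * b * c * ((m : X ⧸ L) * b)⁻¹
        = ((m : X ⧸ L) * ((b : X ⧸ L) * c * (b : X ⧸ L)⁻¹)) * (m : X ⧸ L)⁻¹ := by group
    rw [this, h2, mul_inv_cancel_right]
    exact h1
  haveI : (B.comap f).Normal := inferInstance
  apply closedIn_of_hall (B.comap f)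
  · have hle : L ≤ B.comap f := by
      intro x hx
      rw [Subgroup.mem_comap]
      have : f x = 1 := by rw [hf, QuotientGroup.mk'_apply, QuotientGroup.eq_one_iff]; exact hx
      rw [this]; exact one_mem _
    have h1 := Subgroup.relIndex_mul_relIndex ⊥ L (B.comap f) bot_le hle
    rw [Subgroup.relIndex_bot_left, Subgroup.relIndex_bot_left, ← card_map_mk',
      Subgroup.map_comap_eq_self_of_surjective hfs] at h1
    rw [← h1]
    exact hLc.mul (by rw [← hBc]; exact hMbi)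
  · rw [Subgroup.index_comap_of_surjective _ hfs, hBi]
    exact hMbc

omit [Finite X] in
theorem step_pi' (M : Subgroup X) [M.Normal] (hM : ClosedIn π M)
    (hXM : Pn πᶜ M.index) : ClosedIn π (⊤ : Subgroup X) := by
  obtain ⟨K, hK⟩ := hM
  exact ⟨K, fun x => by
    rw [hK]
    exact ⟨fun h => ⟨Subgroup.mem_top _, h.2⟩, fun h => ⟨mem_of_normal_index M hXM h.2, h.2⟩⟩⟩

end key

section series
variable {G : Type*} [Group G]

theorem closedIn_subgroupOf {H H' : Subgroup G} (h : ClosedIn π H) :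
    ClosedIn π (H.subgroupOf H') := by
  obtain ⟨K, hK⟩ := h
  exact ⟨K.subgroupOf H', fun x => by
    rw [Subgroup.mem_subgroupOf, hK, Subgroup.mem_subgroupOf, Subgroup.orderOf_coe]⟩

theorem closedIn_of_top {H' : Subgroup G} (h : ClosedIn π (⊤ : Subgroup H')) : ClosedIn π H' := by
  obtain ⟨K, hK⟩ := h
  refine ⟨K.map H'.subtype, fun x => ?_⟩
  constructor
  · rintro ⟨y, hy, rfl⟩
    refine ⟨y.2, ?_⟩
    have := ((hK y).mp hy).2
    rwa [← Subgroup.orderOf_coe] at this
  · rintro ⟨hx, hx'⟩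
    refine ⟨⟨x, hx⟩, (hK _).mpr ⟨Subgroup.mem_top _, ?_⟩, rfl⟩
    rwa [← Subgroup.orderOf_coe]

theorem closedIn_top_of {H' : Subgroup G} (h : ClosedIn π H') : ClosedIn π (⊤ : Subgroup H') := by
  obtain ⟨K, hK⟩ := h
  exact ⟨K.subgroupOf H', fun x => by
    rw [Subgroup.mem_subgroupOf, hK, Subgroup.orderOf_coe]
    exact ⟨fun h => ⟨Subgroup.mem_top _, h.2⟩, fun h => ⟨x.2, h.2⟩⟩⟩

theorem step [Finite G] (hhom : Hom' π G) {H H' : Subgroup G} [H.Normal]
    (hH : ClosedIn π H) (hidx : Pn π (H.relIndex H') ∨ Pn πᶜ (H.relIndex H')) :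
    ClosedIn π H' := by
  apply closedIn_of_top
  rcases hidx with h | h
  · exact step_pi (hhom.subgroup H') (H.subgroupOf H') (closedIn_subgroupOf hH) h
  · exact step_pi' (H.subgroupOf H') (closedIn_subgroupOf hH) h

theorem closedIn_bot : ClosedIn π (⊥ : Subgroup G) := by
  refine ⟨⊥, fun x => ⟨fun h => ⟨h, ?_⟩, fun h => h.1⟩⟩
  rw [Subgroup.mem_bot] at h
  rw [h, orderOf_one]
  intro p hp hd
  exact absurd (Nat.dvd_one.mp hd) hp.one_lt.ne'

theorem closed_of_series [Finite G] (hhom : Hom' π G) (n : ℕ) (H : Fin (n + 1) → Subgroup G)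
    (h0 : H 0 = ⊥) (hn : ∀ i, (H i).Normal)
    (hs : ∀ i : Fin n, Pn π ((H i.castSucc).relIndex (H i.succ)) ∨
      Pn πᶜ ((H i.castSucc).relIndex (H i.succ))) : ∀ i, ClosedIn π (H i) := by
  intro i
  induction i using Fin.induction with
  | zero => rw [h0]; exact closedIn_bot
  | succ i ih =>
    haveI := hn i.castSucc
    exact step hhom ih (hs i)

theorem hom_of_closed [Finite G] (h : ClosedIn π (⊤ : Subgroup G)) (H : Subgroup G)
    (hH : Pn πᶜ (Nat.card H)) : Pn πᶜ ((Subgroup.centralizer (H : Set G)).relIndex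
      (Subgroup.normalizer (H : Set G))) := by
  obtain ⟨K, hKn, -, hKc, -, hK⟩ := h.data
  intro p hp hd hpπ
  haveI : Fact p.Prime := ⟨hp⟩
  set N := Subgroup.normalizer (H : Set G) with hN
  obtain ⟨P⟩ : Nonempty (Sylow p N) := inferInstance
  have hKH : K ⊓ H = ⊥ := (Subgroup.disjoint_of_coprime_natCard (coprime_of_Pn hKc hH)).eq_bot
  have hle : (P : Subgroup N) ≤ (Subgroup.centralizer (H : Set G)).subgroupOf N := by
    intro y hy
    rw [Subgroup.mem_subgroupOf]
    have hyK : (y : G) ∈ K := by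
      rw [hK]
      refine ⟨Subgroup.mem_top _, ?_⟩
      obtain ⟨k, hk⟩ := (IsPGroup.iff_orderOf.mp P.isPGroup') ⟨y, hy⟩
      rw [Subgroup.orderOf_mk] at hk
      rw [Subgroup.orderOf_coe, hk]
      exact Pn_prime_pow hp hpπ k
    rw [Subgroup.mem_centralizer_iff]
    intro t ht
    set w : G := (y : G) with hw
    have h3 : w * t * w⁻¹ * t⁻¹ ∈ K ⊓ H := by
      refine Subgroup.mem_inf.mpr ⟨?_, ?_⟩
      · have : w * t * w⁻¹ * t⁻¹ = w * (t * w⁻¹ * t⁻¹) := by group
        rw [this]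
        exact mul_mem hyK (hKn.conj_mem _ (inv_mem hyK) t)
      · exact mul_mem ((Subgroup.mem_normalizer_iff.mp y.2 t).mp ht) (inv_mem ht)
    rw [hKH, Subgroup.mem_bot] at h3
    have : w * t = t * w := by
      calc w * t = (w * t * w⁻¹ * t⁻¹) * (t * w) := by group
        _ = t * w := by rw [h3, one_mul]
    exact this.symm
  exact P.not_dvd_index (hd.trans (Subgroup.index_dvd_of_le hle))

end series

end Cfsg.H9.PiCl
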