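import Mathlib
import Cfsg.Agent.Lib.Helper16.Basic

set_option autoImplicit false
open Cfsg

namespace Cfsg.H9.SE

open Cfsg.Agent.Lib.Helper16

variable {S : Type*} [Group S]

theorem mul_self_of_orderOf_two {t : S} (h : orderOf t = 2) : t * t = 1 := by
  rw [← sq, ← h, pow_orderOf_eq_one]

theorem inv_eq_of_orderOf_two {t : S} (h : orderOf t = 2) : t⁻¹ = t :=
  inv_eq_of_mul_eq_one_left (mul_self_of_orderOf_two h)

theorem conj_pow_inv {t u : S} (ht : t * t = 1) (hu : u * u = 1) (k : ℕ) :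
    t * (t * u) ^ k * t⁻¹ = ((t * u) ^ k)⁻¹ := by
  rw [← conj_pow, ← inv_pow]
  congr 1
  have h1 : t⁻¹ = t := inv_eq_of_mul_eq_one_left ht
  have h2 : u⁻¹ = u := inv_eq_of_mul_eq_one_left hu
  rw [mul_inv_rev, h1, h2, ← mul_assoc, ht, one_mul]

theorem conj_pow_inv' {t u : S} (ht : t * t = 1) (hu : u * u = 1) (k : ℕ) :
    u * (t * u) ^ k * u⁻¹ = ((t * u) ^ k)⁻¹ := by
  rw [← conj_pow, ← inv_pow]
  congr 1
  have h1 : t⁻¹ = t := inv_eq_of_mul_eq_one_left ht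
  have h2 : u⁻¹ = u := inv_eq_of_mul_eq_one_left hu
  rw [mul_inv_rev, h1, h2, mul_assoc, mul_assoc, hu, mul_one]

theorem dih_odd {t u : S} (ht : orderOf t = 2) (hu : orderOf u = 2) (h : Odd (orderOf (t * u))) :
    ∃ w : S, w * t * w⁻¹ = u ∧ w * u * w⁻¹ = t := by
  obtain ⟨k, hk⟩ := h
  have ht1 := mul_self_of_orderOf_two ht
  have hu1 := mul_self_of_orderOf_two hu
  have hti := inv_eq_of_orderOf_two ht
  have hui := inv_eq_of_orderOf_two hu
  set r := t * u with hr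
  have hc := conj_pow_inv ht1 hu1 k
  rw [← hr] at hc
  have hr1 : r ^ k * r ^ k * r = 1 := by
    rw [← pow_add, ← pow_succ, ← two_mul, ← hk, pow_orderOf_eq_one]
  have hw2 : (r ^ k * t) * (r ^ k * t) = 1 := by
    have : t * r ^ k * t = (r ^ k)⁻¹ := by rw [← hc, hti]
    calc (r ^ k * t) * (r ^ k * t) = r ^ k * (t * r ^ k * t) := by group
      _ = 1 := by rw [this, mul_inv_cancel]
  have hwi : (r ^ k * t)⁻¹ = r ^ k * t := inv_eq_of_mul_eq_one_left hw2
  have h1 : (r ^ k * t) * t * (r ^ k * t)⁻¹ = u := by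
    have e1 : t * (r ^ k)⁻¹ = r ^ k * t := by
      rw [← hc]
      calc t * (t * r ^ k * t⁻¹) = (t * t) * r ^ k * t⁻¹ := by group
        _ = r ^ k * t := by rw [ht1, one_mul, hti]
    have e2 : r ^ k * r ^ k = r⁻¹ := eq_inv_of_mul_eq_one_left hr1
    calc (r ^ k * t) * t * (r ^ k * t)⁻¹ = r ^ k * (t * t) * t⁻¹ * (r ^ k)⁻¹ := by group
      _ = r ^ k * (t * (r ^ k)⁻¹) := by rw [ht1, hti]; group
      _ = (r ^ k * r ^ k) * t := by rw [e1]; group
      _ = u := by rw [e2, hr, mul_inv_rev, hti, hui, mul_assoc, ht1, mul_one]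
  refine ⟨r ^ k * t, h1, ?_⟩
  rw [← h1]
  rw [hwi]
  calc r ^ k * t * (r ^ k * t * t * (r ^ k * t)) * (r ^ k * t)
      = ((r ^ k * t) * (r ^ k * t)) * t * ((r ^ k * t) * (r ^ k * t)) := by group
    _ = t := by rw [hw2, one_mul, mul_one]

theorem dih_even {t u : S} (ht : orderOf t = 2) (hu : orderOf u = 2)
    (h : Even (orderOf (t * u))) (h0 : orderOf (t * u) ≠ 0) :
    ∃ z : S, orderOf z = 2 ∧ z * t = t * z ∧ z * u = u * z := by
  obtain ⟨k, hk⟩ := h
  have ht1 := mul_self_of_orderOf_two ht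
  have hu1 := mul_self_of_orderOf_two hu
  have hc := conj_pow_inv ht1 hu1 k
  have hc' := conj_pow_inv' ht1 hu1 k
  set r := t * u with hr
  have hk0 : 0 < k := by omega
  have hz2 : orderOf (r ^ k) = 2 := by
    rw [orderOf_pow' r hk0.ne', hk, ← two_mul, Nat.gcd_eq_right (Dvd.intro_left 2 rfl)]
    exact Nat.mul_div_cancel _ hk0
  have hzi := inv_eq_of_orderOf_two hz2
  rw [hzi] at hc hc'
  refine ⟨r ^ k, hz2, ?_, ?_⟩
  · exact (mul_inv_eq_iff_eq_mul.mp hc).symm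
  · exact (mul_inv_eq_iff_eq_mul.mp hc').symm

theorem exists_central_invol {X : Subgroup S} [Finite X] (hX : IsPGroup 2 X) (hne : X ≠ ⊥) :
    ∃ z ∈ X, orderOf z = 2 ∧ ∀ x ∈ X, x * z = z * x := by
  haveI : Fact (Nat.Prime 2) := ⟨Nat.prime_two⟩
  haveI : Nontrivial X := (Subgroup.nontrivial_iff_ne_bot X).mpr hne
  haveI := hX.center_nontrivial
  have h2 : 2 ∣ Nat.card (Subgroup.center X) := by
    obtain ⟨k, hk⟩ := IsPGroup.iff_card.mp (hX.to_subgroup (Subgroup.center X))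
    rw [hk]
    have : k ≠ 0 := by
      rintro rfl
      have h1 := Finite.one_lt_card (α := Subgroup.center X)
      omega
    exact dvd_pow_self 2 this
  obtain ⟨z, hz⟩ := exists_prime_orderOf_dvd_card' 2 h2
  refine ⟨((z : X) : S), (z : X).2, ?_, ?_⟩
  · rw [Subgroup.orderOf_coe, Subgroup.orderOf_coe, hz]
  · intro x hx
    have := Subgroup.mem_center_iff.mp z.2 ⟨x, hx⟩
    exact congrArg (fun y : X => (y : S)) this

section
variable [Finite S] {M : Subgroup S}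

theorem swap_of_not_mem (hC : ∀ i ∈ M, orderOf i = 2 → Subgroup.centralizer ({i} : Set S) ≤ M)
    {i j : S} (hi : i ∈ M) (hi2 : orderOf i = 2) (hj2 : orderOf j = 2) (hj : j ∉ M) :
    ∃ w : S, w * i * w⁻¹ = j ∧ w * j * w⁻¹ = i := by
  rcases Nat.even_or_odd (orderOf (i * j)) with h | h
  · exfalso
    obtain ⟨z, hz2, hzi, hzj⟩ := dih_even hi2 hj2 h (orderOf_pos _).ne'
    have hzM : z ∈ M := hC i hi hi2 (Subgroup.mem_centralizer_singleton_iff.mpr hzi)
    exact hj (hC z hzM hz2 (Subgroup.mem_centralizer_singleton_iff.mpr hzj.symm))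
  · exact dih_odd hi2 hj2 h

theorem exists_invol_mem (hM : Even (Nat.card M)) : ∃ i ∈ M, orderOf i = 2 := by
  haveI : Fact (Nat.Prime 2) := ⟨Nat.prime_two⟩
  obtain ⟨i, hi⟩ := exists_prime_orderOf_dvd_card' 2 hM.two_dvd
  exact ⟨i, i.2, by rw [Subgroup.orderOf_coe, hi]⟩

theorem exists_invol_not_mem (hM : Even (Nat.card M)) (hcore : Odd (Nat.card M.normalCore)) :
    ∃ j : S, orderOf j = 2 ∧ j ∉ M := by
  by_contra hcon
  push Not at hcon
  obtain ⟨i, hiM, hi2⟩ := exists_invol_mem hM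
  have hic : i ∈ M.normalCore := by
    intro g
    apply hcon
    have : g * i * g⁻¹ = MulAut.conj g i := by simp
    rw [this, MulEquiv.orderOf_eq, hi2]
  have h1 : orderOf (⟨i, hic⟩ : M.normalCore) = 2 := by
    rw [← Subgroup.orderOf_coe]; exact hi2
  have h2 := orderOf_dvd_natCard (⟨i, hic⟩ : M.normalCore)
  rw [h1] at h2
  exact (Nat.not_even_iff_odd.mpr hcore) (even_iff_two_dvd.mpr h2)

theorem mem_of_invol (hC : ∀ i ∈ M, orderOf i = 2 → Subgroup.centralizer ({i} : Set S) ≤ M)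
    {X : Subgroup S} (hX : IsSyl 2 X M) (hN : Subgroup.normalizer (X : Set S) ≤ M) {g y : S}
    (hy2 : orderOf y = 2) (hyM : y ∈ M) (hyg : g⁻¹ * y * g ∈ M) : g ∈ M := by
  haveI : Fact (Nat.Prime 2) := ⟨Nat.prime_two⟩
  set Mg := M.map (MulAut.conj g).toMonoidHom with hMg
  have hCg : ∀ i ∈ Mg, orderOf i = 2 → Subgroup.centralizer ({i} : Set S) ≤ Mg := by
    intro i hi hi2 c hc
    rw [hMg, mem_cj] at hi ⊢
    have ho : orderOf (g⁻¹ * i * g) = 2 := by
      have : g⁻¹ * i * g = MulAut.conj g⁻¹ i := by simp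
      rw [this, MulEquiv.orderOf_eq, hi2]
    apply hC _ hi ho
    rw [Subgroup.mem_centralizer_singleton_iff] at hc ⊢
    calc g⁻¹ * c * g * (g⁻¹ * i * g) = g⁻¹ * (c * i) * g := by group
      _ = g⁻¹ * i * g * (g⁻¹ * c * g) := by rw [hc]; group
  have hyMg : y ∈ Mg := by rw [hMg, mem_cj]; exact hyg
  have hyp : IsPGroup 2 (Subgroup.zpowers y) := by
    apply IsPGroup.of_card (n := 1)
    rw [Nat.card_zpowers, hy2, pow_one]
  obtain ⟨X₁, hX₁, hyX₁⟩ := exists_isSyl_ge hyp (Subgroup.zpowers_le.mpr hyM)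
  have hyX : y ∈ X₁ := hyX₁ (Subgroup.mem_zpowers y)
  have hne : X₁ ≠ ⊥ := by
    rintro rfl
    rw [Subgroup.mem_bot] at hyX
    rw [hyX, orderOf_one] at hy2
    omega
  obtain ⟨z, hzX, hz2, hzc⟩ := exists_central_invol hX₁.isPGroup hne
  have hzMg : z ∈ Mg := hCg y hyMg hy2 (Subgroup.mem_centralizer_singleton_iff.mpr (hzc y hyX).symm)
  have hX₁Mg : X₁ ≤ Mg := fun x hx =>
    hCg z hzMg hz2 (Subgroup.mem_centralizer_singleton_iff.mpr (hzc x hx))
  have hX₁' : IsSyl 2 X₁ Mg := isSyl_of_card hX₁Mg (by rw [hX₁.card, hMg, card_cj])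
  have hX₁g : IsSyl 2 (X₁.map (MulAut.conj g).toMonoidHom) Mg := hX₁.cj g
  obtain ⟨h, hh, hconj⟩ := hX₁g.exists_conj_eq hX₁'
  rw [cj_cj, cj_eq_self_iff] at hconj
  have hN₁ : Subgroup.normalizer (X₁ : Set S) ≤ M := by
    obtain ⟨m, hm, rfl⟩ := hX.exists_conj_eq hX₁
    rw [normalizer_cj]
    calc (Subgroup.normalizer (X : Set S)).map (MulAut.conj m).toMonoidHom
        ≤ M.map (MulAut.conj m).toMonoidHom := cj_le_cj.mpr hN
      _ = M := cj_eq_self_of_mem hm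
  have h1 := hN₁ hconj
  rw [hMg, mem_cj] at hh
  have h2 := M.mul_mem h1 (M.inv_mem hh)
  have h3 : h * g * (g⁻¹ * h * g)⁻¹ = g := by group
  rwa [h3] at h2

end

end Cfsg.H9.SE
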